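/-
Subgroups of the alternating group of degree 8 without normal 2-subgroups and odd normal subgroups.
-/
import Cfsg.Agent.H5.A8b
import Cfsg.Agent.H5.A8c
import Cfsg.Agent.H5.A8d
import Cfsg.Agent.H5.A8e

set_option autoImplicit false
set_option linter.unusedSimpArgs false
set_option linter.unusedVariables false

namespace CfsgH5

open scoped Pointwise
open MulAction

noncomputable section

/-- the list of groups -/
def ConclA8 (X : Type*) [Group X] : Prop :=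
  (∃ n : ℕ, 5 ≤ n ∧ n ≤ 8 ∧ Nonempty (X ≃* alternatingGroup (Fin n))) ∨
    Nonempty (X ≃* Equiv.Perm (Fin 5)) ∨ Nonempty (X ≃* Equiv.Perm (Fin 6)) ∨
      Nonempty (X ≃* GL (Fin 3) (ZMod 2))

theorem ConclA8.of_equiv {X Y : Type*} [Group X] [Group Y] (e : X ≃* Y) (h : ConclA8 Y) :
    ConclA8 X :=
  h.imp (fun ⟨n, a, b, ⟨f⟩⟩ => ⟨n, a, b, ⟨e.trans f⟩⟩) (Or.imp (fun ⟨f⟩ => ⟨e.trans f⟩)
    (Or.imp (fun ⟨f⟩ => ⟨e.trans f⟩) fun ⟨f⟩ => ⟨e.trans f⟩))

/-- the hypothesis -/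
def GoodA8 (H : Subgroup (Equiv.Perm (Fin 8))) : Prop := H ≤ alternatingGroup (Fin 8) ∧ NoN H

theorem conj_le_alt {H : Subgroup (Equiv.Perm (Fin 8))} (h : H ≤ alternatingGroup (Fin 8))
    (y : Equiv.Perm (Fin 8)) : MulAut.conj y • H ≤ alternatingGroup (Fin 8) := by
  intro x hx
  rw [mem_conj_smul] at hx
  have := (inferInstance : (alternatingGroup (Fin 8)).Normal).conj_mem _ (h hx) y
  simpa [mul_assoc] using this

theorem GoodA8.conj {H : Subgroup (Equiv.Perm (Fin 8))} (h : GoodA8 H) (y : Equiv.Perm (Fin 8)) :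
    GoodA8 (MulAut.conj y • H) :=
  ⟨conj_le_alt h.1 y, h.2.of_equiv (conjSmulEquiv y H)⟩

theorem not11 {H : Subgroup (Equiv.Perm (Fin 8))} (h : H ≤ alternatingGroup (Fin 8)) :
    ¬ 11 ∣ Nat.card H := fun h' => by
  have := h'.trans (Subgroup.card_dvd_of_le h)
  rw [card_A8] at this
  exact absurd this (by decide)

/-- the classification holds for overgroups of a set of generators -/
def FrA8 (Q : Subgroup (Equiv.Perm (Fin 8)) → Prop) (S : List ℕ) : Prop :=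
  ∀ H : Subgroup (Equiv.Perm (Fin 8)), GoodA8 H → Q H → C8.grp S ≤ H → ConclA8 H

theorem FrA8.step {Q : Subgroup (Equiv.Perm (Fin 8)) → Prop}
    (hQ : ∀ H (y : Equiv.Perm (Fin 8)), Q H → Q (MulAut.conj y • H)) {U : List ℕ} {W : Subgroup (Equiv.Perm (Fin 8))} {p : ℕ}
    {tg : List (List ℕ)}
    (st : ∀ {H : Subgroup (Equiv.Perm (Fin 8))}, H ≤ alternatingGroup (Fin 8) → C8.grp U ≤ H →
      H ≤ W ∨ p ∣ Nat.card H ∨ ∃ S ∈ tg, ∃ y : Equiv.Perm (Fin 8), C8.grp S ≤ MulAut.conj y • H)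
    (hp : ∀ H, GoodA8 H → Q H → ¬ p ∣ Nat.card H)
    (hW : ∀ H, GoodA8 H → C8.grp U ≤ H → H ≤ W → ConclA8 H)
    (ht : ∀ S ∈ tg, FrA8 Q S) : FrA8 Q U := by
  intro H hH hq hU
  rcases st hH.1 hU with h | h | ⟨S, hS, y, h⟩
  · exact hW H hH hU h
  · exact absurd h (hp H hH hq)
  · exact (ht S hS _ (hH.conj y) (hQ H y hq) h).of_equiv (conjSmulEquiv y H)

theorem concl_self {U : List ℕ} (h : ConclA8 (C8.grp U)) :
    ∀ H, GoodA8 H → C8.grp U ≤ H → H ≤ C8.grp U → ConclA8 H := fun H _ h1 h2 =>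
  le_antisymm h1 h2 ▸ h

theorem concl_norm {U W : List ℕ} {N cU : List Level} (hU : U = gens cU) {k x : ℕ}
    (hk : (∃ j, k = 2 ^ j) ∨ k.Coprime 2)
    (h : band (band (band (ok8 N) (Nat.beq (ordC ops8 N) k))
      (allL W fun s => allL (gens N) fun t => force (ops8.mul (ops8.mul s t) (ops8.inv s)) (memC ops8 N)))
      (band (band (ok8 cU) (band (isPerm 3 7 8 x) (memC ops8 cU x)))
        (band (memC ops8 N x) (!Nat.beq x ops8.one))) = true) :
    ∀ H, GoodA8 H → C8.grp U ≤ H → H ≤ C8.grp W → ConclA8 H := by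
  intro H hH h1 h2
  subst hU
  exfalso
  rw [band_eq, Bool.and_eq_true, band_eq, Bool.and_eq_true, band_eq (band (ok8 cU) _),
    Bool.and_eq_true, band_eq (ok8 cU), Bool.and_eq_true, band_eq (memC ops8 N x),
    Bool.and_eq_true] at h
  obtain ⟨⟨a, b⟩, ⟨c, d⟩, e, f⟩ := h
  have hc := card8 a
  rw [band_eq, Bool.and_eq_true] at a
  obtain ⟨g, hg, rfl⟩ := in8 c d
  have := hH.2.eq_one (h2.trans (C8.le_normalizer (v8 a.1).1 (v8 a.1).2 b)) (hc ▸ hk) (h1 hg)
    ((C8.mem_iff_memC (v8 a.1).1 (v8 a.1).2 g).2 e)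
  rw [this, C8.code_one, Nat.beq_refl] at f
  exact absurd f (by decide)

theorem hp11 : ∀ H, GoodA8 H → True → ¬ 11 ∣ Nat.card H := fun H h _ => not11 h.1

theorem frA8 : FrA8 (fun _ => True) (gens (cA8.drop 0)) := by
  intro H hH _ h
  have : H = alternatingGroup (Fin 8) := le_antisymm hH.1 (grp_cA8 ▸ h)
  exact Or.inl ⟨8, by norm_num, le_rfl, ⟨MulEquiv.subgroupCongr this⟩⟩

theorem frA7 : FrA8 (fun _ => True) (gens (cA8.drop 1)) :=
  FrA8.step (fun _ _ h => h) stA7 hp11 (concl_self (Or.inl ⟨7, by norm_num, by norm_num, isoA7⟩))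
    (by simp only [List.forall_mem_cons]; exact ⟨frA8, by simp⟩)

theorem frS6 : FrA8 (fun _ => True) (gens gS6) :=
  FrA8.step (fun _ _ h => h) stS6 hp11 (concl_self (Or.inr (Or.inr (Or.inl isoS6))))
    (by simp only [List.forall_mem_cons]; exact ⟨frA7, by simp⟩)

theorem frA6 : FrA8 (fun _ => True) (gens (cA8.drop 2)) :=
  FrA8.step (fun _ _ h => h) stA6 hp11 (concl_self (Or.inl ⟨6, by norm_num, by norm_num, isoA6⟩))
    (by simp only [List.forall_mem_cons]; exact ⟨frA7, frS6, by simp⟩)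

theorem frA53 : FrA8 (fun _ => True) (gens gA53) :=
  FrA8.step (fun _ _ h => h) stA53 hp11
    (concl_norm (N := gC3) rfl (k := 3) (x := 0xbf4688) (Or.inr (by decide)) (by decide +kernel))
    (by simp only [List.forall_mem_cons]; exact ⟨frA6, by simp⟩)

theorem frS5 : FrA8 (fun _ => True) (gens gS5) :=
  FrA8.step (fun _ _ h => h) stS5 hp11 (concl_self (Or.inr (Or.inl isoS5)))
    (by simp only [List.forall_mem_cons]; exact ⟨frA6, frA53, by simp⟩)

theorem frA5 : FrA8 (fun _ => True) (gens (cA8.drop 3)) :=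
  FrA8.step (fun _ _ h => h) stA5 hp11 (concl_self (Or.inl ⟨5, by norm_num, by norm_num, isoA5⟩))
    (by simp only [List.forall_mem_cons]; exact ⟨frA6, frS5, frA53, by simp⟩)

theorem frT5 : FrA8 (fun _ => True) (gens gT5) :=
  FrA8.step (fun _ _ h => h) stT5 hp11 (concl_self (Or.inr (Or.inl isoT5)))
    (by simp only [List.forall_mem_cons]; exact ⟨frA5, by simp⟩)

theorem frP5 : FrA8 (fun _ => True) (gens gP5) :=
  FrA8.step (fun _ _ h => h) stP5 hp11 (concl_self (Or.inl ⟨5, by norm_num, by norm_num, isoP5⟩))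
    (by simp only [List.forall_mem_cons]; exact ⟨frT5, frA5, by simp⟩)

theorem frC5 : FrA8 (fun _ => True) (gens gC5) :=
  FrA8.step (fun _ _ h => h) stC5 hp11
    (concl_norm (N := gC5) rfl (k := 5) (x := 0xfa911a) (Or.inr (by decide)) (by decide +kernel))
    (by simp only [List.forall_mem_cons]; exact ⟨frA5, frP5, by simp⟩)

theorem hQ5 : ∀ (H : Subgroup (Equiv.Perm (Fin 8))) (y : Equiv.Perm (Fin 8)), ¬ 5 ∣ Nat.card H →
    ¬ 5 ∣ Nat.card (MulAut.conj y • H : Subgroup _) := fun H y h => by rwa [card_conj_smul]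

theorem frF56 : FrA8 (fun H => ¬ 5 ∣ Nat.card H) (gens gF56) :=
  FrA8.step hQ5 stF56 (fun _ _ h => h)
    (concl_norm (N := gV8) rfl (k := 8) (x := 0x419be6) (Or.inl ⟨3, rfl⟩) (by decide +kernel))
    (by simp)

theorem frL7 : FrA8 (fun H => ¬ 5 ∣ Nat.card H) (gens gL7) :=
  FrA8.step hQ5 stL7 (fun _ _ h => h) (concl_self (Or.inr (Or.inr (Or.inr isoL7))))
    (by simp only [List.forall_mem_cons]; exact ⟨frF56, by simp⟩)

theorem frL8 : FrA8 (fun H => ¬ 5 ∣ Nat.card H) (gens gL8) :=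
  FrA8.step hQ5 stL8 (fun _ _ h => h) (concl_self (Or.inr (Or.inr (Or.inr isoL8))))
    (by simp only [List.forall_mem_cons]; exact ⟨frF56, by simp⟩)

theorem frC7 : FrA8 (fun H => ¬ 5 ∣ Nat.card H) (gens gC7) :=
  FrA8.step hQ5 stC7 (fun _ _ h => h)
    (concl_norm (N := gC7) rfl (k := 7) (x := 0xed11ac) (Or.inr (by decide)) (by decide +kernel))
    (by simp only [List.forall_mem_cons]; exact ⟨frF56, frL7, frL8, by simp⟩)

theorem frA4 : FrA8 (fun H => ¬ 5 ∣ Nat.card H) (gens (cA8.drop 4)) :=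
  FrA8.step hQ5 stA4 (fun _ _ h => h)
    (concl_norm (N := gV16) rfl (k := 16) (x := 0xfac4c1) (Or.inl ⟨4, rfl⟩) (by decide +kernel))
    (by simp)

theorem frQ : FrA8 (fun H => ¬ 5 ∣ Nat.card H) (gens gQ) :=
  FrA8.step hQ5 stQ (fun _ _ h => h)
    (concl_norm (N := gQ) rfl (k := 9) (x := 0xfac642) (Or.inr (by decide)) (by decide +kernel))
    (by simp only [List.forall_mem_cons]; exact ⟨frA4, by simp⟩)

theorem card_S8 : Nat.card (Equiv.Perm (Fin 8)) = 40320 := by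
  rw [Nat.card_perm, Nat.card_eq_fintype_card, Fintype.card_fin]; rfl

theorem GoodA8.concl {H : Subgroup (Equiv.Perm (Fin 8))} (hH : GoodA8 H) (h1 : H ≠ ⊥) :
    ConclA8 H := by
  have : Fact (Nat.Prime 3) := ⟨by norm_num⟩
  have : Fact (Nat.Prime 5) := ⟨by norm_num⟩
  have : Fact (Nat.Prime 7) := ⟨by norm_num⟩
  by_cases h5 : 5 ∣ Nat.card H
  · obtain ⟨y, hy⟩ := exists_conj_le (p := 5) (k := 1) (C8.grp (gens gC5))
      (card8 (by decide +kernel)) (by rw [card_S8]; decide) h5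
    exact (frC5 _ (hH.conj y) trivial hy).of_equiv (conjSmulEquiv y H)
  by_cases h7 : 7 ∣ Nat.card H
  · obtain ⟨y, hy⟩ := exists_conj_le (p := 7) (k := 1) (C8.grp (gens gC7))
      (card8 (by decide +kernel)) (by rw [card_S8]; decide) h7
    exact (frC7 _ (hH.conj y) (hQ5 H y h5) hy).of_equiv (conjSmulEquiv y H)
  by_cases h9 : 9 ∣ Nat.card H
  · obtain ⟨y, hy⟩ := exists_conj_le (p := 3) (k := 2) (C8.grp (gens gQ))
      (card8 (by decide +kernel)) (by rw [card_S8]; decide) h9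
    exact (frQ _ (hH.conj y) (hQ5 H y h5) hy).of_equiv (conjSmulEquiv y H)
  exfalso
  have hd := Subgroup.card_dvd_of_le hH.1
  rw [card_A8] at hd
  have key : ∀ n ∈ Nat.divisors 20160, ¬ 5 ∣ n → ¬ 7 ∣ n → ¬ 9 ∣ n →
      ∃ a < 7, n = 2 ^ a ∨ n = 2 ^ a * 3 := by decide +kernel
  obtain ⟨a, -, ha⟩ := key _ (Nat.mem_divisors.2 ⟨hd, by norm_num⟩) h5 h7 h9
  have : Nontrivial H := (Subgroup.nontrivial_iff_ne_bot H).2 h1
  exact ha.elim hH.2.not_card.1 hH.2.not_card.2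

end

end CfsgH5
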