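/-
Small alternating groups: chains and membership tests.
-/
import Cfsg.Agent.H5.Word

set_option autoImplicit false

namespace CfsgH5

open scoped Pointwise
open MulAction

noncomputable section

/-- coding of permutations of 5 points -/
def CP5 : Codes (permOps 3 7 5) (Equiv.Perm (Fin 5)) (Fin 5) :=
  (Enc.fin 5).codes 3 7 (by norm_num) (by norm_num)

theorem CP5_in (p : ℕ) (h : isPerm 3 7 5 p = true) : CP5.In ⊤ p :=
  exists_perm (m := 7) (Enc.fin 5) (by norm_num) (by norm_num) p h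

/-- chain of the alternating group -/
def cA5 : List Level :=
  [⟨4, [0x6a1], 0x1f,
    ap 15 0x7fff 0x468831305c403509684,
    ap 2 3 0x60, ap 2 3 0xf6⟩,
   ⟨3, [0x4099], 0xf,
    ap 15 0x7fff 0x8d110b4204cc283,
    ap 1 1 0x4, ap 2 3 0x36⟩,
   ⟨2, [0x4611], 0x7,
    ap 15 0x7fff 0x11a22308c642,
    ap 1 1 0x0, ap 2 3 0x6⟩]

theorem cA5_check : checkC (permOps 3 7 5) cA5 = true := by decide +kernel
theorem cA5_valid : ∀ s ∈ gens cA5, CP5.In ⊤ s := fun s hs => CP5_in s (by revert s; decide +kernel)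
theorem grp_cA5 : CP5.grp (gens cA5) = alternatingGroup (Fin 5) :=
  CP5.grp_eq_alt cA5_valid cA5_check (by decide +kernel)
theorem card_A5 : Nat.card (alternatingGroup (Fin 5)) = 60 := by
  rw [← grp_cA5, CP5.card_grp cA5_valid cA5_check]; decide +kernel

/-- membership test for the alternating group -/
def altTest5 (p : ℕ) : Bool := band (isPerm 3 7 5 p) (memC (permOps 3 7 5) cA5 p)

theorem alt5_in (p : ℕ) (h : altTest5 p = true) : CP5.In (alternatingGroup (Fin 5)) p := by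
  rw [altTest5, band_eq, Bool.and_eq_true] at h
  exact grp_cA5 ▸ CP5.in_of_memC cA5_valid cA5_check (CP5_in p h.1) h.2

theorem card_S5 : Nat.card (⊤ : Subgroup (Equiv.Perm (Fin 5))) = 120 := by
  rw [Subgroup.card_top, Nat.card_perm, Nat.card_eq_fintype_card, Fintype.card_fin]; rfl

/-- coding of permutations of 6 points -/
def CP6 : Codes (permOps 3 7 6) (Equiv.Perm (Fin 6)) (Fin 6) :=
  (Enc.fin 6).codes 3 7 (by norm_num) (by norm_num)

theorem CP6_in (p : ℕ) (h : isPerm 3 7 6 p = true) : CP6.In ⊤ p :=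
  exists_perm (m := 7) (Enc.fin 6) (by norm_num) (by norm_num) p h

/-- chain of the alternating group -/
def cA6 : List Level :=
  [⟨5, [0x46a9], 0x3f,
    ap 18 0x3ffff 0xb1a20d6a032a60c75011aa4c685,
    ap 2 3 0x1b0, ap 2 3 0x3f6⟩,
   ⟨4, [0x286a1], 0x1f,
    ap 18 0x3ffff 0x2c688a62629710a1a869684,
    ap 2 3 0x60, ap 2 3 0xf6⟩,
   ⟨3, [0x2c099], 0xf,
    ap 18 0x3ffff 0xb1a22c2d0b0266c283,
    ap 1 1 0x4, ap 2 3 0x36⟩,
   ⟨2, [0x2c611], 0x7,
    ap 18 0x3ffff 0x2c688b1846c642,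
    ap 1 1 0x0, ap 2 3 0x6⟩]

theorem cA6_check : checkC (permOps 3 7 6) cA6 = true := by decide +kernel
theorem cA6_valid : ∀ s ∈ gens cA6, CP6.In ⊤ s := fun s hs => CP6_in s (by revert s; decide +kernel)
theorem grp_cA6 : CP6.grp (gens cA6) = alternatingGroup (Fin 6) :=
  CP6.grp_eq_alt cA6_valid cA6_check (by decide +kernel)
theorem card_A6 : Nat.card (alternatingGroup (Fin 6)) = 360 := by
  rw [← grp_cA6, CP6.card_grp cA6_valid cA6_check]; decide +kernel

/-- membership test for the alternating group -/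
def altTest6 (p : ℕ) : Bool := band (isPerm 3 7 6 p) (memC (permOps 3 7 6) cA6 p)

theorem alt6_in (p : ℕ) (h : altTest6 p = true) : CP6.In (alternatingGroup (Fin 6)) p := by
  rw [altTest6, band_eq, Bool.and_eq_true] at h
  exact grp_cA6 ▸ CP6.in_of_memC cA6_valid cA6_check (CP6_in p h.1) h.2

theorem card_S6 : Nat.card (⊤ : Subgroup (Equiv.Perm (Fin 6))) = 720 := by
  rw [Subgroup.card_top, Nat.card_perm, Nat.card_eq_fintype_card, Fintype.card_fin]; rfl

/-- coding of permutations of 7 points -/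
def CP7 : Codes (permOps 3 7 7) (Equiv.Perm (Fin 7)) (Fin 7) :=
  (Enc.fin 7).codes 3 7 (by norm_num) (by norm_num)

theorem CP7_in (p : ℕ) (h : isPerm 3 7 7 p = true) : CP7.In ⊤ p :=
  exists_perm (m := 7) (Enc.fin 7) (by norm_num) (by norm_num) p h

/-- chain of the alternating group -/
def cA7 : List Level :=
  [⟨6, [0x2c6b1], 0x7f,
    ap 21 0x1fffff 0x6b1a20e8d506e6a03664c1b1e4058d626c686,
    ap 3 7 0xa700, ap 2 3 0xff6⟩,
   ⟨5, [0x1846a9], 0x3f,
    ap 21 0x1fffff 0x358d118d6a0c654c631d4308d538c685,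
    ap 2 3 0x1b0, ap 2 3 0x3f6⟩,
   ⟨4, [0x1a86a1], 0x1f,
    ap 21 0x1fffff 0x1ac688d4c4c6a5c4350d43a9684,
    ap 2 3 0x60, ap 2 3 0xf6⟩,
   ⟨3, [0x1ac099], 0xf,
    ap 21 0x1fffff 0xd63446b0b4358133ac283,
    ap 1 1 0x4, ap 2 3 0x36⟩,
   ⟨2, [0x1ac611], 0x7,
    ap 21 0x1fffff 0x6b1a2358c23ac642,
    ap 1 1 0x0, ap 2 3 0x6⟩]

theorem cA7_check : checkC (permOps 3 7 7) cA7 = true := by decide +kernel
theorem cA7_valid : ∀ s ∈ gens cA7, CP7.In ⊤ s := fun s hs => CP7_in s (by revert s; decide +kernel)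
theorem grp_cA7 : CP7.grp (gens cA7) = alternatingGroup (Fin 7) :=
  CP7.grp_eq_alt cA7_valid cA7_check (by decide +kernel)
theorem card_A7 : Nat.card (alternatingGroup (Fin 7)) = 2520 := by
  rw [← grp_cA7, CP7.card_grp cA7_valid cA7_check]; decide +kernel

/-- membership test for the alternating group -/
def altTest7 (p : ℕ) : Bool := band (isPerm 3 7 7 p) (memC (permOps 3 7 7) cA7 p)

theorem alt7_in (p : ℕ) (h : altTest7 p = true) : CP7.In (alternatingGroup (Fin 7)) p := by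
  rw [altTest7, band_eq, Bool.and_eq_true] at h
  exact grp_cA7 ▸ CP7.in_of_memC cA7_valid cA7_check (CP7_in p h.1) h.2

theorem card_S7 : Nat.card (⊤ : Subgroup (Equiv.Perm (Fin 7))) = 5040 := by
  rw [Subgroup.card_top, Nat.card_perm, Nat.card_eq_fintype_card, Fintype.card_fin]; rfl

theorem conj_smul_zpowers {G : Type*} [Group G] (g x : G) :
    MulAut.conj g • Subgroup.zpowers x = Subgroup.zpowers (g * x * g⁻¹) :=
  MonoidHom.map_zpowers _ _

theorem exists_zpowers_of_prime {G : Type*} [Group G] {X : Subgroup G} {p : ℕ} (hp : p.Prime)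
    (hX : Nat.card X = p) : ∃ x, x ≠ 1 ∧ x ^ p = 1 ∧ X = Subgroup.zpowers x := by
  have : Fact p.Prime := ⟨hp⟩
  have : Finite X := Nat.finite_of_card_ne_zero (hX ▸ hp.ne_zero)
  obtain ⟨x, hx⟩ := exists_prime_orderOf_dvd_card' (G := X) p hX.symm.dvd
  rw [← Subgroup.orderOf_coe] at hx
  refine ⟨x, ?_, hx ▸ pow_orderOf_eq_one _, ?_⟩
  · intro h
    rw [h, orderOf_one] at hx
    exact hp.one_lt.ne hx
  · exact (Subgroup.eq_of_le_of_card_ge (Subgroup.zpowers_le_of_mem x.2)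
      (by rw [Nat.card_zpowers, hx, hX])).symm

theorem exists_mem_pow_prime {G : Type*} [Group G] [Finite G] (H : Subgroup G) {p : ℕ} (hp : p.Prime)
    (h : p ∣ Nat.card H) : ∃ x ∈ H, x ≠ 1 ∧ x ^ p = 1 := by
  have : Fact p.Prime := ⟨hp⟩
  obtain ⟨x, hx⟩ := exists_prime_orderOf_dvd_card' (G := H) p h
  rw [← Subgroup.orderOf_coe] at hx
  refine ⟨x, x.2, fun h => ?_, hx ▸ pow_orderOf_eq_one _⟩
  rw [h, orderOf_one] at hx
  exact hp.one_lt.ne hx

/-- the fifth power -/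
def pow5 (O : Ops) (p : ℕ) : ℕ := force (O.mul p p) fun a => force (O.mul a a) fun b => O.mul b p

theorem Codes.code_pow5 {O : Ops} {G : Type*} [Group G] {α : Type*} [MulAction G α]
    (C : Codes O G α) (g : G) : C.code (g ^ 5) = pow5 O (C.code g) := by
  rw [pow5, force_eq, force_eq, ← C.code_mul, ← C.code_mul, ← C.code_mul]
  congr 1
  simp only [pow_succ, pow_zero, one_mul, mul_assoc]

end

end CfsgH5
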