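/-
Fi23 is simple; the class of 3-transpositions and the centraliser of a member.
-/
import Cfsg.Agent.H5.F23
import Cfsg.Agent.H6.DCf

set_option autoImplicit false
set_option maxRecDepth 100000
set_option linter.constructorNameAsVariable false

namespace CfsgH5.KT

open Subgroup

theorem Cox.step {G : Type*} [Group G] {g : ℕ → G} {E L : ℕ} (hc : Cox g E) {N : Subgroup G}
    (hN : ∀ k ∈ grp g L, ∀ n ∈ N, k * n * k⁻¹ ∈ N) {x : ℕ} (hx : g x ∈ N) (y : ℕ)
    (h : band (band (lt x 16) (lt y 16)) (band (wdb L [x, y])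
      (Nat.beq (ap 2 3 E (Nat.add x (Nat.mul 16 y))) 2)) = true := by decide +kernel) : g y ∈ N := by
  simp only [band_eq, Bool.and_eq_true, lt_iff, beq_true_iff, Nat.add_eq, Nat.mul_eq] at h
  have k1 := wd_of h.2.1 x (by simp)
  have k2 := wd_of h.2.1 y (by simp)
  rw [← braid_conj (hc.1 x) (hc.1 y) ((hc.2 y x h.1.2 h.1.1).2 h.2.2)]
  exact hN _ (mul_mem (mem_grp g k1.1 k1.2) (mem_grp g k2.1 k2.2)) _ hx

end CfsgH5.KT

namespace CfsgH5.F23

open KT Cfsg.Spor Equiv Subgroup

noncomputable section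

theorem wl_H {l : List ℕ} (h : wdb 9 l = true := by decide +kernel) : wl g l ∈ grp g 9 :=
  (wd_of h).mem g

theorem r3 : Rank3 φ ⊤ 0 3511 31671 where
  inv k _ := ⟨Nat.zero_le _, lt_N k (by decide)⟩
  d1 := by rw [top_inf_eq]; exact d2
  d2 := by rw [top_inf_eq]; exact d2'
  u1 := ⟨wl g wa, trivial, by
    rw [wa_0]
    exact ⟨by decide, by decide, 5, by decide, by decide, by
      rw [A.map (l := wa) (p := 5) (q := 4840) (by decide +kernel)]; decide⟩⟩
  u2 := ⟨wl g [10], trivial, by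
    rw [A.map (l := [10]) (p := 0) (q := 3511) (by decide +kernel)]
    exact ⟨by decide, by decide, 3540, by decide, by decide, by
      rw [A.map (l := [10]) (p := 3540) (q := 15) (by decide +kernel)]; decide⟩⟩

theorem H_inv {k : Fi23} (hk : k ∈ grp g 9) : 1 ≤ φ k 1 ∧ φ k 1 < 3511 := by
  by_contra h
  have h0 : φ k 1 ≠ 0 := fun e => by
    have := (φ k).injective (e.trans (mem_Fx_one.1 (H_le hk)).symm)
    cases this
  have h2 := card_of_orb (φ := φ) (K := Fx φ [0]) (a := 1) (Finset.Ico 1 31671) fun p hp => by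
    rw [Finset.mem_Ico] at hp
    rcases Nat.lt_or_ge p 3511 with h3 | h3
    · exact d2.orb p hp.1 h3
    · exact d2'.closed le_rfl (by omega) (lt_N k (by decide)) ⟨k, H_le hk, rfl⟩ p h3 hp.2
  rw [← Fx_cons, chain.2.2.2.2.2.2.2, stab0, card_H, Nat.card_Ico] at h2
  omega

theorem stab1 : grp g 9 ⊓ Fx φ [1] = Fx φ [1, 0] := by rw [Fx_cons φ 1 [0], stab0]

theorem r3H : Rank3 φ (grp g 9) 1 695 3511 where
  inv _ := H_inv
  d1 := by rw [stab1]; exact d3
  d2 := by rw [stab1]; exact d3'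
  u1 := ⟨wl g [6, 9, 1, 6], wl_H, by
    rw [A.map (l := [6, 9, 1, 6]) (p := 1) (q := 2) (by decide +kernel)]
    exact ⟨by decide, by decide, 183, by decide, by decide, by
      rw [A.map (l := [6, 9, 1, 6]) (p := 183) (q := 3462) (by decide +kernel)]; decide⟩⟩
  u2 := ⟨wl g [6], wl_H, by
    rw [A.map (l := [6]) (p := 1) (q := 3496) (by decide +kernel)]
    exact ⟨by decide, by decide, 695, by decide, by decide, by
      rw [A.map (l := [6]) (p := 695) (q := 57) (by decide +kernel)]; decide⟩⟩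

theorem letters {L : ℕ} (hL : L = 9 ∨ L = 10) {N : Subgroup Fi23}
    (hN : ∀ k ∈ grp g L, ∀ n ∈ N, k * n * k⁻¹ ∈ N) (h9 : g 9 ∈ N) : grp g L ≤ N := by
  have hN' : ∀ k ∈ grp g 9, ∀ n ∈ N, k * n * k⁻¹ ∈ N := fun k hk => hN k (grp_mono g (by omega) hk)
  have h6 := cox.step hN' h9 6
  have h1 := cox.step hN' h6 1
  have h2 := cox.step hN' h1 2
  have h3 := cox.step hN' h2 3
  have h4 := cox.step hN' h3 4
  have h8 := cox.step hN' h4 8
  have h5 := cox.step hN' h2 5
  have h7 := cox.step hN' h5 7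
  refine grp_le fun x x1 x2 => ?_
  rcases hL with rfl | rfl
  · interval_cases x <;> assumption
  · have h10 := cox.step hN h8 10
    interval_cases x <;> assumption

theorem z_ne : z ≠ 1 := fun h => by
  have := z_3511
  rw [h, map_one] at this
  cases this

theorem z_H : z ∈ grp g 9 := wl_H

theorem card_Z : Nat.card (zpowers z) = 2 := by
  rw [Nat.card_zpowers, orderOf_eq_prime (by rw [pow_two, z_sq]) z_ne]

theorem H_dich (N : Subgroup Fi23) (h : N ≤ grp g 9) (hN : CfsgH6.NormBy (grp g 9) N) :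
    N ≤ zpowers z ∨ N = grp g 9 := by
  rcases r3H.normal h hN (p := 13) (by norm_num) (by norm_num) (by rw [card_H]; norm_num) with k | k
  · left
    have : zpowers z = V ⊓ Fx φ [695] := eq_of_le_of_card_ge
      (zpowers_le.2 ⟨bw_mem (by decide), mem_Fx_one.2 z_695⟩) (by rw [card_Z, chain.2.2.2.2.2.1])
    rw [this, ← chain.2.2.2.1, ← Fx_cons]
    intro n hn b hb
    simp only [List.mem_cons, List.not_mem_nil, or_false] at hb
    rcases hb with rfl | rfl | rfl | rfl | rfl | rfl | rfl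
    iterate 6 exact k n hn _ (by decide) (by decide)
    exact mem_Fx_one.1 (H_le (h hn))
  · refine Or.inr (le_antisymm h (letters (Or.inl rfl) hN ?_))
    rw [← wl_single g 9]
    exact mem_of_cert sq hN (y := [1, 6, 8, 7, 5, 4, 3, 2]) (u := [9, 1, 2]) (k := 9)
      (v := [6, 1, 2, 3, 4, 8, 9, 6, 1, 2, 3]) (k _ wl_H (by
        rw [← wl_rep]; exact weq (l' := []) (by decide +kernel))) wl_H wl_H (weq (by decide +kernel))

theorem simple : IsSimpleGroup Fi23 := by
  have : Nontrivial Fi23 := ⟨z, 1, z_ne⟩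
  refine ⟨fun N hN => ?_⟩
  have h1 : ∀ k ∈ (⊤ : Subgroup Fi23), ∀ n ∈ N, k * n * k⁻¹ ∈ N := fun k _ n hn => hN.1 n hn k
  rcases r3.normal le_top h1 (p := 17) (by norm_num) (by norm_num)
    (by rw [card_top, card_eq]; norm_num) with k | k
  · left
    rw [eq_bot_iff, ← base]
    exact fun n hn b hb => k n hn b (Nat.zero_le _)
      ((by decide : ∀ b ∈ BB, b < 31671) b hb)
  · right
    rw [eq_top_iff, ← grp_top]
    refine letters (Or.inr rfl) (grp_top ▸ h1) ?_
    rw [← wl_single g 9]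
    exact mem_of_cert sq h1 (y := [10, 1, 2, 6, 5, 8, 3, 9, 4]) (u := [8, 5, 2]) (k := 7)
      (v := [6, 1, 2, 3, 4, 5, 2, 1, 3, 2, 5, 8, 4, 3, 2, 1, 9, 6, 10, 8, 4, 3, 2, 1, 5, 2, 3, 4])
      (k _ trivial (by rw [← wl_rep]; exact weq (l' := []) (by decide +kernel))) trivial trivial
      (weq (by decide +kernel))

theorem cent : Fx φ [0] = centralizer {z} := by
  rcases r3.max (M := centralizer {z}) (inf_le_right.trans stab_le) le_top with h | h
  · rw [h, top_inf_eq]
  · have e := congrArg (fun x => φ x 0) (mem_centralizer_singleton_iff.1 (h ▸ mem_top (wl g [10])))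
    simp only [map_mul, Perm.mul_apply, mem_Fx_one.1 (H_le z_H), z_3511,
      A.map (l := [10]) (p := 0) (q := 3511) (by decide +kernel)] at e
    cases e

theorem card_D : Nat.card (conjugatesOf z) = 31671 :=
  card_class cent (fun k => lt_N k (by decide)) fun _ => orb

theorem three : ∀ x ∈ conjugatesOf z, ∀ y ∈ conjugatesOf z, (x * y) ^ 2 = 1 ∨ (x * y) ^ 3 = 1 := by
  have e := A.map (l := [10]) (p := 0) (q := 3511) (by decide +kernel)
  refine r3.three stab_le z_sq (u := wl g wa) (v := wl g [10]) (by rw [wa_0]; decide)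
    (by rw [wa_0]; decide) (by rw [e]) (by rw [e]; decide) ?_ ?_
  · rw [z, ← wl_conj sq, ← wl_append, ← wl_rep]; exact weq (l' := []) (by decide +kernel)
  · rw [z, ← wl_conj sq, ← wl_append, ← wl_rep]; exact weq (l' := []) (by decide +kernel)

theorem z_cen : ∀ y ∈ zpowers z, ∀ k ∈ grp g 9, k * y = y * k := fun y hy k hk =>
  mem_centralizer_iff.1 (zpowers_le.2 (mem_centralizer_iff.2 fun k hk =>
    mem_centralizer_singleton_iff.1 (stab_le (H_le hk))) hy) k hk

theorem H_cen : Nat.card (center (grp g 9)) = 2 ∧ IsSimpleGroup (grp g 9 ⧸ center (grp g 9)) ∧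
    Nat.card (grp g 9 ⧸ center (grp g 9)) = 64561751654400 := by
  obtain ⟨h1, h2⟩ := CfsgH6.center_of_dichotomy z_cen ⟨wl g [9], wl_H, wl g [6], wl_H, fun h => by
    have e := congrArg (fun x => φ x 1) h
    simp only [map_mul, Perm.mul_apply, A.map (l := [6]) (p := 1) (q := 3496) (by decide +kernel),
      A.map (l := [9]) (p := 1) (q := 1) (by decide +kernel),
      A.map (l := [9]) (p := 3496) (q := 3495) (by decide +kernel)] at e
    cases e⟩ H_dich
  have h3 : Nat.card (center (grp g 9)) = 2 := by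
    rw [h1, Nat.card_congr (subgroupOfEquivOfLe (zpowers_le.2 z_H)).toEquiv, card_Z]
  have h4 := card_eq_card_quotient_mul_card_subgroup (center (grp g 9))
  rw [h3, card_H] at h4
  exact ⟨h3, h2, by omega⟩

theorem H_idx : ∀ L : Subgroup (grp g 9), L.index ≠ 2 :=
  CfsgH6.index_ne_two H_dich (by rw [card_Z, card_H]; norm_num)

end

end CfsgH5.F23
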