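/-
Fi24: checks (generated).
-/
import Cfsg.Agent.H5.F24D

set_option autoImplicit false
set_option maxRecDepth 100000
set_option linter.all false
set_option Elab.async false

namespace CfsgH5.F24

open KT

noncomputable section

theorem K_0 : allIco 0 1500 ck = true := by decide +kernel
theorem K_1500 : allIco 1500 3000 ck = true := by decide +kernel
theorem K_3000 : allIco 3000 4500 ck = true := by decide +kernel
theorem K_4500 : allIco 4500 6000 ck = true := by decide +kernel
theorem K_6000 : allIco 6000 7500 ck = true := by decide +kernel
theorem K_7500 : allIco 7500 9000 ck = true := by decide +kernel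
theorem K_9000 : allIco 9000 10500 ck = true := by decide +kernel
theorem K_10500 : allIco 10500 12000 ck = true := by decide +kernel
theorem K_12000 : allIco 12000 13500 ck = true := by decide +kernel
theorem K_13500 : allIco 13500 15000 ck = true := by decide +kernel
theorem K_15000 : allIco 15000 16500 ck = true := by decide +kernel
theorem K_16500 : allIco 16500 18000 ck = true := by decide +kernel
theorem K_18000 : allIco 18000 19500 ck = true := by decide +kernel
theorem K_19500 : allIco 19500 21000 ck = true := by decide +kernel
theorem K_21000 : allIco 21000 22500 ck = true := by decide +kernel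
theorem K_22500 : allIco 22500 24000 ck = true := by decide +kernel
theorem K_24000 : allIco 24000 25500 ck = true := by decide +kernel
theorem K_25500 : allIco 25500 27000 ck = true := by decide +kernel
theorem K_27000 : allIco 27000 28500 ck = true := by decide +kernel
theorem K_28500 : allIco 28500 30000 ck = true := by decide +kernel
theorem K_30000 : allIco 30000 31500 ck = true := by decide +kernel
theorem K_31500 : allIco 31500 33000 ck = true := by decide +kernel
theorem K_33000 : allIco 33000 34500 ck = true := by decide +kernel
theorem K_34500 : allIco 34500 36000 ck = true := by decide +kernel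
theorem K_36000 : allIco 36000 37500 ck = true := by decide +kernel
theorem K_37500 : allIco 37500 39000 ck = true := by decide +kernel
theorem K_all0 (h : ∀ p, p < 0 → ck p = true) : ∀ p, p < 39000 → ck p = true := (all_of_blocks (all_of_blocks (all_of_blocks (all_of_blocks (all_of_blocks (all_of_blocks (all_of_blocks (all_of_blocks (all_of_blocks (all_of_blocks (all_of_blocks (all_of_blocks (all_of_blocks (all_of_blocks (all_of_blocks (all_of_blocks (all_of_blocks (all_of_blocks (all_of_blocks (all_of_blocks (all_of_blocks (all_of_blocks (all_of_blocks (all_of_blocks (all_of_blocks (all_of_blocks h K_0) K_1500) K_3000) K_4500) K_6000) K_7500) K_9000) K_10500) K_12000) K_13500) K_15000) K_16500) K_18000) K_19500) K_21000) K_22500) K_24000) K_25500) K_27000) K_28500) K_30000) K_31500) K_33000) K_34500) K_36000) K_37500)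

end

end CfsgH5.F24
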