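/-
Fi24: checks (generated).
-/
import Cfsg.Agent.H5.F24D

set_option autoImplicit false
set_option maxRecDepth 100000
set_option linter.all false
set_option Elab.async false

namespace CfsgH5.F24

open KT

noncomputable section

theorem K_39000 : allIco 39000 40500 ck = true := by decide +kernel
theorem K_40500 : allIco 40500 42000 ck = true := by decide +kernel
theorem K_42000 : allIco 42000 43500 ck = true := by decide +kernel
theorem K_43500 : allIco 43500 45000 ck = true := by decide +kernel
theorem K_45000 : allIco 45000 46500 ck = true := by decide +kernel
theorem K_46500 : allIco 46500 48000 ck = true := by decide +kernel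
theorem K_48000 : allIco 48000 49500 ck = true := by decide +kernel
theorem K_49500 : allIco 49500 51000 ck = true := by decide +kernel
theorem K_51000 : allIco 51000 52500 ck = true := by decide +kernel
theorem K_52500 : allIco 52500 54000 ck = true := by decide +kernel
theorem K_54000 : allIco 54000 55500 ck = true := by decide +kernel
theorem K_55500 : allIco 55500 57000 ck = true := by decide +kernel
theorem K_57000 : allIco 57000 58500 ck = true := by decide +kernel
theorem K_58500 : allIco 58500 60000 ck = true := by decide +kernel
theorem K_60000 : allIco 60000 61500 ck = true := by decide +kernel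
theorem K_61500 : allIco 61500 63000 ck = true := by decide +kernel
theorem K_63000 : allIco 63000 64500 ck = true := by decide +kernel
theorem K_64500 : allIco 64500 66000 ck = true := by decide +kernel
theorem K_66000 : allIco 66000 67500 ck = true := by decide +kernel
theorem K_67500 : allIco 67500 69000 ck = true := by decide +kernel
theorem K_69000 : allIco 69000 70500 ck = true := by decide +kernel
theorem K_70500 : allIco 70500 72000 ck = true := by decide +kernel
theorem K_72000 : allIco 72000 73500 ck = true := by decide +kernel
theorem K_73500 : allIco 73500 75000 ck = true := by decide +kernel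
theorem K_75000 : allIco 75000 76500 ck = true := by decide +kernel
theorem K_76500 : allIco 76500 78000 ck = true := by decide +kernel
theorem K_all1 (h : ∀ p, p < 39000 → ck p = true) : ∀ p, p < 78000 → ck p = true := (all_of_blocks (all_of_blocks (all_of_blocks (all_of_blocks (all_of_blocks (all_of_blocks (all_of_blocks (all_of_blocks (all_of_blocks (all_of_blocks (all_of_blocks (all_of_blocks (all_of_blocks (all_of_blocks (all_of_blocks (all_of_blocks (all_of_blocks (all_of_blocks (all_of_blocks (all_of_blocks (all_of_blocks (all_of_blocks (all_of_blocks (all_of_blocks (all_of_blocks (all_of_blocks h K_39000) K_40500) K_42000) K_43500) K_45000) K_46500) K_48000) K_49500) K_51000) K_52500) K_54000) K_55500) K_57000) K_58500) K_60000) K_61500) K_63000) K_64500) K_66000) K_67500) K_69000) K_70500) K_72000) K_73500) K_75000) K_76500)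

end

end CfsgH5.F24
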