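/-
Fi24: checks (generated).
-/
import Cfsg.Agent.H5.F24D

set_option autoImplicit false
set_option maxRecDepth 100000
set_option linter.all false
set_option Elab.async false

namespace CfsgH5.F24

open KT

noncomputable section

theorem K_78000 : allIco 78000 79500 ck = true := by decide +kernel
theorem K_79500 : allIco 79500 81000 ck = true := by decide +kernel
theorem K_81000 : allIco 81000 82500 ck = true := by decide +kernel
theorem K_82500 : allIco 82500 84000 ck = true := by decide +kernel
theorem K_84000 : allIco 84000 85500 ck = true := by decide +kernel
theorem K_85500 : allIco 85500 87000 ck = true := by decide +kernel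
theorem K_87000 : allIco 87000 88500 ck = true := by decide +kernel
theorem K_88500 : allIco 88500 90000 ck = true := by decide +kernel
theorem K_90000 : allIco 90000 91500 ck = true := by decide +kernel
theorem K_91500 : allIco 91500 93000 ck = true := by decide +kernel
theorem K_93000 : allIco 93000 94500 ck = true := by decide +kernel
theorem K_94500 : allIco 94500 96000 ck = true := by decide +kernel
theorem K_96000 : allIco 96000 97500 ck = true := by decide +kernel
theorem K_97500 : allIco 97500 99000 ck = true := by decide +kernel
theorem K_99000 : allIco 99000 100500 ck = true := by decide +kernel
theorem K_100500 : allIco 100500 102000 ck = true := by decide +kernel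
theorem K_102000 : allIco 102000 103500 ck = true := by decide +kernel
theorem K_103500 : allIco 103500 105000 ck = true := by decide +kernel
theorem K_105000 : allIco 105000 106500 ck = true := by decide +kernel
theorem K_106500 : allIco 106500 108000 ck = true := by decide +kernel
theorem K_108000 : allIco 108000 109500 ck = true := by decide +kernel
theorem K_109500 : allIco 109500 111000 ck = true := by decide +kernel
theorem K_111000 : allIco 111000 112500 ck = true := by decide +kernel
theorem K_112500 : allIco 112500 114000 ck = true := by decide +kernel
theorem K_114000 : allIco 114000 115500 ck = true := by decide +kernel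
theorem K_115500 : allIco 115500 117000 ck = true := by decide +kernel
theorem K_all2 (h : ∀ p, p < 78000 → ck p = true) : ∀ p, p < 117000 → ck p = true := (all_of_blocks (all_of_blocks (all_of_blocks (all_of_blocks (all_of_blocks (all_of_blocks (all_of_blocks (all_of_blocks (all_of_blocks (all_of_blocks (all_of_blocks (all_of_blocks (all_of_blocks (all_of_blocks (all_of_blocks (all_of_blocks (all_of_blocks (all_of_blocks (all_of_blocks (all_of_blocks (all_of_blocks (all_of_blocks (all_of_blocks (all_of_blocks (all_of_blocks (all_of_blocks h K_78000) K_79500) K_81000) K_82500) K_84000) K_85500) K_87000) K_88500) K_90000) K_91500) K_93000) K_94500) K_96000) K_97500) K_99000) K_100500) K_102000) K_103500) K_105000) K_106500) K_108000) K_109500) K_111000) K_112500) K_114000) K_115500)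

end

end CfsgH5.F24
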