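/-
Fi24: checks (generated).
-/
import Cfsg.Agent.H5.F24D

set_option autoImplicit false
set_option maxRecDepth 100000
set_option linter.all false
set_option Elab.async false

namespace CfsgH5.F24

open KT

noncomputable section

theorem K_117000 : allIco 117000 118500 ck = true := by decide +kernel
theorem K_118500 : allIco 118500 120000 ck = true := by decide +kernel
theorem K_120000 : allIco 120000 121500 ck = true := by decide +kernel
theorem K_121500 : allIco 121500 123000 ck = true := by decide +kernel
theorem K_123000 : allIco 123000 124500 ck = true := by decide +kernel
theorem K_124500 : allIco 124500 126000 ck = true := by decide +kernel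
theorem K_126000 : allIco 126000 127500 ck = true := by decide +kernel
theorem K_127500 : allIco 127500 129000 ck = true := by decide +kernel
theorem K_129000 : allIco 129000 130500 ck = true := by decide +kernel
theorem K_130500 : allIco 130500 132000 ck = true := by decide +kernel
theorem K_132000 : allIco 132000 133500 ck = true := by decide +kernel
theorem K_133500 : allIco 133500 135000 ck = true := by decide +kernel
theorem K_135000 : allIco 135000 136500 ck = true := by decide +kernel
theorem K_136500 : allIco 136500 138000 ck = true := by decide +kernel
theorem K_138000 : allIco 138000 139500 ck = true := by decide +kernel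
theorem K_139500 : allIco 139500 141000 ck = true := by decide +kernel
theorem K_141000 : allIco 141000 142500 ck = true := by decide +kernel
theorem K_142500 : allIco 142500 144000 ck = true := by decide +kernel
theorem K_144000 : allIco 144000 145500 ck = true := by decide +kernel
theorem K_145500 : allIco 145500 147000 ck = true := by decide +kernel
theorem K_147000 : allIco 147000 148500 ck = true := by decide +kernel
theorem K_148500 : allIco 148500 150000 ck = true := by decide +kernel
theorem K_150000 : allIco 150000 151500 ck = true := by decide +kernel
theorem K_151500 : allIco 151500 153000 ck = true := by decide +kernel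
theorem K_153000 : allIco 153000 154500 ck = true := by decide +kernel
theorem K_154500 : allIco 154500 156000 ck = true := by decide +kernel
theorem K_all3 (h : ∀ p, p < 117000 → ck p = true) : ∀ p, p < 156000 → ck p = true := (all_of_blocks (all_of_blocks (all_of_blocks (all_of_blocks (all_of_blocks (all_of_blocks (all_of_blocks (all_of_blocks (all_of_blocks (all_of_blocks (all_of_blocks (all_of_blocks (all_of_blocks (all_of_blocks (all_of_blocks (all_of_blocks (all_of_blocks (all_of_blocks (all_of_blocks (all_of_blocks (all_of_blocks (all_of_blocks (all_of_blocks (all_of_blocks (all_of_blocks (all_of_blocks h K_117000) K_118500) K_120000) K_121500) K_123000) K_124500) K_126000) K_127500) K_129000) K_130500) K_132000) K_133500) K_135000) K_136500) K_138000) K_139500) K_141000) K_142500) K_144000) K_145500) K_147000) K_148500) K_150000) K_151500) K_153000) K_154500)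

end

end CfsgH5.F24
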