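/-
Fi24: checks (generated).
-/
import Cfsg.Agent.H5.F24D

set_option autoImplicit false
set_option maxRecDepth 100000
set_option linter.all false
set_option Elab.async false

namespace CfsgH5.F24

open KT

noncomputable section

theorem K_156000 : allIco 156000 157500 ck = true := by decide +kernel
theorem K_157500 : allIco 157500 159000 ck = true := by decide +kernel
theorem K_159000 : allIco 159000 160500 ck = true := by decide +kernel
theorem K_160500 : allIco 160500 162000 ck = true := by decide +kernel
theorem K_162000 : allIco 162000 163500 ck = true := by decide +kernel
theorem K_163500 : allIco 163500 165000 ck = true := by decide +kernel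
theorem K_165000 : allIco 165000 166500 ck = true := by decide +kernel
theorem K_166500 : allIco 166500 168000 ck = true := by decide +kernel
theorem K_168000 : allIco 168000 169500 ck = true := by decide +kernel
theorem K_169500 : allIco 169500 171000 ck = true := by decide +kernel
theorem K_171000 : allIco 171000 172500 ck = true := by decide +kernel
theorem K_172500 : allIco 172500 174000 ck = true := by decide +kernel
theorem K_174000 : allIco 174000 175500 ck = true := by decide +kernel
theorem K_175500 : allIco 175500 177000 ck = true := by decide +kernel
theorem K_177000 : allIco 177000 178500 ck = true := by decide +kernel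
theorem K_178500 : allIco 178500 180000 ck = true := by decide +kernel
theorem K_180000 : allIco 180000 181500 ck = true := by decide +kernel
theorem K_181500 : allIco 181500 183000 ck = true := by decide +kernel
theorem K_183000 : allIco 183000 184500 ck = true := by decide +kernel
theorem K_184500 : allIco 184500 186000 ck = true := by decide +kernel
theorem K_186000 : allIco 186000 187500 ck = true := by decide +kernel
theorem K_187500 : allIco 187500 189000 ck = true := by decide +kernel
theorem K_189000 : allIco 189000 190500 ck = true := by decide +kernel
theorem K_190500 : allIco 190500 192000 ck = true := by decide +kernel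
theorem K_192000 : allIco 192000 193500 ck = true := by decide +kernel
theorem K_193500 : allIco 193500 195000 ck = true := by decide +kernel
theorem K_all4 (h : ∀ p, p < 156000 → ck p = true) : ∀ p, p < 195000 → ck p = true := (all_of_blocks (all_of_blocks (all_of_blocks (all_of_blocks (all_of_blocks (all_of_blocks (all_of_blocks (all_of_blocks (all_of_blocks (all_of_blocks (all_of_blocks (all_of_blocks (all_of_blocks (all_of_blocks (all_of_blocks (all_of_blocks (all_of_blocks (all_of_blocks (all_of_blocks (all_of_blocks (all_of_blocks (all_of_blocks (all_of_blocks (all_of_blocks (all_of_blocks (all_of_blocks h K_156000) K_157500) K_159000) K_160500) K_162000) K_163500) K_165000) K_166500) K_168000) K_169500) K_171000) K_172500) K_174000) K_175500) K_177000) K_178500) K_180000) K_181500) K_183000) K_184500) K_186000) K_187500) K_189000) K_190500) K_192000) K_193500)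

end

end CfsgH5.F24
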