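/-
Fi24: checks (generated).
-/
import Cfsg.Agent.H5.F24D

set_option autoImplicit false
set_option maxRecDepth 100000
set_option linter.all false
set_option Elab.async false

namespace CfsgH5.F24

open KT

noncomputable section

theorem K_195000 : allIco 195000 196500 ck = true := by decide +kernel
theorem K_196500 : allIco 196500 198000 ck = true := by decide +kernel
theorem K_198000 : allIco 198000 199500 ck = true := by decide +kernel
theorem K_199500 : allIco 199500 201000 ck = true := by decide +kernel
theorem K_201000 : allIco 201000 202500 ck = true := by decide +kernel
theorem K_202500 : allIco 202500 204000 ck = true := by decide +kernel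
theorem K_204000 : allIco 204000 205500 ck = true := by decide +kernel
theorem K_205500 : allIco 205500 207000 ck = true := by decide +kernel
theorem K_207000 : allIco 207000 208500 ck = true := by decide +kernel
theorem K_208500 : allIco 208500 210000 ck = true := by decide +kernel
theorem K_210000 : allIco 210000 211500 ck = true := by decide +kernel
theorem K_211500 : allIco 211500 213000 ck = true := by decide +kernel
theorem K_213000 : allIco 213000 214500 ck = true := by decide +kernel
theorem K_214500 : allIco 214500 216000 ck = true := by decide +kernel
theorem K_216000 : allIco 216000 217500 ck = true := by decide +kernel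
theorem K_217500 : allIco 217500 219000 ck = true := by decide +kernel
theorem K_219000 : allIco 219000 220500 ck = true := by decide +kernel
theorem K_220500 : allIco 220500 222000 ck = true := by decide +kernel
theorem K_222000 : allIco 222000 223500 ck = true := by decide +kernel
theorem K_223500 : allIco 223500 225000 ck = true := by decide +kernel
theorem K_225000 : allIco 225000 226500 ck = true := by decide +kernel
theorem K_226500 : allIco 226500 228000 ck = true := by decide +kernel
theorem K_228000 : allIco 228000 229500 ck = true := by decide +kernel
theorem K_229500 : allIco 229500 231000 ck = true := by decide +kernel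
theorem K_231000 : allIco 231000 232500 ck = true := by decide +kernel
theorem K_232500 : allIco 232500 234000 ck = true := by decide +kernel
theorem K_all5 (h : ∀ p, p < 195000 → ck p = true) : ∀ p, p < 234000 → ck p = true := (all_of_blocks (all_of_blocks (all_of_blocks (all_of_blocks (all_of_blocks (all_of_blocks (all_of_blocks (all_of_blocks (all_of_blocks (all_of_blocks (all_of_blocks (all_of_blocks (all_of_blocks (all_of_blocks (all_of_blocks (all_of_blocks (all_of_blocks (all_of_blocks (all_of_blocks (all_of_blocks (all_of_blocks (all_of_blocks (all_of_blocks (all_of_blocks (all_of_blocks (all_of_blocks h K_195000) K_196500) K_198000) K_199500) K_201000) K_202500) K_204000) K_205500) K_207000) K_208500) K_210000) K_211500) K_213000) K_214500) K_216000) K_217500) K_219000) K_220500) K_222000) K_223500) K_225000) K_226500) K_228000) K_229500) K_231000) K_232500)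

end

end CfsgH5.F24
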