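/-
Fi24: checks (generated).
-/
import Cfsg.Agent.H5.F24D

set_option autoImplicit false
set_option maxRecDepth 100000
set_option linter.all false
set_option Elab.async false

namespace CfsgH5.F24

open KT

noncomputable section

theorem K_234000 : allIco 234000 235500 ck = true := by decide +kernel
theorem K_235500 : allIco 235500 237000 ck = true := by decide +kernel
theorem K_237000 : allIco 237000 238500 ck = true := by decide +kernel
theorem K_238500 : allIco 238500 240000 ck = true := by decide +kernel
theorem K_240000 : allIco 240000 241500 ck = true := by decide +kernel
theorem K_241500 : allIco 241500 243000 ck = true := by decide +kernel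
theorem K_243000 : allIco 243000 244500 ck = true := by decide +kernel
theorem K_244500 : allIco 244500 246000 ck = true := by decide +kernel
theorem K_246000 : allIco 246000 247500 ck = true := by decide +kernel
theorem K_247500 : allIco 247500 249000 ck = true := by decide +kernel
theorem K_249000 : allIco 249000 250500 ck = true := by decide +kernel
theorem K_250500 : allIco 250500 252000 ck = true := by decide +kernel
theorem K_252000 : allIco 252000 253500 ck = true := by decide +kernel
theorem K_253500 : allIco 253500 255000 ck = true := by decide +kernel
theorem K_255000 : allIco 255000 256500 ck = true := by decide +kernel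
theorem K_256500 : allIco 256500 258000 ck = true := by decide +kernel
theorem K_258000 : allIco 258000 259500 ck = true := by decide +kernel
theorem K_259500 : allIco 259500 261000 ck = true := by decide +kernel
theorem K_261000 : allIco 261000 262500 ck = true := by decide +kernel
theorem K_262500 : allIco 262500 264000 ck = true := by decide +kernel
theorem K_264000 : allIco 264000 265500 ck = true := by decide +kernel
theorem K_265500 : allIco 265500 267000 ck = true := by decide +kernel
theorem K_267000 : allIco 267000 268500 ck = true := by decide +kernel
theorem K_268500 : allIco 268500 270000 ck = true := by decide +kernel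
theorem K_270000 : allIco 270000 271500 ck = true := by decide +kernel
theorem K_271500 : allIco 271500 273000 ck = true := by decide +kernel
theorem K_all6 (h : ∀ p, p < 234000 → ck p = true) : ∀ p, p < 273000 → ck p = true := (all_of_blocks (all_of_blocks (all_of_blocks (all_of_blocks (all_of_blocks (all_of_blocks (all_of_blocks (all_of_blocks (all_of_blocks (all_of_blocks (all_of_blocks (all_of_blocks (all_of_blocks (all_of_blocks (all_of_blocks (all_of_blocks (all_of_blocks (all_of_blocks (all_of_blocks (all_of_blocks (all_of_blocks (all_of_blocks (all_of_blocks (all_of_blocks (all_of_blocks (all_of_blocks h K_234000) K_235500) K_237000) K_238500) K_240000) K_241500) K_243000) K_244500) K_246000) K_247500) K_249000) K_250500) K_252000) K_253500) K_255000) K_256500) K_258000) K_259500) K_261000) K_262500) K_264000) K_265500) K_267000) K_268500) K_270000) K_271500)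

end

end CfsgH5.F24
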