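/-
Fi24: checks (generated).
-/
import Cfsg.Agent.H5.F24D

set_option autoImplicit false
set_option maxRecDepth 100000
set_option linter.all false
set_option Elab.async false

namespace CfsgH5.F24

open KT

noncomputable section

theorem K_273000 : allIco 273000 274500 ck = true := by decide +kernel
theorem K_274500 : allIco 274500 276000 ck = true := by decide +kernel
theorem K_276000 : allIco 276000 277500 ck = true := by decide +kernel
theorem K_277500 : allIco 277500 279000 ck = true := by decide +kernel
theorem K_279000 : allIco 279000 280500 ck = true := by decide +kernel
theorem K_280500 : allIco 280500 282000 ck = true := by decide +kernel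
theorem K_282000 : allIco 282000 283500 ck = true := by decide +kernel
theorem K_283500 : allIco 283500 285000 ck = true := by decide +kernel
theorem K_285000 : allIco 285000 286500 ck = true := by decide +kernel
theorem K_286500 : allIco 286500 288000 ck = true := by decide +kernel
theorem K_288000 : allIco 288000 289500 ck = true := by decide +kernel
theorem K_289500 : allIco 289500 291000 ck = true := by decide +kernel
theorem K_291000 : allIco 291000 292500 ck = true := by decide +kernel
theorem K_292500 : allIco 292500 294000 ck = true := by decide +kernel
theorem K_294000 : allIco 294000 295500 ck = true := by decide +kernel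
theorem K_295500 : allIco 295500 297000 ck = true := by decide +kernel
theorem K_297000 : allIco 297000 298500 ck = true := by decide +kernel
theorem K_298500 : allIco 298500 300000 ck = true := by decide +kernel
theorem K_300000 : allIco 300000 301500 ck = true := by decide +kernel
theorem K_301500 : allIco 301500 303000 ck = true := by decide +kernel
theorem K_303000 : allIco 303000 304500 ck = true := by decide +kernel
theorem K_304500 : allIco 304500 306000 ck = true := by decide +kernel
theorem K_306000 : allIco 306000 306936 ck = true := by decide +kernel
theorem K_all7 (h : ∀ p, p < 273000 → ck p = true) : ∀ p, p < 306936 → ck p = true := (all_of_blocks (all_of_blocks (all_of_blocks (all_of_blocks (all_of_blocks (all_of_blocks (all_of_blocks (all_of_blocks (all_of_blocks (all_of_blocks (all_of_blocks (all_of_blocks (all_of_blocks (all_of_blocks (all_of_blocks (all_of_blocks (all_of_blocks (all_of_blocks (all_of_blocks (all_of_blocks (all_of_blocks (all_of_blocks (all_of_blocks h K_273000) K_274500) K_276000) K_277500) K_279000) K_280500) K_282000) K_283500) K_285000) K_286500) K_288000) K_289500) K_291000) K_292500) K_294000) K_295500) K_297000) K_298500) K_300000) K_301500) K_303000) K_304500) K_306000)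

end

end CfsgH5.F24
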