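/-
Fi24: checks (generated).
-/
import Cfsg.Agent.H5.F24D

set_option autoImplicit false
set_option maxRecDepth 100000
set_option linter.all false
set_option Elab.async false

namespace CfsgH5.F24

open KT

noncomputable section

theorem L_0 : allIco 0 3000 cl = true := by decide +kernel
theorem L_3000 : allIco 3000 6000 cl = true := by decide +kernel
theorem L_6000 : allIco 6000 9000 cl = true := by decide +kernel
theorem L_9000 : allIco 9000 12000 cl = true := by decide +kernel
theorem L_12000 : allIco 12000 15000 cl = true := by decide +kernel
theorem L_15000 : allIco 15000 18000 cl = true := by decide +kernel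
theorem L_18000 : allIco 18000 21000 cl = true := by decide +kernel
theorem L_21000 : allIco 21000 24000 cl = true := by decide +kernel
theorem L_24000 : allIco 24000 27000 cl = true := by decide +kernel
theorem L_27000 : allIco 27000 30000 cl = true := by decide +kernel
theorem L_30000 : allIco 30000 33000 cl = true := by decide +kernel
theorem L_33000 : allIco 33000 36000 cl = true := by decide +kernel
theorem L_36000 : allIco 36000 39000 cl = true := by decide +kernel
theorem L_39000 : allIco 39000 42000 cl = true := by decide +kernel
theorem L_42000 : allIco 42000 45000 cl = true := by decide +kernel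
theorem L_45000 : allIco 45000 48000 cl = true := by decide +kernel
theorem L_48000 : allIco 48000 51000 cl = true := by decide +kernel
theorem L_51000 : allIco 51000 54000 cl = true := by decide +kernel
theorem L_54000 : allIco 54000 57000 cl = true := by decide +kernel
theorem L_57000 : allIco 57000 60000 cl = true := by decide +kernel
theorem L_60000 : allIco 60000 63000 cl = true := by decide +kernel
theorem L_63000 : allIco 63000 66000 cl = true := by decide +kernel
theorem L_66000 : allIco 66000 69000 cl = true := by decide +kernel
theorem L_69000 : allIco 69000 72000 cl = true := by decide +kernel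
theorem L_72000 : allIco 72000 75000 cl = true := by decide +kernel
theorem L_75000 : allIco 75000 78000 cl = true := by decide +kernel
theorem L_all0 (h : ∀ p, p < 0 → cl p = true) : ∀ p, p < 78000 → cl p = true := (all_of_blocks (all_of_blocks (all_of_blocks (all_of_blocks (all_of_blocks (all_of_blocks (all_of_blocks (all_of_blocks (all_of_blocks (all_of_blocks (all_of_blocks (all_of_blocks (all_of_blocks (all_of_blocks (all_of_blocks (all_of_blocks (all_of_blocks (all_of_blocks (all_of_blocks (all_of_blocks (all_of_blocks (all_of_blocks (all_of_blocks (all_of_blocks (all_of_blocks (all_of_blocks h L_0) L_3000) L_6000) L_9000) L_12000) L_15000) L_18000) L_21000) L_24000) L_27000) L_30000) L_33000) L_36000) L_39000) L_42000) L_45000) L_48000) L_51000) L_54000) L_57000) L_60000) L_63000) L_66000) L_69000) L_72000) L_75000)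

end

end CfsgH5.F24
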