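/-
Fi24: checks (generated).
-/
import Cfsg.Agent.H5.F24D

set_option autoImplicit false
set_option maxRecDepth 100000
set_option linter.all false
set_option Elab.async false

namespace CfsgH5.F24

open KT

noncomputable section

theorem L_78000 : allIco 78000 81000 cl = true := by decide +kernel
theorem L_81000 : allIco 81000 84000 cl = true := by decide +kernel
theorem L_84000 : allIco 84000 87000 cl = true := by decide +kernel
theorem L_87000 : allIco 87000 90000 cl = true := by decide +kernel
theorem L_90000 : allIco 90000 93000 cl = true := by decide +kernel
theorem L_93000 : allIco 93000 96000 cl = true := by decide +kernel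
theorem L_96000 : allIco 96000 99000 cl = true := by decide +kernel
theorem L_99000 : allIco 99000 102000 cl = true := by decide +kernel
theorem L_102000 : allIco 102000 105000 cl = true := by decide +kernel
theorem L_105000 : allIco 105000 108000 cl = true := by decide +kernel
theorem L_108000 : allIco 108000 111000 cl = true := by decide +kernel
theorem L_111000 : allIco 111000 114000 cl = true := by decide +kernel
theorem L_114000 : allIco 114000 117000 cl = true := by decide +kernel
theorem L_117000 : allIco 117000 120000 cl = true := by decide +kernel
theorem L_120000 : allIco 120000 123000 cl = true := by decide +kernel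
theorem L_123000 : allIco 123000 126000 cl = true := by decide +kernel
theorem L_126000 : allIco 126000 129000 cl = true := by decide +kernel
theorem L_129000 : allIco 129000 132000 cl = true := by decide +kernel
theorem L_132000 : allIco 132000 135000 cl = true := by decide +kernel
theorem L_135000 : allIco 135000 138000 cl = true := by decide +kernel
theorem L_138000 : allIco 138000 141000 cl = true := by decide +kernel
theorem L_141000 : allIco 141000 144000 cl = true := by decide +kernel
theorem L_144000 : allIco 144000 147000 cl = true := by decide +kernel
theorem L_147000 : allIco 147000 150000 cl = true := by decide +kernel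
theorem L_150000 : allIco 150000 153000 cl = true := by decide +kernel
theorem L_153000 : allIco 153000 156000 cl = true := by decide +kernel
theorem L_all1 (h : ∀ p, p < 78000 → cl p = true) : ∀ p, p < 156000 → cl p = true := (all_of_blocks (all_of_blocks (all_of_blocks (all_of_blocks (all_of_blocks (all_of_blocks (all_of_blocks (all_of_blocks (all_of_blocks (all_of_blocks (all_of_blocks (all_of_blocks (all_of_blocks (all_of_blocks (all_of_blocks (all_of_blocks (all_of_blocks (all_of_blocks (all_of_blocks (all_of_blocks (all_of_blocks (all_of_blocks (all_of_blocks (all_of_blocks (all_of_blocks (all_of_blocks h L_78000) L_81000) L_84000) L_87000) L_90000) L_93000) L_96000) L_99000) L_102000) L_105000) L_108000) L_111000) L_114000) L_117000) L_120000) L_123000) L_126000) L_129000) L_132000) L_135000) L_138000) L_141000) L_144000) L_147000) L_150000) L_153000)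

end

end CfsgH5.F24
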