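/-
Fi24: checks (generated).
-/
import Cfsg.Agent.H5.F24D

set_option autoImplicit false
set_option maxRecDepth 100000
set_option linter.all false
set_option Elab.async false

namespace CfsgH5.F24

open KT

noncomputable section

theorem L_156000 : allIco 156000 159000 cl = true := by decide +kernel
theorem L_159000 : allIco 159000 162000 cl = true := by decide +kernel
theorem L_162000 : allIco 162000 165000 cl = true := by decide +kernel
theorem L_165000 : allIco 165000 168000 cl = true := by decide +kernel
theorem L_168000 : allIco 168000 171000 cl = true := by decide +kernel
theorem L_171000 : allIco 171000 174000 cl = true := by decide +kernel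
theorem L_174000 : allIco 174000 177000 cl = true := by decide +kernel
theorem L_177000 : allIco 177000 180000 cl = true := by decide +kernel
theorem L_180000 : allIco 180000 183000 cl = true := by decide +kernel
theorem L_183000 : allIco 183000 186000 cl = true := by decide +kernel
theorem L_186000 : allIco 186000 189000 cl = true := by decide +kernel
theorem L_189000 : allIco 189000 192000 cl = true := by decide +kernel
theorem L_192000 : allIco 192000 195000 cl = true := by decide +kernel
theorem L_195000 : allIco 195000 198000 cl = true := by decide +kernel
theorem L_198000 : allIco 198000 201000 cl = true := by decide +kernel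
theorem L_201000 : allIco 201000 204000 cl = true := by decide +kernel
theorem L_204000 : allIco 204000 207000 cl = true := by decide +kernel
theorem L_207000 : allIco 207000 210000 cl = true := by decide +kernel
theorem L_210000 : allIco 210000 213000 cl = true := by decide +kernel
theorem L_213000 : allIco 213000 216000 cl = true := by decide +kernel
theorem L_216000 : allIco 216000 219000 cl = true := by decide +kernel
theorem L_219000 : allIco 219000 222000 cl = true := by decide +kernel
theorem L_222000 : allIco 222000 225000 cl = true := by decide +kernel
theorem L_225000 : allIco 225000 228000 cl = true := by decide +kernel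
theorem L_228000 : allIco 228000 231000 cl = true := by decide +kernel
theorem L_231000 : allIco 231000 234000 cl = true := by decide +kernel
theorem L_all2 (h : ∀ p, p < 156000 → cl p = true) : ∀ p, p < 234000 → cl p = true := (all_of_blocks (all_of_blocks (all_of_blocks (all_of_blocks (all_of_blocks (all_of_blocks (all_of_blocks (all_of_blocks (all_of_blocks (all_of_blocks (all_of_blocks (all_of_blocks (all_of_blocks (all_of_blocks (all_of_blocks (all_of_blocks (all_of_blocks (all_of_blocks (all_of_blocks (all_of_blocks (all_of_blocks (all_of_blocks (all_of_blocks (all_of_blocks (all_of_blocks (all_of_blocks h L_156000) L_159000) L_162000) L_165000) L_168000) L_171000) L_174000) L_177000) L_180000) L_183000) L_186000) L_189000) L_192000) L_195000) L_198000) L_201000) L_204000) L_207000) L_210000) L_213000) L_216000) L_219000) L_222000) L_225000) L_228000) L_231000)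

end

end CfsgH5.F24
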