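/-
Fi24: checks (generated).
-/
import Cfsg.Agent.H5.F24D

set_option autoImplicit false
set_option maxRecDepth 100000
set_option linter.all false
set_option Elab.async false

namespace CfsgH5.F24

open KT

noncomputable section

theorem L_234000 : allIco 234000 237000 cl = true := by decide +kernel
theorem L_237000 : allIco 237000 240000 cl = true := by decide +kernel
theorem L_240000 : allIco 240000 243000 cl = true := by decide +kernel
theorem L_243000 : allIco 243000 246000 cl = true := by decide +kernel
theorem L_246000 : allIco 246000 249000 cl = true := by decide +kernel
theorem L_249000 : allIco 249000 252000 cl = true := by decide +kernel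
theorem L_252000 : allIco 252000 255000 cl = true := by decide +kernel
theorem L_255000 : allIco 255000 258000 cl = true := by decide +kernel
theorem L_258000 : allIco 258000 261000 cl = true := by decide +kernel
theorem L_261000 : allIco 261000 264000 cl = true := by decide +kernel
theorem L_264000 : allIco 264000 267000 cl = true := by decide +kernel
theorem L_267000 : allIco 267000 270000 cl = true := by decide +kernel
theorem L_270000 : allIco 270000 273000 cl = true := by decide +kernel
theorem L_273000 : allIco 273000 276000 cl = true := by decide +kernel
theorem L_276000 : allIco 276000 279000 cl = true := by decide +kernel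
theorem L_279000 : allIco 279000 282000 cl = true := by decide +kernel
theorem L_282000 : allIco 282000 285000 cl = true := by decide +kernel
theorem L_285000 : allIco 285000 288000 cl = true := by decide +kernel
theorem L_288000 : allIco 288000 291000 cl = true := by decide +kernel
theorem L_291000 : allIco 291000 294000 cl = true := by decide +kernel
theorem L_294000 : allIco 294000 297000 cl = true := by decide +kernel
theorem L_297000 : allIco 297000 300000 cl = true := by decide +kernel
theorem L_300000 : allIco 300000 303000 cl = true := by decide +kernel
theorem L_303000 : allIco 303000 306000 cl = true := by decide +kernel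
theorem L_306000 : allIco 306000 306936 cl = true := by decide +kernel
theorem L_all3 (h : ∀ p, p < 234000 → cl p = true) : ∀ p, p < 306936 → cl p = true := (all_of_blocks (all_of_blocks (all_of_blocks (all_of_blocks (all_of_blocks (all_of_blocks (all_of_blocks (all_of_blocks (all_of_blocks (all_of_blocks (all_of_blocks (all_of_blocks (all_of_blocks (all_of_blocks (all_of_blocks (all_of_blocks (all_of_blocks (all_of_blocks (all_of_blocks (all_of_blocks (all_of_blocks (all_of_blocks (all_of_blocks (all_of_blocks (all_of_blocks h L_234000) L_237000) L_240000) L_243000) L_246000) L_249000) L_252000) L_255000) L_258000) L_261000) L_264000) L_267000) L_270000) L_273000) L_276000) L_279000) L_282000) L_285000) L_288000) L_291000) L_294000) L_297000) L_300000) L_303000) L_306000)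

end

end CfsgH5.F24
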