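/-
Fi24: checks (generated).
-/
import Cfsg.Agent.H5.F24D

set_option autoImplicit false
set_option maxRecDepth 100000
set_option linter.all false
set_option Elab.async false

namespace CfsgH5.F24

open KT

noncomputable section

theorem M_0 : allIco 0 1500 cm = true := by decide +kernel
theorem M_1500 : allIco 1500 3000 cm = true := by decide +kernel
theorem M_3000 : allIco 3000 4500 cm = true := by decide +kernel
theorem M_4500 : allIco 4500 6000 cm = true := by decide +kernel
theorem M_6000 : allIco 6000 7500 cm = true := by decide +kernel
theorem M_7500 : allIco 7500 9000 cm = true := by decide +kernel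
theorem M_9000 : allIco 9000 10500 cm = true := by decide +kernel
theorem M_10500 : allIco 10500 12000 cm = true := by decide +kernel
theorem M_12000 : allIco 12000 13500 cm = true := by decide +kernel
theorem M_13500 : allIco 13500 15000 cm = true := by decide +kernel
theorem M_15000 : allIco 15000 16500 cm = true := by decide +kernel
theorem M_16500 : allIco 16500 18000 cm = true := by decide +kernel
theorem M_18000 : allIco 18000 19500 cm = true := by decide +kernel
theorem M_19500 : allIco 19500 21000 cm = true := by decide +kernel
theorem M_21000 : allIco 21000 22500 cm = true := by decide +kernel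
theorem M_22500 : allIco 22500 24000 cm = true := by decide +kernel
theorem M_24000 : allIco 24000 25500 cm = true := by decide +kernel
theorem M_25500 : allIco 25500 27000 cm = true := by decide +kernel
theorem M_27000 : allIco 27000 28500 cm = true := by decide +kernel
theorem M_28500 : allIco 28500 30000 cm = true := by decide +kernel
theorem M_30000 : allIco 30000 31500 cm = true := by decide +kernel
theorem M_31500 : allIco 31500 33000 cm = true := by decide +kernel
theorem M_33000 : allIco 33000 34500 cm = true := by decide +kernel
theorem M_34500 : allIco 34500 36000 cm = true := by decide +kernel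
theorem M_36000 : allIco 36000 37500 cm = true := by decide +kernel
theorem M_37500 : allIco 37500 39000 cm = true := by decide +kernel
theorem M_all0 (h : ∀ p, p < 0 → cm p = true) : ∀ p, p < 39000 → cm p = true := (all_of_blocks (all_of_blocks (all_of_blocks (all_of_blocks (all_of_blocks (all_of_blocks (all_of_blocks (all_of_blocks (all_of_blocks (all_of_blocks (all_of_blocks (all_of_blocks (all_of_blocks (all_of_blocks (all_of_blocks (all_of_blocks (all_of_blocks (all_of_blocks (all_of_blocks (all_of_blocks (all_of_blocks (all_of_blocks (all_of_blocks (all_of_blocks (all_of_blocks (all_of_blocks h M_0) M_1500) M_3000) M_4500) M_6000) M_7500) M_9000) M_10500) M_12000) M_13500) M_15000) M_16500) M_18000) M_19500) M_21000) M_22500) M_24000) M_25500) M_27000) M_28500) M_30000) M_31500) M_33000) M_34500) M_36000) M_37500)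

end

end CfsgH5.F24
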