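/-
Fi24: checks (generated).
-/
import Cfsg.Agent.H5.F24D

set_option autoImplicit false
set_option maxRecDepth 100000
set_option linter.all false
set_option Elab.async false

namespace CfsgH5.F24

open KT

noncomputable section

theorem M_39000 : allIco 39000 40500 cm = true := by decide +kernel
theorem M_40500 : allIco 40500 42000 cm = true := by decide +kernel
theorem M_42000 : allIco 42000 43500 cm = true := by decide +kernel
theorem M_43500 : allIco 43500 45000 cm = true := by decide +kernel
theorem M_45000 : allIco 45000 46500 cm = true := by decide +kernel
theorem M_46500 : allIco 46500 48000 cm = true := by decide +kernel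
theorem M_48000 : allIco 48000 49500 cm = true := by decide +kernel
theorem M_49500 : allIco 49500 51000 cm = true := by decide +kernel
theorem M_51000 : allIco 51000 52500 cm = true := by decide +kernel
theorem M_52500 : allIco 52500 54000 cm = true := by decide +kernel
theorem M_54000 : allIco 54000 55500 cm = true := by decide +kernel
theorem M_55500 : allIco 55500 57000 cm = true := by decide +kernel
theorem M_57000 : allIco 57000 58500 cm = true := by decide +kernel
theorem M_58500 : allIco 58500 60000 cm = true := by decide +kernel
theorem M_60000 : allIco 60000 61500 cm = true := by decide +kernel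
theorem M_61500 : allIco 61500 63000 cm = true := by decide +kernel
theorem M_63000 : allIco 63000 64500 cm = true := by decide +kernel
theorem M_64500 : allIco 64500 66000 cm = true := by decide +kernel
theorem M_66000 : allIco 66000 67500 cm = true := by decide +kernel
theorem M_67500 : allIco 67500 69000 cm = true := by decide +kernel
theorem M_69000 : allIco 69000 70500 cm = true := by decide +kernel
theorem M_70500 : allIco 70500 72000 cm = true := by decide +kernel
theorem M_72000 : allIco 72000 73500 cm = true := by decide +kernel
theorem M_73500 : allIco 73500 75000 cm = true := by decide +kernel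
theorem M_75000 : allIco 75000 76500 cm = true := by decide +kernel
theorem M_76500 : allIco 76500 78000 cm = true := by decide +kernel
theorem M_all1 (h : ∀ p, p < 39000 → cm p = true) : ∀ p, p < 78000 → cm p = true := (all_of_blocks (all_of_blocks (all_of_blocks (all_of_blocks (all_of_blocks (all_of_blocks (all_of_blocks (all_of_blocks (all_of_blocks (all_of_blocks (all_of_blocks (all_of_blocks (all_of_blocks (all_of_blocks (all_of_blocks (all_of_blocks (all_of_blocks (all_of_blocks (all_of_blocks (all_of_blocks (all_of_blocks (all_of_blocks (all_of_blocks (all_of_blocks (all_of_blocks (all_of_blocks h M_39000) M_40500) M_42000) M_43500) M_45000) M_46500) M_48000) M_49500) M_51000) M_52500) M_54000) M_55500) M_57000) M_58500) M_60000) M_61500) M_63000) M_64500) M_66000) M_67500) M_69000) M_70500) M_72000) M_73500) M_75000) M_76500)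

end

end CfsgH5.F24
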