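/-
Fi24: checks (generated).
-/
import Cfsg.Agent.H5.F24D

set_option autoImplicit false
set_option maxRecDepth 100000
set_option linter.all false
set_option Elab.async false

namespace CfsgH5.F24

open KT

noncomputable section

theorem M_78000 : allIco 78000 79500 cm = true := by decide +kernel
theorem M_79500 : allIco 79500 81000 cm = true := by decide +kernel
theorem M_81000 : allIco 81000 82500 cm = true := by decide +kernel
theorem M_82500 : allIco 82500 84000 cm = true := by decide +kernel
theorem M_84000 : allIco 84000 85500 cm = true := by decide +kernel
theorem M_85500 : allIco 85500 87000 cm = true := by decide +kernel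
theorem M_87000 : allIco 87000 88500 cm = true := by decide +kernel
theorem M_88500 : allIco 88500 90000 cm = true := by decide +kernel
theorem M_90000 : allIco 90000 91500 cm = true := by decide +kernel
theorem M_91500 : allIco 91500 93000 cm = true := by decide +kernel
theorem M_93000 : allIco 93000 94500 cm = true := by decide +kernel
theorem M_94500 : allIco 94500 96000 cm = true := by decide +kernel
theorem M_96000 : allIco 96000 97500 cm = true := by decide +kernel
theorem M_97500 : allIco 97500 99000 cm = true := by decide +kernel
theorem M_99000 : allIco 99000 100500 cm = true := by decide +kernel
theorem M_100500 : allIco 100500 102000 cm = true := by decide +kernel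
theorem M_102000 : allIco 102000 103500 cm = true := by decide +kernel
theorem M_103500 : allIco 103500 105000 cm = true := by decide +kernel
theorem M_105000 : allIco 105000 106500 cm = true := by decide +kernel
theorem M_106500 : allIco 106500 108000 cm = true := by decide +kernel
theorem M_108000 : allIco 108000 109500 cm = true := by decide +kernel
theorem M_109500 : allIco 109500 111000 cm = true := by decide +kernel
theorem M_111000 : allIco 111000 112500 cm = true := by decide +kernel
theorem M_112500 : allIco 112500 114000 cm = true := by decide +kernel
theorem M_114000 : allIco 114000 115500 cm = true := by decide +kernel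
theorem M_115500 : allIco 115500 117000 cm = true := by decide +kernel
theorem M_all2 (h : ∀ p, p < 78000 → cm p = true) : ∀ p, p < 117000 → cm p = true := (all_of_blocks (all_of_blocks (all_of_blocks (all_of_blocks (all_of_blocks (all_of_blocks (all_of_blocks (all_of_blocks (all_of_blocks (all_of_blocks (all_of_blocks (all_of_blocks (all_of_blocks (all_of_blocks (all_of_blocks (all_of_blocks (all_of_blocks (all_of_blocks (all_of_blocks (all_of_blocks (all_of_blocks (all_of_blocks (all_of_blocks (all_of_blocks (all_of_blocks (all_of_blocks h M_78000) M_79500) M_81000) M_82500) M_84000) M_85500) M_87000) M_88500) M_90000) M_91500) M_93000) M_94500) M_96000) M_97500) M_99000) M_100500) M_102000) M_103500) M_105000) M_106500) M_108000) M_109500) M_111000) M_112500) M_114000) M_115500)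

end

end CfsgH5.F24
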