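/-
Fi24: checks (generated).
-/
import Cfsg.Agent.H5.F24D

set_option autoImplicit false
set_option maxRecDepth 100000
set_option linter.all false
set_option Elab.async false

namespace CfsgH5.F24

open KT

noncomputable section

theorem M_117000 : allIco 117000 118500 cm = true := by decide +kernel
theorem M_118500 : allIco 118500 120000 cm = true := by decide +kernel
theorem M_120000 : allIco 120000 121500 cm = true := by decide +kernel
theorem M_121500 : allIco 121500 123000 cm = true := by decide +kernel
theorem M_123000 : allIco 123000 124500 cm = true := by decide +kernel
theorem M_124500 : allIco 124500 126000 cm = true := by decide +kernel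
theorem M_126000 : allIco 126000 127500 cm = true := by decide +kernel
theorem M_127500 : allIco 127500 129000 cm = true := by decide +kernel
theorem M_129000 : allIco 129000 130500 cm = true := by decide +kernel
theorem M_130500 : allIco 130500 132000 cm = true := by decide +kernel
theorem M_132000 : allIco 132000 133500 cm = true := by decide +kernel
theorem M_133500 : allIco 133500 135000 cm = true := by decide +kernel
theorem M_135000 : allIco 135000 136500 cm = true := by decide +kernel
theorem M_136500 : allIco 136500 138000 cm = true := by decide +kernel
theorem M_138000 : allIco 138000 139500 cm = true := by decide +kernel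
theorem M_139500 : allIco 139500 141000 cm = true := by decide +kernel
theorem M_141000 : allIco 141000 142500 cm = true := by decide +kernel
theorem M_142500 : allIco 142500 144000 cm = true := by decide +kernel
theorem M_144000 : allIco 144000 145500 cm = true := by decide +kernel
theorem M_145500 : allIco 145500 147000 cm = true := by decide +kernel
theorem M_147000 : allIco 147000 148500 cm = true := by decide +kernel
theorem M_148500 : allIco 148500 150000 cm = true := by decide +kernel
theorem M_150000 : allIco 150000 151500 cm = true := by decide +kernel
theorem M_151500 : allIco 151500 153000 cm = true := by decide +kernel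
theorem M_153000 : allIco 153000 154500 cm = true := by decide +kernel
theorem M_154500 : allIco 154500 156000 cm = true := by decide +kernel
theorem M_all3 (h : ∀ p, p < 117000 → cm p = true) : ∀ p, p < 156000 → cm p = true := (all_of_blocks (all_of_blocks (all_of_blocks (all_of_blocks (all_of_blocks (all_of_blocks (all_of_blocks (all_of_blocks (all_of_blocks (all_of_blocks (all_of_blocks (all_of_blocks (all_of_blocks (all_of_blocks (all_of_blocks (all_of_blocks (all_of_blocks (all_of_blocks (all_of_blocks (all_of_blocks (all_of_blocks (all_of_blocks (all_of_blocks (all_of_blocks (all_of_blocks (all_of_blocks h M_117000) M_118500) M_120000) M_121500) M_123000) M_124500) M_126000) M_127500) M_129000) M_130500) M_132000) M_133500) M_135000) M_136500) M_138000) M_139500) M_141000) M_142500) M_144000) M_145500) M_147000) M_148500) M_150000) M_151500) M_153000) M_154500)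

end

end CfsgH5.F24
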