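/-
Fi24: checks (generated).
-/
import Cfsg.Agent.H5.F24D

set_option autoImplicit false
set_option maxRecDepth 100000
set_option linter.all false
set_option Elab.async false

namespace CfsgH5.F24

open KT

noncomputable section

theorem M_195000 : allIco 195000 196500 cm = true := by decide +kernel
theorem M_196500 : allIco 196500 198000 cm = true := by decide +kernel
theorem M_198000 : allIco 198000 199500 cm = true := by decide +kernel
theorem M_199500 : allIco 199500 201000 cm = true := by decide +kernel
theorem M_201000 : allIco 201000 202500 cm = true := by decide +kernel
theorem M_202500 : allIco 202500 204000 cm = true := by decide +kernel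
theorem M_204000 : allIco 204000 205500 cm = true := by decide +kernel
theorem M_205500 : allIco 205500 207000 cm = true := by decide +kernel
theorem M_207000 : allIco 207000 208500 cm = true := by decide +kernel
theorem M_208500 : allIco 208500 210000 cm = true := by decide +kernel
theorem M_210000 : allIco 210000 211500 cm = true := by decide +kernel
theorem M_211500 : allIco 211500 213000 cm = true := by decide +kernel
theorem M_213000 : allIco 213000 214500 cm = true := by decide +kernel
theorem M_214500 : allIco 214500 216000 cm = true := by decide +kernel
theorem M_216000 : allIco 216000 217500 cm = true := by decide +kernel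
theorem M_217500 : allIco 217500 219000 cm = true := by decide +kernel
theorem M_219000 : allIco 219000 220500 cm = true := by decide +kernel
theorem M_220500 : allIco 220500 222000 cm = true := by decide +kernel
theorem M_222000 : allIco 222000 223500 cm = true := by decide +kernel
theorem M_223500 : allIco 223500 225000 cm = true := by decide +kernel
theorem M_225000 : allIco 225000 226500 cm = true := by decide +kernel
theorem M_226500 : allIco 226500 228000 cm = true := by decide +kernel
theorem M_228000 : allIco 228000 229500 cm = true := by decide +kernel
theorem M_229500 : allIco 229500 231000 cm = true := by decide +kernel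
theorem M_231000 : allIco 231000 232500 cm = true := by decide +kernel
theorem M_232500 : allIco 232500 234000 cm = true := by decide +kernel
theorem M_all5 (h : ∀ p, p < 195000 → cm p = true) : ∀ p, p < 234000 → cm p = true := (all_of_blocks (all_of_blocks (all_of_blocks (all_of_blocks (all_of_blocks (all_of_blocks (all_of_blocks (all_of_blocks (all_of_blocks (all_of_blocks (all_of_blocks (all_of_blocks (all_of_blocks (all_of_blocks (all_of_blocks (all_of_blocks (all_of_blocks (all_of_blocks (all_of_blocks (all_of_blocks (all_of_blocks (all_of_blocks (all_of_blocks (all_of_blocks (all_of_blocks (all_of_blocks h M_195000) M_196500) M_198000) M_199500) M_201000) M_202500) M_204000) M_205500) M_207000) M_208500) M_210000) M_211500) M_213000) M_214500) M_216000) M_217500) M_219000) M_220500) M_222000) M_223500) M_225000) M_226500) M_228000) M_229500) M_231000) M_232500)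

end

end CfsgH5.F24
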