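/-
Fi24: checks (generated).
-/
import Cfsg.Agent.H5.F24D

set_option autoImplicit false
set_option maxRecDepth 100000
set_option linter.all false
set_option Elab.async false

namespace CfsgH5.F24

open KT

noncomputable section

theorem M_234000 : allIco 234000 235500 cm = true := by decide +kernel
theorem M_235500 : allIco 235500 237000 cm = true := by decide +kernel
theorem M_237000 : allIco 237000 238500 cm = true := by decide +kernel
theorem M_238500 : allIco 238500 240000 cm = true := by decide +kernel
theorem M_240000 : allIco 240000 241500 cm = true := by decide +kernel
theorem M_241500 : allIco 241500 243000 cm = true := by decide +kernel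
theorem M_243000 : allIco 243000 244500 cm = true := by decide +kernel
theorem M_244500 : allIco 244500 246000 cm = true := by decide +kernel
theorem M_246000 : allIco 246000 247500 cm = true := by decide +kernel
theorem M_247500 : allIco 247500 249000 cm = true := by decide +kernel
theorem M_249000 : allIco 249000 250500 cm = true := by decide +kernel
theorem M_250500 : allIco 250500 252000 cm = true := by decide +kernel
theorem M_252000 : allIco 252000 253500 cm = true := by decide +kernel
theorem M_253500 : allIco 253500 255000 cm = true := by decide +kernel
theorem M_255000 : allIco 255000 256500 cm = true := by decide +kernel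
theorem M_256500 : allIco 256500 258000 cm = true := by decide +kernel
theorem M_258000 : allIco 258000 259500 cm = true := by decide +kernel
theorem M_259500 : allIco 259500 261000 cm = true := by decide +kernel
theorem M_261000 : allIco 261000 262500 cm = true := by decide +kernel
theorem M_262500 : allIco 262500 264000 cm = true := by decide +kernel
theorem M_264000 : allIco 264000 265500 cm = true := by decide +kernel
theorem M_265500 : allIco 265500 267000 cm = true := by decide +kernel
theorem M_267000 : allIco 267000 268500 cm = true := by decide +kernel
theorem M_268500 : allIco 268500 270000 cm = true := by decide +kernel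
theorem M_270000 : allIco 270000 271500 cm = true := by decide +kernel
theorem M_271500 : allIco 271500 273000 cm = true := by decide +kernel
theorem M_all6 (h : ∀ p, p < 234000 → cm p = true) : ∀ p, p < 273000 → cm p = true := (all_of_blocks (all_of_blocks (all_of_blocks (all_of_blocks (all_of_blocks (all_of_blocks (all_of_blocks (all_of_blocks (all_of_blocks (all_of_blocks (all_of_blocks (all_of_blocks (all_of_blocks (all_of_blocks (all_of_blocks (all_of_blocks (all_of_blocks (all_of_blocks (all_of_blocks (all_of_blocks (all_of_blocks (all_of_blocks (all_of_blocks (all_of_blocks (all_of_blocks (all_of_blocks h M_234000) M_235500) M_237000) M_238500) M_240000) M_241500) M_243000) M_244500) M_246000) M_247500) M_249000) M_250500) M_252000) M_253500) M_255000) M_256500) M_258000) M_259500) M_261000) M_262500) M_264000) M_265500) M_267000) M_268500) M_270000) M_271500)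

end

end CfsgH5.F24
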