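/-
Fi24: checks (generated).
-/
import Cfsg.Agent.H5.F24D

set_option autoImplicit false
set_option maxRecDepth 100000
set_option linter.all false
set_option Elab.async false

namespace CfsgH5.F24

open KT

noncomputable section

theorem M_273000 : allIco 273000 274500 cm = true := by decide +kernel
theorem M_274500 : allIco 274500 276000 cm = true := by decide +kernel
theorem M_276000 : allIco 276000 277500 cm = true := by decide +kernel
theorem M_277500 : allIco 277500 279000 cm = true := by decide +kernel
theorem M_279000 : allIco 279000 280500 cm = true := by decide +kernel
theorem M_280500 : allIco 280500 282000 cm = true := by decide +kernel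
theorem M_282000 : allIco 282000 283500 cm = true := by decide +kernel
theorem M_283500 : allIco 283500 285000 cm = true := by decide +kernel
theorem M_285000 : allIco 285000 286500 cm = true := by decide +kernel
theorem M_286500 : allIco 286500 288000 cm = true := by decide +kernel
theorem M_288000 : allIco 288000 289500 cm = true := by decide +kernel
theorem M_289500 : allIco 289500 291000 cm = true := by decide +kernel
theorem M_291000 : allIco 291000 292500 cm = true := by decide +kernel
theorem M_292500 : allIco 292500 294000 cm = true := by decide +kernel
theorem M_294000 : allIco 294000 295500 cm = true := by decide +kernel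
theorem M_295500 : allIco 295500 297000 cm = true := by decide +kernel
theorem M_297000 : allIco 297000 298500 cm = true := by decide +kernel
theorem M_298500 : allIco 298500 300000 cm = true := by decide +kernel
theorem M_300000 : allIco 300000 301500 cm = true := by decide +kernel
theorem M_301500 : allIco 301500 303000 cm = true := by decide +kernel
theorem M_303000 : allIco 303000 304500 cm = true := by decide +kernel
theorem M_304500 : allIco 304500 306000 cm = true := by decide +kernel
theorem M_306000 : allIco 306000 306936 cm = true := by decide +kernel
theorem M_all7 (h : ∀ p, p < 273000 → cm p = true) : ∀ p, p < 306936 → cm p = true := (all_of_blocks (all_of_blocks (all_of_blocks (all_of_blocks (all_of_blocks (all_of_blocks (all_of_blocks (all_of_blocks (all_of_blocks (all_of_blocks (all_of_blocks (all_of_blocks (all_of_blocks (all_of_blocks (all_of_blocks (all_of_blocks (all_of_blocks (all_of_blocks (all_of_blocks (all_of_blocks (all_of_blocks (all_of_blocks (all_of_blocks h M_273000) M_274500) M_276000) M_277500) M_279000) M_280500) M_282000) M_283500) M_285000) M_286500) M_288000) M_289500) M_291000) M_292500) M_294000) M_295500) M_297000) M_298500) M_300000) M_301500) M_303000) M_304500) M_306000)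

end

end CfsgH5.F24
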