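/-
Fi24: checks (generated).
-/
import Cfsg.Agent.H5.F24D

set_option autoImplicit false
set_option maxRecDepth 100000
set_option linter.all false
set_option Elab.async false

namespace CfsgH5.F24

open KT

noncomputable section

theorem U_0 : allIco 0 2000 cu = true := by decide +kernel
theorem U_2000 : allIco 2000 4000 cu = true := by decide +kernel
theorem U_4000 : allIco 4000 6000 cu = true := by decide +kernel
theorem U_6000 : allIco 6000 8000 cu = true := by decide +kernel
theorem U_8000 : allIco 8000 10000 cu = true := by decide +kernel
theorem U_10000 : allIco 10000 12000 cu = true := by decide +kernel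
theorem U_12000 : allIco 12000 14000 cu = true := by decide +kernel
theorem U_14000 : allIco 14000 16000 cu = true := by decide +kernel
theorem U_16000 : allIco 16000 18000 cu = true := by decide +kernel
theorem U_18000 : allIco 18000 20000 cu = true := by decide +kernel
theorem U_20000 : allIco 20000 22000 cu = true := by decide +kernel
theorem U_22000 : allIco 22000 24000 cu = true := by decide +kernel
theorem U_24000 : allIco 24000 26000 cu = true := by decide +kernel
theorem U_26000 : allIco 26000 28000 cu = true := by decide +kernel
theorem U_28000 : allIco 28000 30000 cu = true := by decide +kernel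
theorem U_30000 : allIco 30000 32000 cu = true := by decide +kernel
theorem U_32000 : allIco 32000 34000 cu = true := by decide +kernel
theorem U_34000 : allIco 34000 36000 cu = true := by decide +kernel
theorem U_36000 : allIco 36000 38000 cu = true := by decide +kernel
theorem U_38000 : allIco 38000 40000 cu = true := by decide +kernel
theorem U_40000 : allIco 40000 42000 cu = true := by decide +kernel
theorem U_42000 : allIco 42000 44000 cu = true := by decide +kernel
theorem U_44000 : allIco 44000 46000 cu = true := by decide +kernel
theorem U_46000 : allIco 46000 48000 cu = true := by decide +kernel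
theorem U_48000 : allIco 48000 50000 cu = true := by decide +kernel
theorem U_50000 : allIco 50000 52000 cu = true := by decide +kernel
theorem U_52000 : allIco 52000 54000 cu = true := by decide +kernel
theorem U_54000 : allIco 54000 56000 cu = true := by decide +kernel
theorem U_56000 : allIco 56000 58000 cu = true := by decide +kernel
theorem U_58000 : allIco 58000 60000 cu = true := by decide +kernel
theorem U_60000 : allIco 60000 62000 cu = true := by decide +kernel
theorem U_62000 : allIco 62000 64000 cu = true := by decide +kernel
theorem U_64000 : allIco 64000 66000 cu = true := by decide +kernel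
theorem U_66000 : allIco 66000 68000 cu = true := by decide +kernel
theorem U_68000 : allIco 68000 70000 cu = true := by decide +kernel
theorem U_70000 : allIco 70000 72000 cu = true := by decide +kernel
theorem U_72000 : allIco 72000 74000 cu = true := by decide +kernel
theorem U_74000 : allIco 74000 76000 cu = true := by decide +kernel
theorem U_76000 : allIco 76000 78000 cu = true := by decide +kernel
theorem U_all0 (h : ∀ p, p < 0 → cu p = true) : ∀ p, p < 78000 → cu p = true := (all_of_blocks (all_of_blocks (all_of_blocks (all_of_blocks (all_of_blocks (all_of_blocks (all_of_blocks (all_of_blocks (all_of_blocks (all_of_blocks (all_of_blocks (all_of_blocks (all_of_blocks (all_of_blocks (all_of_blocks (all_of_blocks (all_of_blocks (all_of_blocks (all_of_blocks (all_of_blocks (all_of_blocks (all_of_blocks (all_of_blocks (all_of_blocks (all_of_blocks (all_of_blocks (all_of_blocks (all_of_blocks (all_of_blocks (all_of_blocks (all_of_blocks (all_of_blocks (all_of_blocks (all_of_blocks (all_of_blocks (all_of_blocks (all_of_blocks (all_of_blocks (all_of_blocks h U_0) U_2000) U_4000) U_6000) U_8000) U_10000) U_12000) U_14000) U_16000) U_18000) U_20000) U_22000) U_24000) U_26000) U_28000) U_30000) U_32000)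 U_34000) U_36000) U_38000) U_40000) U_42000) U_44000) U_46000) U_48000) U_50000) U_52000) U_54000) U_56000) U_58000) U_60000) U_62000) U_64000) U_66000) U_68000) U_70000) U_72000) U_74000) U_76000)

end

end CfsgH5.F24
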