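/-
Fi24: checks (generated).
-/
import Cfsg.Agent.H5.F24D

set_option autoImplicit false
set_option maxRecDepth 100000
set_option linter.all false
set_option Elab.async false

namespace CfsgH5.F24

open KT

noncomputable section

theorem U_78000 : allIco 78000 80000 cu = true := by decide +kernel
theorem U_80000 : allIco 80000 82000 cu = true := by decide +kernel
theorem U_82000 : allIco 82000 84000 cu = true := by decide +kernel
theorem U_84000 : allIco 84000 86000 cu = true := by decide +kernel
theorem U_86000 : allIco 86000 88000 cu = true := by decide +kernel
theorem U_88000 : allIco 88000 90000 cu = true := by decide +kernel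
theorem U_90000 : allIco 90000 92000 cu = true := by decide +kernel
theorem U_92000 : allIco 92000 94000 cu = true := by decide +kernel
theorem U_94000 : allIco 94000 96000 cu = true := by decide +kernel
theorem U_96000 : allIco 96000 98000 cu = true := by decide +kernel
theorem U_98000 : allIco 98000 100000 cu = true := by decide +kernel
theorem U_100000 : allIco 100000 102000 cu = true := by decide +kernel
theorem U_102000 : allIco 102000 104000 cu = true := by decide +kernel
theorem U_104000 : allIco 104000 106000 cu = true := by decide +kernel
theorem U_106000 : allIco 106000 108000 cu = true := by decide +kernel
theorem U_108000 : allIco 108000 110000 cu = true := by decide +kernel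
theorem U_110000 : allIco 110000 112000 cu = true := by decide +kernel
theorem U_112000 : allIco 112000 114000 cu = true := by decide +kernel
theorem U_114000 : allIco 114000 116000 cu = true := by decide +kernel
theorem U_116000 : allIco 116000 118000 cu = true := by decide +kernel
theorem U_118000 : allIco 118000 120000 cu = true := by decide +kernel
theorem U_120000 : allIco 120000 122000 cu = true := by decide +kernel
theorem U_122000 : allIco 122000 124000 cu = true := by decide +kernel
theorem U_124000 : allIco 124000 126000 cu = true := by decide +kernel
theorem U_126000 : allIco 126000 128000 cu = true := by decide +kernel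
theorem U_128000 : allIco 128000 130000 cu = true := by decide +kernel
theorem U_130000 : allIco 130000 132000 cu = true := by decide +kernel
theorem U_132000 : allIco 132000 134000 cu = true := by decide +kernel
theorem U_134000 : allIco 134000 136000 cu = true := by decide +kernel
theorem U_136000 : allIco 136000 138000 cu = true := by decide +kernel
theorem U_138000 : allIco 138000 140000 cu = true := by decide +kernel
theorem U_140000 : allIco 140000 142000 cu = true := by decide +kernel
theorem U_142000 : allIco 142000 144000 cu = true := by decide +kernel
theorem U_144000 : allIco 144000 146000 cu = true := by decide +kernel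
theorem U_146000 : allIco 146000 148000 cu = true := by decide +kernel
theorem U_148000 : allIco 148000 150000 cu = true := by decide +kernel
theorem U_150000 : allIco 150000 152000 cu = true := by decide +kernel
theorem U_152000 : allIco 152000 154000 cu = true := by decide +kernel
theorem U_154000 : allIco 154000 156000 cu = true := by decide +kernel
theorem U_all1 (h : ∀ p, p < 78000 → cu p = true) : ∀ p, p < 156000 → cu p = true := (all_of_blocks (all_of_blocks (all_of_blocks (all_of_blocks (all_of_blocks (all_of_blocks (all_of_blocks (all_of_blocks (all_of_blocks (all_of_blocks (all_of_blocks (all_of_blocks (all_of_blocks (all_of_blocks (all_of_blocks (all_of_blocks (all_of_blocks (all_of_blocks (all_of_blocks (all_of_blocks (all_of_blocks (all_of_blocks (all_of_blocks (all_of_blocks (all_of_blocks (all_of_blocks (all_of_blocks (all_of_blocks (all_of_blocks (all_of_blocks (all_of_blocks (all_of_blocks (all_of_blocks (all_of_blocks (all_of_blocks (all_of_blocks (all_of_blocks (all_of_blocks (all_of_blocks h U_78000) U_80000) U_82000) U_84000) U_86000) U_88000) U_90000) U_92000) U_94000) U_96000) U_98000) U_100000) U_102000) U_104000) U_106000) U_108000) U_110000) U_112000) U_114000) U_116000) U_118000) U_120000) U_122000) U_124000) U_126000)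 U_128000) U_130000) U_132000) U_134000) U_136000) U_138000) U_140000) U_142000) U_144000) U_146000) U_148000) U_150000) U_152000) U_154000)

end

end CfsgH5.F24
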