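/-
Fi24: checks (generated).
-/
import Cfsg.Agent.H5.F24D

set_option autoImplicit false
set_option maxRecDepth 100000
set_option linter.all false
set_option Elab.async false

namespace CfsgH5.F24

open KT

noncomputable section

theorem U_156000 : allIco 156000 158000 cu = true := by decide +kernel
theorem U_158000 : allIco 158000 160000 cu = true := by decide +kernel
theorem U_160000 : allIco 160000 162000 cu = true := by decide +kernel
theorem U_162000 : allIco 162000 164000 cu = true := by decide +kernel
theorem U_164000 : allIco 164000 166000 cu = true := by decide +kernel
theorem U_166000 : allIco 166000 168000 cu = true := by decide +kernel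
theorem U_168000 : allIco 168000 170000 cu = true := by decide +kernel
theorem U_170000 : allIco 170000 172000 cu = true := by decide +kernel
theorem U_172000 : allIco 172000 174000 cu = true := by decide +kernel
theorem U_174000 : allIco 174000 176000 cu = true := by decide +kernel
theorem U_176000 : allIco 176000 178000 cu = true := by decide +kernel
theorem U_178000 : allIco 178000 180000 cu = true := by decide +kernel
theorem U_180000 : allIco 180000 182000 cu = true := by decide +kernel
theorem U_182000 : allIco 182000 184000 cu = true := by decide +kernel
theorem U_184000 : allIco 184000 186000 cu = true := by decide +kernel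
theorem U_186000 : allIco 186000 188000 cu = true := by decide +kernel
theorem U_188000 : allIco 188000 190000 cu = true := by decide +kernel
theorem U_190000 : allIco 190000 192000 cu = true := by decide +kernel
theorem U_192000 : allIco 192000 194000 cu = true := by decide +kernel
theorem U_194000 : allIco 194000 196000 cu = true := by decide +kernel
theorem U_196000 : allIco 196000 198000 cu = true := by decide +kernel
theorem U_198000 : allIco 198000 200000 cu = true := by decide +kernel
theorem U_200000 : allIco 200000 202000 cu = true := by decide +kernel
theorem U_202000 : allIco 202000 204000 cu = true := by decide +kernel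
theorem U_204000 : allIco 204000 206000 cu = true := by decide +kernel
theorem U_206000 : allIco 206000 208000 cu = true := by decide +kernel
theorem U_208000 : allIco 208000 210000 cu = true := by decide +kernel
theorem U_210000 : allIco 210000 212000 cu = true := by decide +kernel
theorem U_212000 : allIco 212000 214000 cu = true := by decide +kernel
theorem U_214000 : allIco 214000 216000 cu = true := by decide +kernel
theorem U_216000 : allIco 216000 218000 cu = true := by decide +kernel
theorem U_218000 : allIco 218000 220000 cu = true := by decide +kernel
theorem U_220000 : allIco 220000 222000 cu = true := by decide +kernel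
theorem U_222000 : allIco 222000 224000 cu = true := by decide +kernel
theorem U_224000 : allIco 224000 226000 cu = true := by decide +kernel
theorem U_226000 : allIco 226000 228000 cu = true := by decide +kernel
theorem U_228000 : allIco 228000 230000 cu = true := by decide +kernel
theorem U_230000 : allIco 230000 232000 cu = true := by decide +kernel
theorem U_232000 : allIco 232000 234000 cu = true := by decide +kernel
theorem U_all2 (h : ∀ p, p < 156000 → cu p = true) : ∀ p, p < 234000 → cu p = true := (all_of_blocks (all_of_blocks (all_of_blocks (all_of_blocks (all_of_blocks (all_of_blocks (all_of_blocks (all_of_blocks (all_of_blocks (all_of_blocks (all_of_blocks (all_of_blocks (all_of_blocks (all_of_blocks (all_of_blocks (all_of_blocks (all_of_blocks (all_of_blocks (all_of_blocks (all_of_blocks (all_of_blocks (all_of_blocks (all_of_blocks (all_of_blocks (all_of_blocks (all_of_blocks (all_of_blocks (all_of_blocks (all_of_blocks (all_of_blocks (all_of_blocks (all_of_blocks (all_of_blocks (all_of_blocks (all_of_blocks (all_of_blocks (all_of_blocks (all_of_blocks (all_of_blocks h U_156000) U_158000) U_160000) U_162000) U_164000) U_166000) U_168000) U_170000) U_172000) U_174000) U_176000) U_178000) U_180000) U_182000) U_184000) U_186000) U_188000) U_190000)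 U_192000) U_194000) U_196000) U_198000) U_200000) U_202000) U_204000) U_206000) U_208000) U_210000) U_212000) U_214000) U_216000) U_218000) U_220000) U_222000) U_224000) U_226000) U_228000) U_230000) U_232000)

end

end CfsgH5.F24
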