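/-
Fi24: checks (generated).
-/
import Cfsg.Agent.H5.F24D

set_option autoImplicit false
set_option maxRecDepth 100000
set_option linter.all false
set_option Elab.async false

namespace CfsgH5.F24

open KT

noncomputable section

theorem U_234000 : allIco 234000 236000 cu = true := by decide +kernel
theorem U_236000 : allIco 236000 238000 cu = true := by decide +kernel
theorem U_238000 : allIco 238000 240000 cu = true := by decide +kernel
theorem U_240000 : allIco 240000 242000 cu = true := by decide +kernel
theorem U_242000 : allIco 242000 244000 cu = true := by decide +kernel
theorem U_244000 : allIco 244000 246000 cu = true := by decide +kernel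
theorem U_246000 : allIco 246000 248000 cu = true := by decide +kernel
theorem U_248000 : allIco 248000 250000 cu = true := by decide +kernel
theorem U_250000 : allIco 250000 252000 cu = true := by decide +kernel
theorem U_252000 : allIco 252000 254000 cu = true := by decide +kernel
theorem U_254000 : allIco 254000 256000 cu = true := by decide +kernel
theorem U_256000 : allIco 256000 258000 cu = true := by decide +kernel
theorem U_258000 : allIco 258000 260000 cu = true := by decide +kernel
theorem U_260000 : allIco 260000 262000 cu = true := by decide +kernel
theorem U_262000 : allIco 262000 264000 cu = true := by decide +kernel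
theorem U_264000 : allIco 264000 266000 cu = true := by decide +kernel
theorem U_266000 : allIco 266000 268000 cu = true := by decide +kernel
theorem U_268000 : allIco 268000 270000 cu = true := by decide +kernel
theorem U_270000 : allIco 270000 272000 cu = true := by decide +kernel
theorem U_272000 : allIco 272000 274000 cu = true := by decide +kernel
theorem U_274000 : allIco 274000 276000 cu = true := by decide +kernel
theorem U_276000 : allIco 276000 278000 cu = true := by decide +kernel
theorem U_278000 : allIco 278000 280000 cu = true := by decide +kernel
theorem U_280000 : allIco 280000 282000 cu = true := by decide +kernel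
theorem U_282000 : allIco 282000 284000 cu = true := by decide +kernel
theorem U_284000 : allIco 284000 286000 cu = true := by decide +kernel
theorem U_286000 : allIco 286000 288000 cu = true := by decide +kernel
theorem U_288000 : allIco 288000 290000 cu = true := by decide +kernel
theorem U_290000 : allIco 290000 292000 cu = true := by decide +kernel
theorem U_292000 : allIco 292000 294000 cu = true := by decide +kernel
theorem U_294000 : allIco 294000 296000 cu = true := by decide +kernel
theorem U_296000 : allIco 296000 298000 cu = true := by decide +kernel
theorem U_298000 : allIco 298000 300000 cu = true := by decide +kernel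
theorem U_300000 : allIco 300000 302000 cu = true := by decide +kernel
theorem U_302000 : allIco 302000 304000 cu = true := by decide +kernel
theorem U_304000 : allIco 304000 306000 cu = true := by decide +kernel
theorem U_306000 : allIco 306000 306936 cu = true := by decide +kernel
theorem U_all3 (h : ∀ p, p < 234000 → cu p = true) : ∀ p, p < 306936 → cu p = true := (all_of_blocks (all_of_blocks (all_of_blocks (all_of_blocks (all_of_blocks (all_of_blocks (all_of_blocks (all_of_blocks (all_of_blocks (all_of_blocks (all_of_blocks (all_of_blocks (all_of_blocks (all_of_blocks (all_of_blocks (all_of_blocks (all_of_blocks (all_of_blocks (all_of_blocks (all_of_blocks (all_of_blocks (all_of_blocks (all_of_blocks (all_of_blocks (all_of_blocks (all_of_blocks (all_of_blocks (all_of_blocks (all_of_blocks (all_of_blocks (all_of_blocks (all_of_blocks (all_of_blocks (all_of_blocks (all_of_blocks (all_of_blocks (all_of_blocks h U_234000) U_236000) U_238000) U_240000) U_242000) U_244000) U_246000) U_248000) U_250000) U_252000) U_254000) U_256000) U_258000) U_260000) U_262000) U_264000) U_266000) U_268000) U_270000) U_272000) U_274000) U_276000) U_278000) U_280000) U_282000) U_284000) U_286000) U_288000) U_290000) U_292000) U_294000) U_296000) U_298000) U_300000) U_302000)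 U_304000) U_306000)

end

end CfsgH5.F24
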