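/-
More tools for groups generated by involutions: tabulated words, presented groups, primitive actions
of any rank.
-/
import Cfsg.Agent.H5.KG

set_option autoImplicit false

namespace CfsgH5.KT

open Equiv Subgroup

noncomputable section

/-- the word `u` is tabulated in `RU` and its power `k` fixes the point -/
def uchk (R : ℕ → ℕ) (w m : ℕ) (u : List ℕ) (RU : ℕ → ℕ) (k p : ℕ) : Bool :=
  Nat.rec (motive := fun _ => Bool) false (fun p _ => Bool.rec (motive := fun _ => Bool) false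
    (lrel RU 4 1048575 [1] [] p k p)
    (evk R w m (fun q => Nat.beq (Nat.succ q) (Nat.land (Nat.shiftRight (RU p) (Nat.mul 4 1)) 1048575))
      u p)) (Nat.add p 1)

theorem Mod.long_tab {R : ℕ → ℕ} {w m lo hi L : ℕ} {C B : ℕ → List ℕ} {X : List ℕ}
    (M : Mod R w m lo hi L C B X) {u : List ℕ} {RU : ℕ → ℕ} {k : ℕ} (hw : wdb L u = true)
    (h : ∀ p, lo ≤ p → p < hi → uchk R w m u RU k p = true) : wl M.σ u ^ k = 1 := by
  have hu := wd_of hw
  have h' := fun p h1 h2 => (brec.1 (h p h1 h2 :)).resolve_left fun h => by cases h.2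
  have A : Acts (fun _ => wl M.σ u) RU 4 1048575 lo hi 1 := fun x p x1 x2 h1 h2 => by
    obtain rfl : x = 1 := by omega
    refine ⟨?_, M.acts.wl_mem hu h1 h2⟩
    have := M.acts.ev hu h1 h2 (h' p h1 h2).1
    exact congrArg (· - 1) ((beq_true_iff _ _).1 this)
  refine eq_one_of_min _ fun p => ?_
  by_cases hp : lo ≤ p ∧ p < hi
  · rcases A.lrel (u := [1]) (v := []) (by simp [Wd]) (by simp [Wd]) k p hp.1 hp.2
      (h' p hp.1 hp.2).2 with e | ⟨j, e⟩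
    · exact Or.inl (by simpa [wl] using e)
    · exact Or.inr ⟨_, Or.inl (by rw [wl_single]; exact (Commute.pow_pow_self _ j k).eq), e⟩
  · exact Or.inl (Perm.pow_apply_eq_self_of_apply_eq_self (M.wl_out u hp) k)

theorem Mod.σ_out {R : ℕ → ℕ} {w m lo hi L : ℕ} {C B : ℕ → List ℕ} {X : List ℕ}
    (M : Mod R w m lo hi L C B X) {x : ℕ} (h : ¬ (0 < x ∧ x ≤ L)) : M.σ x = 1 := by
  ext p; rw [M.σ_apply, lfun, if_neg fun k => h k.1]; rfl

/-! ### Presented groups -/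

/-- the relators -/
def PR (E L : ℕ) (rels : List (List ℕ)) : Set (FreeGroup ℕ) :=
  {r | (∃ x, r = FreeGroup.of x * FreeGroup.of x) ∨ (∃ x, ¬ (0 < x ∧ x ≤ L) ∧ r = FreeGroup.of x) ∨
    (∃ x c, x < 16 ∧ c < 16 ∧ ap 2 3 E (c + 16 * x) = 1 ∧ r = (FreeGroup.of c * FreeGroup.of x) ^ 2) ∨
    (∃ x c, x < 16 ∧ c < 16 ∧ ap 2 3 E (c + 16 * x) = 2 ∧ r = (FreeGroup.of c * FreeGroup.of x) ^ 3) ∨
    ∃ l ∈ rels, r = wl FreeGroup.of l}

/-- the presented group -/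
abbrev PG (E L : ℕ) (rels : List (List ℕ)) : Type := PresentedGroup (PR E L rels)

namespace PG

variable {E L : ℕ} {rels : List (List ℕ)}

/-- the letters -/
def g (E L : ℕ) (rels : List (List ℕ)) (x : ℕ) : PG E L rels := PresentedGroup.of x

theorem cox : Cox (g E L rels) E :=
  ⟨fun x => PresentedGroup.one_of_mem (rels := PR E L rels) (Or.inl ⟨x, rfl⟩), fun x c hx hc =>
    ⟨fun h => PresentedGroup.one_of_mem (rels := PR E L rels)
      (Or.inr (Or.inr (Or.inl ⟨x, c, hx, hc, h, rfl⟩))),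
    fun h => PresentedGroup.one_of_mem (rels := PR E L rels)
      (Or.inr (Or.inr (Or.inr (Or.inl ⟨x, c, hx, hc, h, rfl⟩))))⟩⟩

theorem rel {l : List ℕ} (h : l ∈ rels) : wl (g E L rels) l = 1 :=
  (map_wl (PresentedGroup.mk (PR E L rels)) _ l).symm.trans
    (PresentedGroup.one_of_mem (Or.inr (Or.inr (Or.inr (Or.inr ⟨l, h, rfl⟩)))))

theorem grp_top : grp (g E L rels) L = ⊤ := by
  rw [eq_top_iff, ← PresentedGroup.closure_range_of, closure_le]
  rintro _ ⟨x, rfl⟩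
  by_cases h : 0 < x ∧ x ≤ L
  · exact mem_grp _ h.1 h.2
  · rw [show (PresentedGroup.of x : PG E L rels) = 1 from
      PresentedGroup.one_of_mem (rels := PR E L rels) (Or.inr (Or.inl ⟨x, h, rfl⟩))]
    exact one_mem _

theorem let_ {L' : ℕ} {rels' : List (List ℕ)} (D : List (List ℕ)) (hL : L' < 16)
    (h : rels' ⊆ rels) (hw : allL rels' (wdb L') = true) : Let (g E L rels) (rt E L' rels' D) L' :=
  let_rt D hL cox (fun _ hl => rel (h hl)) fun l hl => wd_of ((allL_iff _ _).1 hw l hl)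

variable {H : Type*} [Group H] {s : ℕ → H} (hc : Cox s E) (h0 : ∀ x, ¬ (0 < x ∧ x ≤ L) → s x = 1)
  (hr : ∀ l ∈ rels, wl s l = 1)
include hc h0 hr

theorem lift_rel : ∀ r ∈ PR E L rels, FreeGroup.lift s r = 1 := by
  rintro r (⟨x, rfl⟩ | ⟨x, h, rfl⟩ | ⟨x, c, hx, hc', h, rfl⟩ | ⟨x, c, hx, hc', h, rfl⟩ | ⟨l, h, rfl⟩)
  · simpa using hc.1 x
  · simpa using h0 x h
  · simpa using (hc.2 x c hx hc').1 h
  · simpa using (hc.2 x c hx hc').2 h
  · rw [map_wl]; simpa using hr l h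

/-- the homomorphism given by letters satisfying the relations -/
def lift : PG E L rels →* H := PresentedGroup.toGroup (lift_rel hc h0 hr)

theorem lift_g (x : ℕ) : lift hc h0 hr (g E L rels x) = s x := PresentedGroup.toGroup.of _

end PG

/-! ### Primitive actions -/

variable {G : Type*} [Group G] {φ : G →* Perm ℕ} {K : Subgroup G} {a b : ℕ}

/-- the data of a primitive action on an interval: the suborbits are the intervals
`[c i, c (i + 1))`, `i < r`, linked cyclically -/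
structure RankN (φ : G →* Perm ℕ) (K : Subgroup G) (a b r : ℕ) (c nx : ℕ → ℕ) : Prop where
  inv : ∀ k ∈ K, a ≤ φ k a ∧ φ k a < b
  cov : ∀ p, a < p → p < b → ∃ i, i < r ∧ c i ≤ p ∧ p < c (i + 1)
  dn : ∀ i, i < r → Down φ (K ⊓ Fx φ [a]) (c i) (c i + 1) (c (i + 1))
  lnk : ∀ i, i < r → nx i < r ∧ ∃ u ∈ K, c i ≤ φ u a ∧ φ u a < c (i + 1) ∧
    ∃ q, c i ≤ q ∧ q < c (i + 1) ∧ c (nx i) ≤ φ u q ∧ φ u q < c (nx i + 1)
  cyc : ∀ i, i < r → ∀ j, j < r → ∃ n, nx^[n] i = j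
  ne : ∃ u ∈ K, φ u a ≠ a

variable {r : ℕ} {c nx : ℕ → ℕ}

theorem RankN.trans (h : RankN φ K a b r c nx) {M : Subgroup G} (hM : K ⊓ Fx φ [a] ≤ M) (hMK : M ≤ K)
    {m : G} (hm : m ∈ M) (hne : φ m a ≠ a) : ∀ p, a ≤ p → p < b → ∃ m ∈ M, φ m a = p := by
  obtain ⟨m1, m2⟩ := h.inv m (hMK hm)
  obtain ⟨i, hi, i1, i2⟩ := h.cov _ (lt_of_le_of_ne m1 hne.symm) m2
  have key : ∀ n, nx^[n] i < r ∧ ∀ p, c (nx^[n] i) ≤ p → p < c (nx^[n] i + 1) → ∃ m ∈ M, φ m a = p := by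
    intro n
    induction n with
    | zero => exact ⟨hi, (h.dn i hi).closed hM i1 i2 ⟨m, hm, rfl⟩⟩
    | succ n ih =>
      rw [Function.iterate_succ_apply']
      obtain ⟨k0, u, hu, u1, u2, q, q1, q2, q3, q4⟩ := h.lnk _ ih.1
      obtain ⟨x, hx, e⟩ := ih.2 _ u1 u2
      obtain ⟨y, hy, e'⟩ := ih.2 _ q1 q2
      exact ⟨k0, (h.dn _ k0).closed hM q3 q4
        ⟨_, mul_mem (mem_of_eq hM hMK hu hx e) hy, by rw [map_mul, Perm.mul_apply, e']⟩⟩
  intro p p1 p2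
  rcases p1.eq_or_lt with rfl | p1
  · exact ⟨1, one_mem _, by rw [map_one]; rfl⟩
  obtain ⟨j, hj, j1, j2⟩ := h.cov p p1 p2
  obtain ⟨n, rfl⟩ := h.cyc i hi j hj
  exact (key n).2 p j1 j2

theorem RankN.orb (h : RankN φ K a b r c nx) : ∀ p, a ≤ p → p < b → ∃ k ∈ K, φ k a = p :=
  let ⟨_, hu, u1⟩ := h.ne
  h.trans inf_le_left le_rfl hu u1

/-- a normal subgroup of order divisible by the full power of `p` contains the elements of order `p` -/
theorem mem_of_prime_pow [Finite G] {N : Subgroup G} (hNK : N ≤ K)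
    (hN : ∀ k ∈ K, ∀ n ∈ N, k * n * k⁻¹ ∈ N) {p e : ℕ} (hp : p.Prime) (h1 : p ^ e ∣ Nat.card N)
    (h2 : ¬ p ^ (e + 1) ∣ Nat.card K) {y : G} (hy : y ∈ K) (he : y ^ p = 1) : y ∈ N := by
  have : (N.subgroupOf K).Normal := ⟨fun n hn k => hN k k.2 n hn⟩
  have h3 : ¬ p ∣ Nat.card (K ⧸ N.subgroupOf K) := fun h => h2 (by
    rw [card_eq_card_quotient_mul_card_subgroup (N.subgroupOf K),
      Nat.card_congr (subgroupOfEquivOfLe hNK).toEquiv, pow_succ']
    exact mul_dvd_mul h h1)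
  have h4 : ((⟨y, hy⟩ : K) : K ⧸ N.subgroupOf K) ^ p = 1 := by
    rw [← QuotientGroup.mk_pow, show (⟨y, hy⟩ : K) ^ p = 1 from Subtype.ext he]; rfl
  rcases (Nat.dvd_prime hp).1 (orderOf_dvd_of_pow_eq_one h4) with h | h
  · exact (QuotientGroup.eq_one_iff (⟨y, hy⟩ : K)).1 (orderOf_eq_one_iff.1 h)
  · exact absurd (h ▸ orderOf_dvd_natCard _) h3

/-- normal subgroups act trivially or contain the elements of order `p` -/
theorem RankN.normal [Finite G] (h : RankN φ K a b r c nx) {N : Subgroup G} (hNK : N ≤ K)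
    (hN : ∀ k ∈ K, ∀ n ∈ N, k * n * k⁻¹ ∈ N) {p e : ℕ} (hp : p.Prime) (h1 : p ^ e ∣ b - a)
    (h2 : ¬ p ^ (e + 1) ∣ Nat.card K) : (∀ n ∈ N, ∀ q, a ≤ q → q < b → φ n q = q) ∨
      ∀ y ∈ K, y ^ p = 1 → y ∈ N := by
  by_cases hf : ∀ n ∈ N, φ n a = a
  · refine Or.inl fun n hn q q1 q2 => ?_
    obtain ⟨k, hk, rfl⟩ := h.orb q q1 q2
    have := hf _ (hN _ (inv_mem hk) n hn)
    rwa [inv_inv, map_mul, map_mul, map_inv, Perm.mul_apply, Perm.mul_apply, Perm.inv_eq_iff_eq] at this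
  push Not at hf
  obtain ⟨m, hm, hne⟩ := hf
  let M : Subgroup G :=
    { carrier := {x | x ∈ K ∧ ∃ n ∈ N, φ n a = φ x a}
      one_mem' := ⟨one_mem _, 1, one_mem _, rfl⟩
      mul_mem' := fun {x y} ⟨hx, n, hn, e⟩ ⟨hy, n', hn', e'⟩ => ⟨mul_mem hx hy, x * n' * x⁻¹ * n,
        mul_mem (hN x hx n' hn') hn, by
          simp only [map_mul, map_inv, Perm.mul_apply, e, ← e']
          rw [show (φ x)⁻¹ (φ x a) = a from (φ x).symm_apply_apply a]⟩
      inv_mem' := fun {x} ⟨hx, n, hn, e⟩ => ⟨inv_mem hx, x⁻¹ * n⁻¹ * x⁻¹⁻¹,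
        hN _ (inv_mem hx) _ (inv_mem hn), by
          simp only [map_mul, map_inv, Perm.mul_apply, inv_inv, ← e]
          rw [show (φ n)⁻¹ (φ n a) = a from (φ n).symm_apply_apply a]⟩ }
  have ht := h.trans (M := M) (fun x hx => ⟨hx.1, 1, one_mem _, by
    rw [map_one, mem_Fx_one.1 hx.2]; rfl⟩) (fun x hx => hx.1) (m := m) ⟨hNK hm, m, hm, rfl⟩ hne
  refine Or.inr fun y hy e => mem_of_prime_pow hNK hN hp ?_ h2 hy e
  rw [card_eq_of_orb (fun k hk => h.inv k (hNK hk)) fun q q1 q2 => by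
    obtain ⟨x, ⟨-, n, hn, e⟩, e'⟩ := ht q q1 q2
    exact ⟨n, hn, e.trans e'⟩]
  exact h1.mul_right _

/-- substitution of words for letters -/
def sbs (f : ℕ → List ℕ) (l : List ℕ) : List ℕ :=
  List.rec (motive := fun _ => List ℕ) [] (fun x _ ih => f x ++ ih) l

theorem wl_sbs (g : ℕ → G) (f : ℕ → List ℕ) (l : List ℕ) :
    wl g (sbs f l) = wl (fun x => wl g (f x)) l := by
  induction l with
  | nil => rfl
  | cons x l ih => rw [wl_cons, ← ih, ← wl_append]; rfl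

end

end CfsgH5.KT
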