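/-
Relator tables with many relators; relators checked at all points of a model.
-/
import Cfsg.Agent.H5.KP

set_option autoImplicit false

namespace CfsgH5.KT

open Equiv Subgroup

noncomputable section

/-- the relator table with up to 32 further relators -/
def rt2 (E L : ℕ) (rels D : List (List ℕ)) (x c : ℕ) : List ℕ :=
  force (nthD (D.getD x []) 0 (Nat.sub c 15)) fun d =>
    rt E L [rels.getD (d / 2 % 32) []] (List.replicate 16 (List.replicate 64 (d % 2 + 16 * (d / 64)))) x c

variable {G : Type*} [Group G] {g : ℕ → G}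

theorem let_rt2 {E L : ℕ} {rels : List (List ℕ)} (D : List (List ℕ)) (hL : L < 16) (hc : Cox g E)
    (hr : ∀ l ∈ rels, wl g l = 1) (hw : ∀ l ∈ rels, Wd L l) : Let g (rt2 E L rels D) L := by
  refine ⟨hc.1, fun x c h1 h2 => ?_⟩
  rw [rt2, force_eq]
  generalize nthD _ _ _ = d
  have e : wl g (rels.getD (d / 2 % 32) []) = 1 ∧ Wd L (rels.getD (d / 2 % 32) []) := by
    rcases h : rels[d / 2 % 32]? with _ | l
    · simp [List.getD, h, wl, Wd]
    · simp only [List.getD, h, Option.getD_some]
      exact ⟨hr l (List.mem_of_getElem? h), hw l (List.mem_of_getElem? h)⟩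
  exact (let_rt _ hL hc (fun l hl => List.mem_singleton.1 hl ▸ e.1)
    fun l hl => List.mem_singleton.1 hl ▸ e.2).rel x c h1 h2

theorem PG.let2 {E L L' : ℕ} {rels rels' : List (List ℕ)} (D : List (List ℕ)) (hL : L' < 16)
    (h : rels' ⊆ rels) (hw : allL rels' (wdb L') = true) :
    Let (PG.g E L rels) (rt2 E L' rels' D) L' :=
  let_rt2 D hL PG.cox (fun _ hl => PG.rel (h hl)) fun l hl => wd_of ((allL_iff _ _).1 hw l hl)

/-- all relators fix the point -/
def rchk (R : ℕ → ℕ) (w m : ℕ) (rels : List (List ℕ)) (p : ℕ) : Bool :=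
  force p fun p => allL rels fun l => evk R w m (Nat.beq p) l p

theorem Mod.rels {R : ℕ → ℕ} {w m lo hi L : ℕ} {C B : ℕ → List ℕ} {X : List ℕ}
    (M : Mod R w m lo hi L C B X) {rels : List (List ℕ)} (hw : allL rels (wdb L) = true)
    (h : ∀ p, lo ≤ p → p < hi → rchk R w m rels p = true) : ∀ l ∈ rels, wl M.σ l = 1 := fun l hl => by
  ext p
  by_cases hp : lo ≤ p ∧ p < hi
  · have := h p hp.1 hp.2
    rw [rchk, force_eq, allL_iff] at this
    exact ((beq_true_iff _ _).1 (M.acts.ev (wd_of ((allL_iff _ _).1 hw l hl)) hp.1 hp.2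
      (this l hl))).symm
  · exact M.wl_out l hp

theorem wl_mem_of {N : Subgroup G} {l : List ℕ} (h : ∀ x ∈ l, g x ∈ N) : wl g l ∈ N := by
  induction l with
  | nil => exact one_mem _
  | cons x l ih =>
    rw [List.forall_mem_cons] at h
    rw [wl_cons]; exact mul_mem (ih h.2) h.1

end

end CfsgH5.KT
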