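/-
The presented group Fi24: its order and its action on 306936 transpositions.
-/
import Cfsg.Agent.H5.KQ
import Cfsg.Agent.H5.F23S
import Cfsg.Agent.H5.F24K0
import Cfsg.Agent.H5.F24K1
import Cfsg.Agent.H5.F24K2
import Cfsg.Agent.H5.F24K3
import Cfsg.Agent.H5.F24K4
import Cfsg.Agent.H5.F24K5
import Cfsg.Agent.H5.F24K6
import Cfsg.Agent.H5.F24K7
import Cfsg.Agent.H5.F24M0
import Cfsg.Agent.H5.F24M1
import Cfsg.Agent.H5.F24M2
import Cfsg.Agent.H5.F24M3
import Cfsg.Agent.H5.F24M4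
import Cfsg.Agent.H5.F24M5
import Cfsg.Agent.H5.F24M6
import Cfsg.Agent.H5.F24M7
import Cfsg.Agent.H5.F24L0
import Cfsg.Agent.H5.F24L1
import Cfsg.Agent.H5.F24L2
import Cfsg.Agent.H5.F24L3
import Cfsg.Agent.H5.F24U0
import Cfsg.Agent.H5.F24U1
import Cfsg.Agent.H5.F24U2
import Cfsg.Agent.H5.F24U3
import Cfsg.Agent.H5.F24N

set_option autoImplicit false
set_option maxRecDepth 100000
set_option linter.constructorNameAsVariable false

namespace CfsgH5.F24

open KT Cfsg.Spor Equiv Subgroup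

noncomputable section

/-- the presented group -/
abbrev G : Type := PG E 12 rels

/-- the letters -/
abbrev g : ℕ → G := PG.g E 12 rels

theorem cox : Cox g E := PG.cox

theorem sq (x : ℕ) : g x * g x = 1 := cox.1 x

/-! ### The sign -/

/-- the signs of the letters -/
def sg (x : ℕ) : ℤˣ := if 0 < x ∧ x ≤ 12 then -1 else 1

theorem sg_cox : Cox sg E := by
  refine ⟨fun _ => Int.units_mul_self _, fun x c hx hc => ⟨fun _ => Int.units_sq _, ?_⟩⟩
  exact (by decide +kernel : ∀ x, x < 16 → ∀ c, c < 16 → ap 2 3 E (c + 16 * x) = 2 →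
    (sg c * sg x) ^ 3 = 1) x hx c hc

/-- the sign -/
def ε : G →* ℤˣ := PG.lift sg_cox (fun _ h => if_neg h) (by decide +kernel)

theorem ε_g (x : ℕ) : ε (g x) = sg x := PG.lift_g _ _ _ x

theorem ε_wl (l : List ℕ) : ε (wl g l) = wl sg l := by
  rw [map_wl]; simp only [ε_g]

theorem ε_l : ε (g 11) = -1 := ε_g 11

theorem even {l : List ℕ} (h : wl sg l = 1 := by decide +kernel) : wl g l ∈ ε.ker :=
  (ε_wl l).trans h

/-! ### The subgroup Fi23 -/

theorem cz {l : List ℕ} (h : cmb E 11 l = true := by decide +kernel) : Commute (g 11) (wl g l) :=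
  cox.comm_wl h

theorem cz' {x : ℕ} (h1 : 0 < x) (h2 : x ≤ 11) : Commute (g 11) (g x) :=
  wl_single g x ▸ cz ((allIco_iff 1 12 fun x => cmb E 11 [x]).1 (by decide +kernel) x h1 (by omega))

/-- the letters of the subgroup -/
def s (x : ℕ) : G := if 0 < x ∧ x ≤ 10 then g 11 * g x else 1

theorem s_mul {x y : ℕ} (hx : 0 < x ∧ x ≤ 10) (hy : 0 < y ∧ y ≤ 10) : s x * s y = g x * g y := by
  rw [s, s, if_pos hx, if_pos hy, (cz' hx.1 (by omega)).eq, mul_assoc, ← mul_assoc (g 11), sq, one_mul]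

theorem s_cox : Cox s F23.E := by
  refine ⟨fun x => ?_, fun x c hx hc => ?_⟩
  · by_cases h : 0 < x ∧ x ≤ 10
    · rw [s_mul h h, sq]
    · rw [s, if_neg h, one_mul]
  have : ∀ x, x < 16 → ∀ c, c < 16 → ap 2 3 F23.E (c + 16 * x) = 0 ∨ ((0 < c ∧ c ≤ 10) ∧
      (0 < x ∧ x ≤ 10) ∧ ap 2 3 E (c + 16 * x) = ap 2 3 F23.E (c + 16 * x)) := by decide +kernel
  constructor <;> intro h <;> obtain ⟨h1, h2, h3⟩ := (this x hx c hc).resolve_left (by omega) <;>
    rw [s_mul h1 h2]
  exacts [(cox.2 x c hx hc).1 (h3.trans h), (cox.2 x c hx hc).2 (h3.trans h)]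

theorem wl_s {l : List ℕ} (h : Wd 10 l) : wl s l = g 11 ^ l.length * wl g l ∧
    Commute (g 11) (wl g l) := by
  induction l with
  | nil => exact ⟨by simp [wl_nil], Commute.one_right _⟩
  | cons x l ih =>
    obtain ⟨h1, h2⟩ := List.forall_mem_cons.1 h
    obtain ⟨k1, k2⟩ := ih h2
    rw [wl_cons, wl_cons, k1, s, if_pos h1, List.length_cons, pow_succ]
    exact ⟨by simp only [mul_assoc]; rw [← mul_assoc (wl g l), ← k2.eq, mul_assoc],
      k2.mul_right (cz' h1.1 (by omega))⟩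

theorem l_pow (k : ℕ) : g 11 ^ (2 * k) = 1 := by rw [pow_mul, pow_two, sq, one_pow]

theorem s_s : wl s F23.us ^ 10 = 1 := by
  obtain ⟨h1, h2⟩ := wl_s (l := us) (wd_of (by decide +kernel))
  have := PG.rel (E := E) (L := 12) (rels := rels) (l := rep us 10) (by simp [rels])
  rw [wl_rep] at this
  rw [show F23.us = us from rfl, h1, (h2.pow_left _).mul_pow, this, ← pow_mul, mul_one]
  exact l_pow 45

theorem s_e : wl s F23.ue ^ 9 = 1 := by
  obtain ⟨h1, h2⟩ := wl_s (l := ue) (wd_of (by decide +kernel))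
  have := PG.rel (E := E) (L := 12) (rels := rels) (l := rep ue 9 ++ [11]) (by simp [rels])
  rw [wl_append, wl_rep, wl_single] at this
  rw [show F23.ue = ue from rfl, h1, (h2.pow_left _).mul_pow, ← pow_mul, ← this]
  congr 1
  exact (pow_succ _ (2 * 31)).trans (by rw [l_pow, one_mul])

/-- the embedding of Fi23 -/
def ψ : Fi23 →* G := F23.lift s_cox s_s s_e

theorem ψ_g {x : ℕ} (h1 : 0 < x) (h2 : x ≤ 10) : ψ (F23.g x) = g 11 * g x := by
  rw [ψ, F23.lift_g _ _ _ h1 h2, s, if_pos ⟨h1, h2⟩]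

theorem ψ_mem {K : Subgroup G} (h : ∀ x, 0 < x → x ≤ 10 → g 11 * g x ∈ K) (k : Fi23) : ψ k ∈ K :=
  grp_le (K := K.comap ψ) (fun x h1 h2 => mem_comap.2 (ψ_g h1 h2 ▸ h x h1 h2))
    (F23.grp_top ▸ mem_top k)

theorem ψ_H (k : Fi23) : ψ k ∈ grp g 11 := ψ_mem (fun _ h1 h2 =>
  mul_mem (mem_grp g (by decide) le_rfl) (mem_grp g h1 (by omega))) k

theorem ψ_ε (k : Fi23) : ψ k ∈ ε.ker := ψ_mem (fun x h1 h2 => by
  rw [MonoidHom.mem_ker, map_mul, ε_l, ε_g, sg, if_pos ⟨h1, by omega⟩]; rfl) k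

theorem H_cases {a : G} (ha : a ∈ grp g 11) : a ∈ ψ.range ∨ g 11 * a ∈ ψ.range := by
  refine grp_induction sq (P := fun a => a ∈ ψ.range ∨ g 11 * a ∈ ψ.range) (Or.inl (one_mem _))
    (fun x a h1 h2 ih => ?_) ha
  rcases h2.eq_or_lt with rfl | h2
  · rw [← mul_assoc, sq, one_mul]; exact ih.symm
  have k : g 11 * g x ∈ ψ.range := ⟨_, ψ_g h1 (by omega)⟩
  rcases ih with ih | ih
  · exact Or.inr (mul_assoc (g 11) _ _ ▸ mul_mem k ih)
  · have := mul_mem k ih
    rw [(cz' h1 h2.le).eq, mul_assoc, ← mul_assoc (g 11), sq, one_mul] at this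
    exact Or.inl this

/-- the elements of the centraliser -/
def pr (x : Fi23 × Bool) : grp g 11 :=
  ⟨if x.2 then g 11 * ψ x.1 else ψ x.1, by
    split_ifs; exacts [mul_mem (mem_grp g (by decide) le_rfl) (ψ_H _), ψ_H _]⟩

theorem pr_surj : Function.Surjective pr := fun a => by
  rcases H_cases a.2 with ⟨k, h⟩ | ⟨k, h⟩
  · exact ⟨(k, false), Subtype.ext h⟩
  · exact ⟨(k, true), Subtype.ext (by simp only [pr, if_true, h, ← mul_assoc, sq, one_mul])⟩

theorem ub : Finite (grp g 12) ∧ Nat.card (grp g 12) ≤ 306936 * Nat.card (grp g 11) :=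
  card_step (PG.let_ D (by decide) (List.Subset.refl _) (by decide +kernel))
    (K_all7 (K_all6 (K_all5 (K_all4 (K_all3 (K_all2 (K_all1 (K_all0 all_zero))))))))
    ⟨Finite.of_surjective _ pr_surj, le_rfl⟩ (by decide +kernel)

instance finite : Finite G :=
  have : Finite (⊤ : Subgroup G) := PG.grp_top ▸ ub.1
  Finite.of_equiv _ topEquiv.toEquiv

/-! ### The model -/

theorem M : Mod R 36 1048575 0 306936 12 CL BL [1, 2, 3, 4, 5, 6, 7, 8, 9, 10, 11, 12] :=
  ⟨fun x h1 h2 => by simp; omega, fun p _ =>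
    M_all7 (M_all6 (M_all5 (M_all4 (M_all3 (M_all2 (M_all1 (M_all0 all_zero))))))) p⟩

theorem Mcox : Cox M.σ E := M.cox (by decide +kernel)

theorem allL {p : ℕ} (h : p < 306936) : lchk R 36 1048575 us [] [10, 11, 12] 10 p = true ∧
    lchk R 36 1048575 ue [11] [10, 11] 9 p = true := by
  have := L_all3 (L_all2 (L_all1 (L_all0 all_zero))) p h
  rwa [cl, band_eq, Bool.and_eq_true] at this

theorem Mrel : ∀ l ∈ rels, wl M.σ l = 1 := by
  simp only [rels, List.forall_mem_cons, List.not_mem_nil, false_imp_iff, implies_true, and_true,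
    wl_append, wl_rep]
  refine ⟨?_, ?_, M.long_tab (by decide +kernel) fun p _ =>
    U_all3 (U_all2 (U_all1 (U_all0 all_zero))) p⟩
  · simpa [wl_nil] using M.long (u := us) (v := []) (Z := [10, 11, 12]) (by decide +kernel)
      (Commute.one_right _) (by
        simpa [wl_nil] using ⟨Mcox.comm_wl (by decide +kernel), Mcox.comm_wl (by decide +kernel),
          Mcox.comm_wl (by decide +kernel)⟩) fun p _ h => (allL h).1
  · exact M.long (u := ue) (v := [11]) (Z := [10, 11]) (by decide +kernel)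
      (by rw [wl_single]; exact (Mcox.comm_wl (by decide +kernel)).symm) (by
        simp only [List.forall_mem_cons, List.not_mem_nil, false_imp_iff, implies_true, and_true]
        exact ⟨⟨Mcox.comm_wl (by decide +kernel), Mcox.comm_wl (by decide +kernel)⟩,
          Mcox.comm_wl (by decide +kernel), Mcox.comm_wl (by decide +kernel)⟩) fun p _ h => (allL h).2

/-- the permutation representation -/
def φ : G →* Perm ℕ := PG.lift Mcox (fun _ => M.σ_out) Mrel

theorem A : Act g φ R 36 1048575 0 306936 12 :=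
  ⟨sq, fun x p h1 h2 => by simp only [φ, PG.lift_g]; exact M.acts x p h1 h2⟩

theorem mp (l : List ℕ) (p q : ℕ)
    (h : mapb R 36 1048575 0 306936 12 l p q = true := by decide +kernel) : φ (wl g l) p = q := A.map h

theorem lt_N (a : G) {p : ℕ} (h : p < 306936) : φ a p < 306936 :=
  (A.mem (PG.grp_top ▸ mem_top a) (Nat.zero_le _) h).2

theorem H_le : grp g 11 ≤ Fx φ [0] := grp_le fun x h1 h2 => by
  rw [← wl_single g x]
  exact A.fix ((allIco_iff 1 12 fun x => fixb R 36 1048575 0 306936 12 [0] [x]).1 (by decide +kernel)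
    x h1 (by omega))

theorem dn {a b c : ℕ} (h : allIco b c (dchk R 36 1048575 W kk 4094 a) = true) (hc : c ≤ 306936) :
    Down φ (ε.ker ⊓ Fx φ [0]) a b c :=
  A.down (fun k hk => by
    have := mask_all (f := fun k => band (fixb R 36 1048575 0 306936 12 [0] (W k))
      (band (wdb 12 (W k)) (decide (wl sg (W k) = 1)))) (by decide +kernel) k hk
    simp only [band_eq, Bool.and_eq_true, decide_eq_true_eq] at this
    exact ⟨this.2.1, even this.2.2, A.fix this.1⟩) (Nat.zero_le _) hc h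

theorem r3 {K : Subgroup G} (hK : ε.ker ≤ K) : Rank3 φ K 0 31672 306936 where
  inv k _ := ⟨Nat.zero_le _, lt_N k (by decide)⟩
  d1 := Down.mono ((((dn kd_2 (by decide)).cat (dn kd_8002 (by decide))).cat (dn kd_16002 (by decide))).cat (dn
  kd_24002 (by decide)))
    (inf_le_inf_right _ hK) le_rfl
  d2 := Down.mono (((((((((((((((((((((((((((((((((((dn kd_31673 (by decide)).cat (dn kd_39673 (by decide))).cat
  (dn kd_47673 (by decide))).cat (dn kd_55673 (by decide))).cat (dn kd_63673 (by decide))).cat (dn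
  kd_71673 (by decide))).cat (dn kd_79673 (by decide))).cat (dn kd_87673 (by decide))).cat (dn
  kd_95673 (by decide))).cat (dn kd_103673 (by decide))).cat (dn kd_111673 (by decide))).cat (dn
  kd_119673 (by decide))).cat (dn kd_127673 (by decide))).cat (dn kd_135673 (by decide))).cat (dn
  kd_143673 (by decide))).cat (dn kd_151673 (by decide))).cat (dn kd_159673 (by decide))).cat (dn
  kd_167673 (by decide))).cat (dn kd_175673 (by decide))).cat (dn kd_183673 (by decide))).cat (dn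
  kd_191673 (by decide))).cat (dn kd_199673 (by decide))).cat (dn kd_207673 (by decide))).cat (dn
  kd_215673 (by decide))).cat (dn kd_223673 (by decide))).cat (dn kd_231673 (by decide))).cat (dn
  kd_239673 (by decide))).cat (dn kd_247673 (by decide))).cat (dn kd_255673 (by decide))).cat (dn
  kd_263673 (by decide))).cat (dn kd_271673 (by decide))).cat (dn kd_279673 (by decide))).cat (dn
  kd_287673 (by decide))).cat (dn kd_295673 (by decide))).cat (dn kd_303673 (by decide)))
    (inf_le_inf_right _ hK) le_rfl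
  u1 := ⟨wl g [12, 11, 9, 12], hK even, by
    rw [mp _ 0 9719]
    exact ⟨by decide, by decide, 10, by decide, by decide, by rw [mp _ 10 36501]; decide⟩⟩
  u2 := ⟨wl g [11, 12], hK even, by
    rw [mp _ 0 31672]
    exact ⟨by decide, by decide, 31674, by decide, by decide, by rw [mp _ 31674 9719]; decide⟩⟩

theorem orb {p : ℕ} (h : p < 306936) : ∃ k, φ k 0 = p :=
  ((r3 le_top).orb p (Nat.zero_le _) h).imp fun _ h => h.2

theorem ψ_9 : ψ (F23.g 9) = wl g [9, 11] := by rw [ψ_g (by decide) (by decide)]; simp [wl]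

theorem ψ_9_ne : wl g [9, 11] ≠ 1 := fun h => by
  have := mp [9, 11] 31672 31675
  rw [h, map_one] at this
  cases this

theorem ψ_inj : Function.Injective ψ :=
  (ψ.ker_eq_bot_iff).1 ((F23.simple.eq_bot_or_eq_top_of_normal _ inferInstance).resolve_right
    fun h => ψ_9_ne (ψ_9 ▸ (h ▸ mem_top _ : F23.g 9 ∈ ψ.ker)))

theorem pr_inj : Function.Injective pr := by
  rintro ⟨k, b⟩ ⟨k', b'⟩ h
  replace h := congrArg Subtype.val h
  have e := congrArg ε h
  have e1 : ε (ψ k) = 1 := ψ_ε k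
  have e2 : ε (ψ k') = 1 := ψ_ε k'
  cases b <;> cases b' <;> simp only [pr, if_true, if_false, Bool.false_eq_true, map_mul, ε_l, e1, e2,
    mul_right_inj] at h e
  · rw [ψ_inj h]
  · cases e
  · cases e
  · rw [ψ_inj h]

theorem card_H : Nat.card (grp g 11) = 2 * 4089470473293004800 := by
  rw [← Nat.card_eq_of_bijective pr ⟨pr_inj, pr_surj⟩, Nat.card_prod, F23.card_eq]; simp

theorem chain : Nat.card G = 2 * 1255205709190661721292800 ∧ Fx φ [0] = grp g 11 := by
  have h1 := card_eq_of_orb (r3 le_top).inv (r3 le_top).orb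
  have h2 := card_le_of_le H_le
  have h3 := ub.2
  rw [PG.grp_top, card_top] at h3
  rw [top_inf_eq, card_top] at h1
  rw [card_H] at h2 h3
  exact ⟨by omega, (eq_of_le_of_card_ge H_le (by rw [card_H]; omega)).symm⟩

theorem stab_le : Fx φ [0] ≤ centralizer {g 11} := chain.2 ▸ grp_le fun _ h1 h2 =>
  mem_centralizer_singleton_iff.2 (cz' h1 h2).symm.eq

/-- the point of a letter -/
def IsPt (x p : ℕ) : Prop := ∃ v : G, φ v 0 = p ∧ v * g 11 * v⁻¹ = g x

theorem IsPt.step {x p : ℕ} (h : IsPt x p) (y q : ℕ)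
    (hd : band (band (lt x 16) (lt y 16)) (band (mapb R 36 1048575 0 306936 12 [y, x] p q)
      (Nat.beq (ap 2 3 E (Nat.add x (Nat.mul 16 y))) 2)) = true := by decide +kernel) : IsPt y q := by
  simp only [band_eq, Bool.and_eq_true, lt_iff, beq_true_iff, Nat.add_eq, Nat.mul_eq] at hd
  obtain ⟨v, h1, h2⟩ := h
  refine ⟨g x * g y * v, ?_, ?_⟩
  · rw [map_mul, Perm.mul_apply, h1, ← mp _ _ _ hd.2.1]; simp [wl]
  · refine Eq.trans ?_ (braid_conj (sq x) (sq y) ((cox.2 y x hd.1.2 hd.1.1).2 hd.2.2))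
    generalize g x * g y = u
    rw [← h2]; group

theorem p11 : IsPt 11 0 := ⟨1, by rw [map_one]; rfl, by simp⟩
theorem p12 : IsPt 12 31673 := p11.step _ _
theorem p9 : IsPt 9 9719 := p12.step _ _
theorem p6 : IsPt 6 6547 := p9.step _ _
theorem p1 : IsPt 1 6545 := p6.step _ _
theorem p2 : IsPt 2 6543 := p1.step _ _
theorem p3 : IsPt 3 6542 := p2.step _ _
theorem p5 : IsPt 5 6544 := p2.step _ _
theorem p4 : IsPt 4 6541 := p3.step _ _
theorem p8 : IsPt 8 6540 := p4.step _ _
theorem p10 : IsPt 10 6539 := p8.step _ _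
theorem p7 : IsPt 7 7801 := p5.step _ _

/-- a base -/
def BB : List ℕ := [6545, 6543, 6542, 6541, 6544, 6547, 7801, 6540, 9719, 6539, 0, 31673]

theorem pts {x : ℕ} (h1 : 0 < x) (h2 : x ≤ 12) : ∃ p ∈ BB, IsPt x p := by
  interval_cases x
  exacts [⟨_, by decide, p1⟩, ⟨_, by decide, p2⟩, ⟨_, by decide, p3⟩, ⟨_, by decide, p4⟩,
    ⟨_, by decide, p5⟩, ⟨_, by decide, p6⟩, ⟨_, by decide, p7⟩, ⟨_, by decide, p8⟩,
    ⟨_, by decide, p9⟩, ⟨_, by decide, p10⟩, ⟨_, by decide, p11⟩, ⟨_, by decide, p12⟩]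

theorem base : Fx φ BB = ⊥ := by
  refine eq_bot_iff.2 fun y hy => mem_bot.2 ?_
  have hc : ∀ a : G, a * y = y * a := fun a => mem_centralizer_singleton_iff.1
    (grp_le (K := centralizer {y}) (fun x h1 h2 => by
      obtain ⟨p, hp, v, e1, e2⟩ := pts h1 h2
      have := tau_smul stab_le y ⟨v, e1⟩
      rw [hy p hp, ← e1, tau_eq stab_le, e2] at this
      exact mem_centralizer_singleton_iff.2 (eq_mul_inv_iff_mul_eq.1 this)) (PG.grp_top ▸ mem_top a))
  have hz : ∀ k, (∀ a, ψ a * ψ k = ψ k * ψ a) → ψ k = 1 := fun k hk => by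
    rcases F23.simple.eq_bot_or_eq_top_of_normal (center Fi23) inferInstance with h | h
    · rw [mem_bot.1 (h ▸ mem_center_iff.2 fun a => ψ_inj (by rw [map_mul, map_mul, hk]) : k ∈ ⊥),
        map_one]
    · have := mem_Fx_one.1 (F23.cent ▸ mem_centralizer_singleton_iff.2
        (mem_center_iff.1 (h ▸ mem_top F23.z) (wl F23.g [10])))
      rw [F23.A.map (l := [10]) (p := 0) (q := 3511) (by decide +kernel)] at this
      cases this
  rcases H_cases (chain.2 ▸ Fx_mono φ (by decide) hy) with ⟨k, h⟩ | ⟨k, h⟩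
  · exact h ▸ hz k fun a => h ▸ hc _
  · have e := hz k fun a => by
      rw [h, ← mul_assoc, mem_centralizer_singleton_iff.1 (stab_le (H_le (ψ_H a))), mul_assoc, hc,
        mul_assoc]
    have := hy 31673 (by decide)
    rw [eq_inv_of_mul_eq_one_right (h.symm.trans e), inv_eq_of_mul_eq_one_right (sq 11), ← wl_single g,
      mp _ 31673 31672] at this
    cases this

theorem weq {l l' : List ℕ} (h : eqb R 36 1048575 0 306936 12 BB l l' = true := by decide +kernel) :
    wl g l = wl g l' := A.eq base h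

end

end CfsgH5.F24
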