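/-
Fi24: checks (generated).
-/
import Cfsg.Agent.H5.F24D

set_option autoImplicit false
set_option maxRecDepth 100000
set_option linter.all false
set_option Elab.async false

namespace CfsgH5.F24

open KT

noncomputable section

theorem M_156000 : allIco 156000 157500 cm = true := by decide +kernel
theorem M_157500 : allIco 157500 159000 cm = true := by decide +kernel
theorem M_159000 : allIco 159000 160500 cm = true := by decide +kernel
theorem M_160500 : allIco 160500 162000 cm = true := by decide +kernel
theorem M_162000 : allIco 162000 163500 cm = true := by decide +kernel
theorem M_163500 : allIco 163500 165000 cm = true := by decide +kernel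
theorem M_165000 : allIco 165000 166500 cm = true := by decide +kernel
theorem M_166500 : allIco 166500 168000 cm = true := by decide +kernel
theorem M_168000 : allIco 168000 169500 cm = true := by decide +kernel
theorem M_169500 : allIco 169500 171000 cm = true := by decide +kernel
theorem M_171000 : allIco 171000 172500 cm = true := by decide +kernel
theorem M_172500 : allIco 172500 174000 cm = true := by decide +kernel
theorem M_174000 : allIco 174000 175500 cm = true := by decide +kernel
theorem M_175500 : allIco 175500 177000 cm = true := by decide +kernel
theorem M_177000 : allIco 177000 178500 cm = true := by decide +kernel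
theorem M_178500 : allIco 178500 180000 cm = true := by decide +kernel
theorem M_180000 : allIco 180000 181500 cm = true := by decide +kernel
theorem M_181500 : allIco 181500 183000 cm = true := by decide +kernel
theorem M_183000 : allIco 183000 184500 cm = true := by decide +kernel
theorem M_184500 : allIco 184500 186000 cm = true := by decide +kernel
theorem M_186000 : allIco 186000 187500 cm = true := by decide +kernel
theorem M_187500 : allIco 187500 189000 cm = true := by decide +kernel
theorem M_189000 : allIco 189000 190500 cm = true := by decide +kernel
theorem M_190500 : allIco 190500 192000 cm = true := by decide +kernel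
theorem M_192000 : allIco 192000 193500 cm = true := by decide +kernel
theorem M_193500 : allIco 193500 195000 cm = true := by decide +kernel
theorem M_all4 (h : ∀ p, p < 156000 → cm p = true) : ∀ p, p < 195000 → cm p = true := (all_of_blocks (all_of_blocks (all_of_blocks (all_of_blocks (all_of_blocks (all_of_blocks (all_of_blocks (all_of_blocks (all_of_blocks (all_of_blocks (all_of_blocks (all_of_blocks (all_of_blocks (all_of_blocks (all_of_blocks (all_of_blocks (all_of_blocks (all_of_blocks (all_of_blocks (all_of_blocks (all_of_blocks (all_of_blocks (all_of_blocks (all_of_blocks (all_of_blocks (all_of_blocks h M_156000) M_157500) M_159000) M_160500) M_162000) M_163500) M_165000) M_166500) M_168000) M_169500) M_171000) M_172500) M_174000) M_175500) M_177000) M_178500) M_180000) M_181500) M_183000) M_184500) M_186000) M_187500) M_189000) M_190500) M_192000) M_193500)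

end

end CfsgH5.F24
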