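/-
He: checks (generated).
-/
import Cfsg.Agent.H5.HeD

set_option autoImplicit false
set_option maxRecDepth 100000
set_option linter.all false
set_option Elab.async false

namespace CfsgH5.He

open KT

noncomputable section

theorem k4_0 : allIco 0 240 c4 = true := by decide +kernel
theorem allk4 : ∀ p, p < 240 → c4 p = true := (all_of_blocks all_zero k4_0)
theorem k5_0 : allIco 0 16 c5 = true := by decide +kernel
theorem allk5 : ∀ p, p < 16 → c5 p = true := (all_of_blocks all_zero k5_0)
theorem k6_0 : allIco 0 2 c6 = true := by decide +kernel
theorem allk6 : ∀ p, p < 2 → c6 p = true := (all_of_blocks all_zero k6_0)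
theorem k7_0 : allIco 0 255 c7 = true := by decide +kernel
theorem allk7 : ∀ p, p < 255 → c7 p = true := (all_of_blocks all_zero k7_0)
theorem k9_0 : allIco 0 700 c9 = true := by decide +kernel
theorem k9_700 : allIco 700 1400 c9 = true := by decide +kernel
theorem k9_1400 : allIco 1400 2058 c9 = true := by decide +kernel
theorem allk9 : ∀ p, p < 2058 → c9 p = true := (all_of_blocks (all_of_blocks (all_of_blocks all_zero k9_0) k9_700) k9_1400)
theorem m_0 : allIco 0 700 cm = true := by decide +kernel
theorem m_700 : allIco 700 1400 cm = true := by decide +kernel
theorem m_1400 : allIco 1400 2058 cm = true := by decide +kernel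
theorem allm : ∀ p, p < 2058 → cm p = true := (all_of_blocks (all_of_blocks (all_of_blocks all_zero m_0) m_700) m_1400)
theorem r_0 : allIco 0 150 cr = true := by decide +kernel
theorem r_150 : allIco 150 300 cr = true := by decide +kernel
theorem r_300 : allIco 300 450 cr = true := by decide +kernel
theorem r_450 : allIco 450 600 cr = true := by decide +kernel
theorem r_600 : allIco 600 750 cr = true := by decide +kernel
theorem r_750 : allIco 750 900 cr = true := by decide +kernel
theorem r_900 : allIco 900 1050 cr = true := by decide +kernel
theorem r_1050 : allIco 1050 1200 cr = true := by decide +kernel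
theorem r_1200 : allIco 1200 1350 cr = true := by decide +kernel
theorem r_1350 : allIco 1350 1500 cr = true := by decide +kernel
theorem r_1500 : allIco 1500 1650 cr = true := by decide +kernel
theorem r_1650 : allIco 1650 1800 cr = true := by decide +kernel
theorem r_1800 : allIco 1800 1950 cr = true := by decide +kernel
theorem r_1950 : allIco 1950 2058 cr = true := by decide +kernel
theorem allr : ∀ p, p < 2058 → cr p = true := (all_of_blocks (all_of_blocks (all_of_blocks (all_of_blocks (all_of_blocks (all_of_blocks (all_of_blocks (all_of_blocks (all_of_blocks (all_of_blocks (all_of_blocks (all_of_blocks (all_of_blocks (all_of_blocks all_zero r_0) r_150) r_300) r_450) r_600) r_750) r_900) r_1050) r_1200) r_1350) r_1500) r_1650) r_1800) r_1950)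
theorem kd0 : allIco 1 2058 (dchk R 12 4095 W kk 33554430 0) = true := by decide +kernel
theorem kd1 : allIco 2 137 (dchk R 12 4095 W kk 7339262 1) = true := by decide +kernel
theorem kd2 : allIco 138 273 (dchk R 12 4095 W kk 7339262 137) = true := by decide +kernel
theorem kd3 : allIco 274 698 (dchk R 12 4095 W kk 7339262 273) = true := by decide +kernel
theorem kd4 : allIco 699 2058 (dchk R 12 4095 W kk 7339262 698) = true := by decide +kernel
theorem kd5 : allIco 3 77 (dchk R 12 4095 W kk 5242076 2) = true := by decide +kernel
theorem kd6 : allIco 78 109 (dchk R 12 4095 W kk 1044552 77) = true := by decide +kernel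
theorem kd7 : allIco 4 9 (dchk R 12 4095 W kk 786440 3) = true := by decide +kernel

end

end CfsgH5.He
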