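/-
A presentation of a simple group of order 4030387200.
-/
import Cfsg.Agent.H5.HeK
import Cfsg.Agent.H5.F23S

set_option autoImplicit false
set_option maxRecDepth 100000
set_option linter.constructorNameAsVariable false

namespace CfsgH5.He

open KT Equiv Subgroup

noncomputable section

/-- the presented group -/
abbrev P : Type := PG E 9 rels

/-- the letters -/
abbrev g : ℕ → P := PG.g E 9 rels

theorem ub7 : Finite (grp g 7) ∧ Nat.card (grp g 7) ≤ 255 * (2 * (16 * (240 * 1))) :=
  card_step (PG.let2 D7 (by decide) (by decide +kernel) (by decide +kernel)) allk7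
    (card_step (PG.let2 D6 (by decide) (by decide +kernel) (by decide +kernel)) allk6
    (card_step (PG.let2 D5 (by decide) (by decide +kernel) (by decide +kernel)) allk5
    (card_step (PG.let2 D4 (by decide) (by decide +kernel) (by decide +kernel)) allk4
    (card_zero g) (by decide +kernel)) (L' := 4) (by decide +kernel)) (L' := 5) (by decide +kernel))
    (L' := 6) (by decide +kernel)

theorem ub9 : Finite (grp g 9) ∧ Nat.card (grp g 9) ≤ 2058 * (255 * (2 * (16 * (240 * 1)))) :=
  card_step (PG.let2 D9 (by decide) (by decide +kernel) (by decide +kernel)) allk9 ub7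
    (by decide +kernel)

instance finite : Finite P :=
  have : Finite (⊤ : Subgroup P) := PG.grp_top ▸ ub9.1
  Finite.of_equiv _ topEquiv.toEquiv

theorem M : Mod R 12 4095 0 2058 9 CL BL [1, 2, 3, 4, 5, 6, 7, 8, 9] :=
  ⟨fun x h1 h2 => by simp; omega, fun p _ => allm p⟩

/-- the permutation representation -/
def φ : P →* Perm ℕ := PG.lift (M.cox (by decide +kernel)) (fun _ => M.σ_out)
  (M.rels (by decide +kernel) fun p _ => allr p)

theorem A : Act g φ R 12 4095 0 2058 9 :=
  ⟨PG.cox.1, fun x p h1 h2 => by simp only [φ, PG.lift_g]; exact M.acts x p h1 h2⟩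

theorem dn {B : List ℕ} {M a b c : ℕ} (h : allIco b c (dchk R 12 4095 W kk M a) = true)
    (hd : band (Nat.ble c 2058) (fixW R 12 4095 0 2058 9 B W M) = true := by decide +kernel) :
    Down φ (Fx φ B) a b c := by
  rw [band_eq, Bool.and_eq_true, ble_true_iff] at hd
  exact A.down (A.fixW hd.2) (Nat.zero_le _) hd.1 h

/-- a base -/
def BB : List ℕ := [3, 77, 2, 1, 0]

theorem chain : Nat.card P = 4030387200 ∧ Fx φ BB = ⊥ := by
  have h1 := (dn (B := []) kd0).card_Fx
  have h2 := (dn (B := [0]) kd1).card_Fx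
  have h3 := (dn (B := [1, 0]) kd5).card_Fx
  have h4 := (dn (B := [2, 1, 0]) kd6).card_Fx
  have h5 := (dn (B := [77, 2, 1, 0]) kd7).card_Fx
  have h6 : 0 < Nat.card (Fx φ [3, 77, 2, 1, 0]) := Nat.card_pos
  have u := ub9.2
  rw [PG.grp_top, card_top] at u
  rw [Fx_nil, card_top] at h1
  exact ⟨by omega, card_eq_one.1 (by rw [BB]; omega)⟩

theorem weq {l l' : List ℕ} (h : eqb R 12 4095 0 2058 9 BB l l' = true := by decide +kernel) :
    wl g l = wl g l' := A.eq chain.2 h

theorem rk : RankN φ ⊤ 0 2058 4 (nthD [1, 137, 273, 698] 2058) (nthD [1, 3, 0, 2] 0) where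
  inv k _ := A.mem (PG.grp_top ▸ mem_top k) le_rfl (by decide)
  cov := fun p h1 h2 => by
    by_cases k1 : p < 137
    · exact ⟨0, by decide, h1, k1⟩
    by_cases k2 : p < 273
    · exact ⟨1, by decide, not_lt.1 k1, k2⟩
    by_cases k3 : p < 698
    · exact ⟨2, by decide, not_lt.1 k2, k3⟩
    · exact ⟨3, by decide, not_lt.1 k3, h2⟩
  dn i hi := by
    rw [top_inf_eq]
    interval_cases i
    exacts [dn kd1, dn kd2, dn kd3, dn kd4]
  lnk i hi := by
    have k : ∀ {u : List ℕ} {p q r a b c d : ℕ}, mapb R 12 4095 0 2058 9 u 0 p = true →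
        mapb R 12 4095 0 2058 9 u q r = true → (a ≤ p ∧ p < b) ∧ (a ≤ q ∧ q < b) ∧ c ≤ r ∧ r < d →
        ∃ u ∈ (⊤ : Subgroup P), a ≤ φ u 0 ∧ φ u 0 < b ∧ ∃ q, a ≤ q ∧ q < b ∧ c ≤ φ u q ∧ φ u q < d :=
      fun e1 e2 h => ⟨_, trivial, by
        rw [A.map e1]; exact ⟨h.1.1, h.1.2, _, h.2.1.1, h.2.1.2, by rw [A.map e2]; exact h.2.2⟩⟩
    interval_cases i <;> refine ⟨by decide, ?_⟩
    · exact k (u := [9, 2, 7, 9]) (p := 136) (q := 130) (r := 223) (by decide +kernel)
        (by decide +kernel) (by decide)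
    · exact k (u := [9, 7, 2, 9]) (p := 270) (q := 272) (r := 1030) (by decide +kernel)
        (by decide +kernel) (by decide)
    · exact k (u := [9]) (p := 660) (q := 619) (r := 133) (by decide +kernel)
        (by decide +kernel) (by decide)
    · exact k (u := [8]) (p := 698) (q := 1965) (r := 570) (by decide +kernel)
        (by decide +kernel) (by decide)
  cyc i hi j hj := ((by decide : ∀ i, i < 4 → ∀ j, j < 4 → ∃ n, n < 4 ∧
    (nthD [1, 3, 0, 2] 0)^[n] i = j) i hi j hj).imp fun _ h => h.2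
  ne := ⟨wl g [8], trivial, by rw [A.map (l := [8]) (p := 0) (q := 698) (by decide +kernel)]; decide⟩

theorem simple : IsSimpleGroup P := by
  have : Nontrivial P := Finite.one_lt_card_iff_nontrivial.1 (by rw [chain.1]; decide)
  refine ⟨fun N hN => ?_⟩
  have h1 : ∀ k ∈ (⊤ : Subgroup P), ∀ n ∈ N, k * n * k⁻¹ ∈ N := fun k _ n hn => hN.1 n hn k
  rcases rk.normal le_top h1 (p := 7) (e := 3) (by norm_num) (by norm_num)
    (by rw [card_top, chain.1]; norm_num) with k | k
  · left
    rw [eq_bot_iff, ← chain.2]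
    exact fun n hn b hb => k n hn b (Nat.zero_le _) ((by decide : ∀ b ∈ BB, b < 2058) b hb)
  right
  have hy : wl g [2, 4, 9] ∈ N := k _ trivial (by rw [← wl_rep]; exact weq (l' := []))
  have hN' : ∀ k ∈ grp g 9, ∀ n ∈ N, k * n * k⁻¹ ∈ N := fun k _ => h1 k trivial
  have c1 : g 1 ∈ N := wl_single g 1 ▸ mem_of_cert PG.cox.1 h1 (u := [1, 2]) (k := 3)
    (v := [2, 1, 2, 1, 4, 2, 7]) hy trivial trivial weq
  have c2 : g 2 ∈ N := wl_single g 2 ▸ mem_of_cert PG.cox.1 h1 (u := [2]) (k := 1)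
    (v := [5]) hy trivial trivial weq
  have c4 := PG.cox.step hN' c2 4
  have c5 := PG.cox.step hN' c2 5
  have c9 := PG.cox.step hN' c2 9
  have c7 := PG.cox.step hN' c9 7
  have c8 := PG.cox.step hN' c1 8
  have c3 : g 3 ∈ N := by
    rw [← wl_single g 3, weq (l' := [2, 1, 2, 1, 2, 1, 2, 1, 2, 1])]
    exact wl_mem_of (by simp [c1, c2])
  have c6 : g 6 ∈ N := by
    rw [← wl_single g 6, weq (l' := [3, 8, 3, 8])]
    exact wl_mem_of (by simp [c3, c8])
  rw [eq_top_iff, ← PG.grp_top]
  refine grp_le fun x x1 x2 => ?_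
  interval_cases x <;> assumption

end

end CfsgH5.He
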