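/-
Fi24: the class of transpositions, the simple subgroup of index two and the subgroup He.
-/
import Cfsg.Agent.H5.F24
import Cfsg.Agent.H5.He

set_option autoImplicit false
set_option maxRecDepth 100000
set_option linter.constructorNameAsVariable false

namespace CfsgH5.F24

open KT Cfsg.Spor Equiv Subgroup

noncomputable section

theorem l_ne : g 11 ≠ 1 := fun h => by
  have := ε_l
  rw [h, map_one] at this
  cases this

theorem cent : Fx φ [0] = centralizer {g 11} := by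
  rcases (r3 le_top).max (M := centralizer {g 11}) (inf_le_right.trans stab_le) le_top with h | h
  · rw [h, top_inf_eq]
  · have e := congrArg (fun x => φ x 0) (mem_centralizer_singleton_iff.1 (h ▸ mem_top (wl g [12])))
    rw [← wl_single g 11, ← wl_append, ← wl_append] at e
    simp only [List.cons_append, List.nil_append, mp [11, 12] 0 31672, mp [12, 11] 0 31673] at e
    cases e

theorem card_D : Nat.card (conjugatesOf (g 11)) = 306936 :=
  card_class cent (fun k => lt_N k (by decide)) fun _ => orb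

theorem three : ∀ x ∈ conjugatesOf (g 11), ∀ y ∈ conjugatesOf (g 11),
    (x * y) ^ 2 = 1 ∨ (x * y) ^ 3 = 1 := by
  obtain ⟨u, u1, u2⟩ := p9
  obtain ⟨v, v1, v2⟩ := p12
  exact (r3 le_top).three stab_le (sq 11) (u := u) (v := v) (by rw [u1]; decide) (by rw [u1]; decide)
    (by rw [v1]; decide) (by rw [v1]; decide)
    (u2 ▸ (cox.2 9 11 (by decide) (by decide)).1 (by decide +kernel))
    (v2 ▸ (cox.2 12 11 (by decide) (by decide)).2 (by decide +kernel))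

theorem gen_D : closure (conjugatesOf (g 11)) = ⊤ := by
  rw [eq_top_iff, ← PG.grp_top]
  exact grp_le fun x h1 h2 =>
    let ⟨_, _, v, _, e⟩ := pts h1 h2
    subset_closure (isConj_iff.2 ⟨v, e⟩)

theorem idx : ε.ker.index = 2 := index_eq_two_iff.2 ⟨g 11, fun b => by
  simp only [MonoidHom.mem_ker, map_mul, ε_l]
  rcases Int.units_eq_one_or (ε b) with h | h <;> rw [h] <;> decide⟩

theorem card_ker : Nat.card ε.ker = 1255205709190661721292800 := by
  have := ε.ker.card_mul_index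
  rw [idx, chain.1] at this
  omega

theorem stab_ker : ε.ker ⊓ Fx φ [0] ≤ ψ.range := fun a ha =>
  (H_cases (chain.2 ▸ ha.2)).resolve_right fun ⟨k, h⟩ => by
    have := ψ_ε k
    rw [h, MonoidHom.mem_ker, map_mul, ε_l, ha.1] at this
    cases this

theorem simple : IsSimpleGroup ε.ker := by
  refine CfsgH6.simple_of_dichotomy (fun h => ?_) fun N h hN => ?_
  · have := card_ker
    rw [h, card_bot] at this
    omega
  rcases (r3 le_rfl).normal h hN (p := 29) (by norm_num) (by norm_num)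
    (by rw [card_ker]; norm_num) with k | k
  · left
    rw [← base]
    exact fun n hn b hb => k n hn b (Nat.zero_le _) ((by decide : ∀ b ∈ BB, b < 306936) b hb)
  have hy : wl g [8, 4, 2, 1, 2, 3, 1, 6, 1, 12, 4, 10, 9, 6, 5, 7, 2, 11, 6, 3, 6, 5] ∈ N :=
    k _ even (by rw [← wl_rep]; exact weq (l' := []))
  have h9 : wl g [9, 11] ∈ N := mem_of_cert sq hN (u := [1, 11]) (k := 3)
    (v := [11, 6, 1, 2, 3, 4, 5, 2, 1, 3, 2, 6, 1, 8, 4, 10, 8, 12, 9, 6, 1, 2, 3, 4, 5, 2, 1, 3, 2,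
      6, 7, 5, 2, 1, 3, 2, 8, 4, 3, 2, 1, 5, 2, 7, 5, 9, 6, 1, 2, 3, 5, 7, 10, 8, 4, 3, 2, 1, 5, 2, 3,
      6, 12, 9]) hy even even weq
  have hK : N.comap ψ = ⊤ := (F23.simple.eq_bot_or_eq_top_of_normal _
    ⟨fun n hn a => by
      rw [mem_comap, map_mul, map_mul, map_inv]; exact hN _ (ψ_ε a) _ hn⟩).resolve_left fun e =>
    ψ_9_ne (by rw [← ψ_9, mem_bot.1 (e ▸ mem_comap.2 (ψ_9 ▸ h9) : F23.g 9 ∈ ⊥), map_one])
  refine Or.inr (((r3 le_rfl).max (stab_ker.trans ?_) h).resolve_left fun e => ?_)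
  · rintro _ ⟨a, rfl⟩
    exact mem_comap.1 (hK ▸ mem_top a)
  · have := mem_Fx_one.1 (e ▸ hy).2
    rw [mp _ 0 31677] at this
    cases this

/-! ### The subgroup He -/

/-- the words of the letters of He -/
def hw (x : ℕ) : List ℕ := List.getD [[], [12, 6, 9, 1, 6, 2, 5, 3, 2, 1, 2, 3, 5, 2, 6, 1, 9, 6, 12, 1], [7, 3, 2, 5, 4, 3, 2, 1, 2,
  3, 4, 5, 2, 3, 5, 2, 1, 2, 5, 4, 2, 7], [12, 11, 9, 12], [8, 10, 4, 8, 3, 2, 5, 4, 3, 2, 1, 2,
  3, 4, 5, 2, 3, 8, 4, 10, 8, 5, 1, 10], [5, 3, 1, 2, 5, 3, 2, 1, 2, 3, 5, 2], [9, 11], [4, 6, 9,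
  2, 3, 5, 2, 1, 6, 8, 10, 4, 8, 3, 2, 5, 4, 3, 2, 1, 2, 3, 4, 5, 2, 3, 8, 4, 10, 8, 2, 5, 3, 2,
  1, 2, 3, 5, 2, 6, 1, 2, 5, 3, 2, 9, 6, 10, 1, 4], [6, 9, 7, 1, 6, 2, 5, 1, 2, 3, 4, 8, 10, 1, 2,
  5, 7, 3, 2, 5, 4, 3, 2, 1, 6, 9, 2, 3, 4, 8, 2, 3, 1, 2, 5, 7, 2, 1, 6, 3, 2, 5, 4, 3, 2, 1, 2,
  3, 4, 5, 2, 3, 6, 1, 2, 7, 5, 2, 1, 3, 2, 8, 4, 3, 2, 9, 6, 1, 2, 3, 4, 5, 2, 3, 7, 5, 2, 1, 10,
  8, 4, 3, 2, 1, 5, 2, 6, 1, 7, 9, 6, 9], [5, 3, 8, 6, 1, 2, 3, 4, 8, 5, 2, 1, 6, 3, 2, 5, 4, 3,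
  2, 1, 2, 3, 4, 5, 2, 3, 6, 1, 2, 5, 8, 4, 3, 2, 1, 6]] x []

theorem hw_out {x : ℕ} (h : ¬ (0 < x ∧ x ≤ 9)) : wl g (hw x) = 1 := by
  rcases Nat.eq_zero_or_pos x with rfl | h1
  · rfl
  · rw [hw, List.getD_eq_default _ _ (by simp; omega)]; rfl

theorem hw_cox : Cox (fun x => wl g (hw x)) He.E := by
  refine ⟨fun x => ?_, fun x c hx hc => ?_⟩
  · by_cases h : 0 < x ∧ x ≤ 9
    · rw [← wl_append]
      exact weq (l' := []) ((allLt_iff 10 fun x => eqb R 36 1048575 0 306936 12 BB (hw x ++ hw x) []).1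
        (by decide +kernel) x (by omega))
    · simp only [hw_out h, one_mul]
  have := (allLt_iff _ _).1 ((allLt_iff 16 fun x => allLt 16 fun c =>
    force (ap 2 3 He.E (Nat.add c (Nat.mul 16 x))) fun k => bor (Nat.beq k 0)
      (eqb R 36 1048575 0 306936 12 BB (rep (hw x ++ hw c) (Nat.succ k)) [])).1
    (by decide +kernel) x hx) c hc
  simp only [force_eq, bor_eq, Bool.or_eq_true, beq_true_iff, Nat.add_eq, Nat.mul_eq] at this
  constructor <;> intro h <;> rw [h] at this <;> rw [← wl_append, ← wl_rep] <;>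
    exact weq (l' := []) (this.resolve_left (by decide))

theorem hw_rel : ∀ l ∈ He.rels, wl (fun x => wl g (hw x)) l = 1 := fun l hl => by
  rw [← wl_sbs]
  exact weq (l' := []) ((allL_iff He.rels fun l => eqb R 36 1048575 0 306936 12 BB (sbs hw l) []).1
    (by decide +kernel) l hl)

/-- the embedding of He -/
def χ : He.P →* G := PG.lift hw_cox (fun _ => hw_out) hw_rel

theorem χ_g (x : ℕ) : χ (He.g x) = wl g (hw x) := PG.lift_g _ _ _ x

theorem χ_mem {K : Subgroup G} (h : ∀ x, x ≤ 9 → wl g (hw x) ∈ K) (a : He.P) : χ a ∈ K :=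
  grp_le (K := K.comap χ) (fun x _ h2 => mem_comap.2 (χ_g x ▸ h x h2)) (PG.grp_top ▸ mem_top a)

theorem χ_ε (a : He.P) : χ a ∈ ε.ker := χ_mem (fun x h => even
  ((by decide +kernel : ∀ x, x ≤ 9 → wl sg (hw x) = 1) x h)) a

theorem χ_inj : Function.Injective χ :=
  (χ.ker_eq_bot_iff).1 ((He.simple.eq_bot_or_eq_top_of_normal _ inferInstance).resolve_right
    fun h => ψ_9_ne ((χ_g 6).symm.trans (h ▸ mem_top _ : He.g 6 ∈ χ.ker)))

end

end CfsgH5.F24
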