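/-
Unrolled operations on permutations of 8 points (generated).
-/
import Cfsg.Agent.H5.Perm

set_option autoImplicit false

namespace CfsgH5

open scoped Pointwise

noncomputable section

/-- unrolled product on 8 points -/
def mul8 (p q : ℕ) : ℕ :=
  (Nat.lor (Nat.lor (Nat.lor (Nat.lor (Nat.lor (Nat.lor (Nat.lor (Nat.lor 0
    (Nat.shiftLeft (Nat.land (Nat.shiftRight p (Nat.mul 3 (Nat.land (Nat.shiftRight q 0) 7))) 7) 0))
    (Nat.shiftLeft (Nat.land (Nat.shiftRight p (Nat.mul 3 (Nat.land (Nat.shiftRight q 3) 7))) 7) 3))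
    (Nat.shiftLeft (Nat.land (Nat.shiftRight p (Nat.mul 3 (Nat.land (Nat.shiftRight q 6) 7))) 7) 6))
    (Nat.shiftLeft (Nat.land (Nat.shiftRight p (Nat.mul 3 (Nat.land (Nat.shiftRight q 9) 7))) 7) 9))
    (Nat.shiftLeft (Nat.land (Nat.shiftRight p (Nat.mul 3 (Nat.land (Nat.shiftRight q 12) 7))) 7) 12))
    (Nat.shiftLeft (Nat.land (Nat.shiftRight p (Nat.mul 3 (Nat.land (Nat.shiftRight q 15) 7))) 7) 15))
    (Nat.shiftLeft (Nat.land (Nat.shiftRight p (Nat.mul 3 (Nat.land (Nat.shiftRight q 18) 7))) 7) 18))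
    (Nat.shiftLeft (Nat.land (Nat.shiftRight p (Nat.mul 3 (Nat.land (Nat.shiftRight q 21) 7))) 7) 21))

/-- unrolled inverse on 8 points -/
def inv8 (p : ℕ) : ℕ :=
  (Nat.lor (Nat.lor (Nat.lor (Nat.lor (Nat.lor (Nat.lor (Nat.lor (Nat.lor 0
    (Nat.shiftLeft 0 (Nat.mul 3 (Nat.land (Nat.shiftRight p 0) 7))))
    (Nat.shiftLeft 1 (Nat.mul 3 (Nat.land (Nat.shiftRight p 3) 7))))
    (Nat.shiftLeft 2 (Nat.mul 3 (Nat.land (Nat.shiftRight p 6) 7))))
    (Nat.shiftLeft 3 (Nat.mul 3 (Nat.land (Nat.shiftRight p 9) 7))))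
    (Nat.shiftLeft 4 (Nat.mul 3 (Nat.land (Nat.shiftRight p 12) 7))))
    (Nat.shiftLeft 5 (Nat.mul 3 (Nat.land (Nat.shiftRight p 15) 7))))
    (Nat.shiftLeft 6 (Nat.mul 3 (Nat.land (Nat.shiftRight p 18) 7))))
    (Nat.shiftLeft 7 (Nat.mul 3 (Nat.land (Nat.shiftRight p 21) 7))))

/-- unrolled image of a bit mask on 8 points -/
def act8 (p s : ℕ) : ℕ :=
  (Nat.lor (Nat.lor (Nat.lor (Nat.lor (Nat.lor (Nat.lor (Nat.lor (Nat.lor 0
    (Nat.shiftLeft (Nat.land (Nat.shiftRight s 0) 1) (Nat.land (Nat.shiftRight p 0) 7)))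
    (Nat.shiftLeft (Nat.land (Nat.shiftRight s 1) 1) (Nat.land (Nat.shiftRight p 3) 7)))
    (Nat.shiftLeft (Nat.land (Nat.shiftRight s 2) 1) (Nat.land (Nat.shiftRight p 6) 7)))
    (Nat.shiftLeft (Nat.land (Nat.shiftRight s 3) 1) (Nat.land (Nat.shiftRight p 9) 7)))
    (Nat.shiftLeft (Nat.land (Nat.shiftRight s 4) 1) (Nat.land (Nat.shiftRight p 12) 7)))
    (Nat.shiftLeft (Nat.land (Nat.shiftRight s 5) 1) (Nat.land (Nat.shiftRight p 15) 7)))
    (Nat.shiftLeft (Nat.land (Nat.shiftRight s 6) 1) (Nat.land (Nat.shiftRight p 18) 7)))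
    (Nat.shiftLeft (Nat.land (Nat.shiftRight s 7) 1) (Nat.land (Nat.shiftRight p 21) 7)))

/-- image of a point -/
def app8 (p i : ℕ) : ℕ := Nat.land (Nat.shiftRight p (Nat.mul 3 i)) 7

/-- operations on permutations of 8 points -/
def ops8 : Ops := ⟨8, 0xfac688, mul8, inv8, app8⟩

theorem ops8_eq : ops8 = permOps 3 7 8 := rfl

theorem act8_eq (p s : ℕ) : act8 p s = pact 3 7 8 p s := rfl

/-- the coding of the symmetric group on a type with 8 numbered points -/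
def Enc.codes8 {α : Type*} (E : Enc α 8) : Codes ops8 (Equiv.Perm α) α :=
  E.codes 3 7 (by norm_num) (by norm_num)

theorem Enc.codes8_code {α : Type*} (E : Enc α 8) (g : Equiv.Perm α) :
    E.codes8.code g = E.pcode 3 g := rfl

theorem Enc.codes8_enc {α : Type*} (E : Enc α 8) (a : α) : E.codes8.enc a = E.enc a := rfl

theorem Enc.in_top8 {α : Type*} (E : Enc α 8) {p : ℕ} (h : isPerm 3 7 8 p = true) :
    E.codes8.In ⊤ p := by
  obtain ⟨g, hg⟩ := E.exists_of_isPerm (by norm_num) (by norm_num) h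
  exact ⟨g, trivial, hg⟩

theorem Enc.valid8 {α : Type*} (E : Enc α 8) {S : List ℕ}
    (h : allL S (isPerm 3 7 8) = true) : ∀ s ∈ S, E.codes8.In ⊤ s :=
  fun s hs => E.in_top8 ((allL_iff _ _).1 h s hs)

theorem Enc.mask_smul8 {α : Type*} [DecidableEq α] (E : Enc α 8) (g : Equiv.Perm α)
    (s : Finset α) : E.mask (g • s) = act8 (E.codes8.code g) (E.mask s) :=
  E.mask_smul (by norm_num) (by norm_num) g s

end

end CfsgH5
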