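/-
One step in the determination of the overgroups of a subgroup.
-/
import Cfsg.Agent.H5.Alt

set_option autoImplicit false
set_option linter.unusedSimpArgs false
set_option linter.unusedSectionVars false
set_option linter.unusedVariables false

namespace CfsgH5

open scoped Pointwise
open MulAction

noncomputable section

/-- pairs of generators and words read from `e` in fields of `b` bits -/
def mkL (b m : ℕ) (S : List ℕ) : ℕ → List (ℕ × ℕ) :=
  List.rec (motive := fun _ => ℕ → List (ℕ × ℕ)) (fun _ => [])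
    (fun s _ ih e => (s, Nat.land e m) :: ih (Nat.shiftRight e b)) S

theorem mkL_fst (b m : ℕ) (S : List ℕ) (e : ℕ) : (mkL b m S e).map Prod.fst = S := by
  induction S generalizing e with
  | nil => rfl
  | cons s S ih =>
    show s :: (mkL b m S (Nat.shiftRight e b)).map Prod.fst = _
    rw [ih]

/-- first level: an element lies in `W`, or gives the prime `p`, or gives a member of a table -/
def stepA (O : Ops) (R : List ℕ) (p nT : ℕ) (T cert : ℕ → ℕ) (Wt : ℕ → Bool) (i g : ℕ) : Bool :=
  force (cert i) fun e => bif' (Nat.beq e 0) (Wt g)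
    (force (evalW O (g :: R) g (Nat.shiftRight e 11)) fun x =>
      force (Nat.land (Nat.shiftRight e 1) 1023) fun k =>
      bif' (tb e 0) (perChk O p x k) (band (Nat.blt k nT) (Nat.beq x (T k))))

/-- second level: each member of the table gives a conjugate of a target -/
def stepB (O : Ops) (R : List ℕ) (nT b m : ℕ) (T Y K E : ℕ → ℕ) (tg : List (List ℕ)) (yt : ℕ → Bool) :
    Bool :=
  allLt nT fun t => force (T t) fun g => force (Y t) fun y => force (K t) fun k =>
    band (Nat.blt k tg.length) (band (yt y) (embChk O (g :: R) y (mkL b m (tg.getD k []) (E t))))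

variable {O : Ops} {G : Type*} [Group G] [Finite G] {α : Type*} [MulAction G α] (C : Codes O G α)

theorem Codes.step {c : List Level} (hv : ∀ s ∈ gens c, C.In ⊤ s) (hc : checkC O c = true) (j : ℕ)
    {H W : Subgroup G} (hH : H ≤ C.grp (gens c)) (ht : C.grp (gens (c.drop j)) ≤ H)
    (htW : C.grp (gens (c.drop j)) ≤ W) {Wt : ℕ → Bool} (hW : ∀ g, Wt (C.code g) = true → g ∈ W)
    {R : List ℕ} (hR : ∀ r ∈ R, C.In H r) {p : ℕ} (hp : p.Prime) {nT b m : ℕ} {T cert Y K E : ℕ → ℕ}
    {tg : List (List ℕ)} {yt : ℕ → Bool} (hy : ∀ y, yt y = true → C.In ⊤ y)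
    (hA : allI O (stepA O R p nT T cert Wt) (c.take j) 0 O.one = true)
    (hB : stepB O R nT b m T Y K E tg yt = true) :
    H ≤ W ∨ p ∣ Nat.card H ∨ ∃ S ∈ tg, ∃ y : G, C.grp S ≤ MulAut.conj y • H := by
  by_cases h : H ≤ W
  · exact Or.inl h
  right
  obtain ⟨g, hg, hgW⟩ := SetLike.not_le_iff_exists.1 h
  obtain ⟨k, hk, i, hi⟩ := C.allI_one hv hc _ j hA g (hH hg)
  have hin : C.In H (C.code (k * g)) := C.in_code_iff.2 (H.mul_mem (ht hk) hg)
  have hR' : ∀ q, C.In H q → ∀ r ∈ q :: R, C.In H r := fun q hq r hr =>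
    (List.mem_cons.1 hr).elim (fun e => e ▸ hq) (hR r)
  rw [stepA, force_eq, bif'_eq, force_eq, force_eq, bif'_eq] at hi
  split_ifs at hi
  · exact absurd ((W.mul_mem_cancel_left (htW hk)).1 (hW _ hi)) hgW
  · exact Or.inl ((hin.evalW (hR' _ hin) _).dvd_card hp hi)
  · right
    rw [band_eq, Bool.and_eq_true, blt_true_iff, beq_true_iff] at hi
    have h2 := (allLt_iff _ _).1 hB _ hi.1
    simp only [force_eq, band_eq, Bool.and_eq_true, blt_true_iff] at h2
    obtain ⟨y, hy'⟩ := C.emb_sound (hR' _ (hi.2 ▸ hin.evalW (hR' _ hin) _)) (hy _ h2.2.1) h2.2.2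
    rw [mkL_fst] at hy'
    refine ⟨_, ?_, y, hy'⟩
    rw [List.getD_eq_getElem _ _ h2.1]
    exact List.getElem_mem _

/-- no nontrivial normal subgroup is a 2-group or has odd order -/
def NoN (X : Type*) [Group X] : Prop :=
  ∀ N : Subgroup X, N.Normal → (IsPGroup 2 N ∨ (Nat.card N).Coprime 2) → N = ⊥

theorem NoN.of_equiv {X Y : Type*} [Group X] [Group Y] (h : NoN X) (e : X ≃* Y) : NoN Y := by
  intro N hN h2
  have e' : N.comap e.toMonoidHom ≃* N := (e.subgroupMap _).trans
    (MulEquiv.subgroupCongr (Subgroup.map_comap_eq_self_of_surjective e.surjective N))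
  have := h (N.comap e.toMonoidHom) inferInstance
    (h2.imp (fun h2 => h2.of_equiv e'.symm) fun h2 => by rwa [Nat.card_congr e'.toEquiv])
  rw [← Subgroup.map_comap_eq_self_of_surjective (f := e.toMonoidHom) e.surjective N, this,
    Subgroup.map_bot]

theorem NoN.eq_one {H N : Subgroup G} (h : NoN H) (hn : H ≤ Subgroup.normalizer (N : Set G))
    (h2 : (∃ k, Nat.card N = 2 ^ k) ∨ (Nat.card N).Coprime 2) {x : G} (hx : x ∈ H) (hx' : x ∈ N) :
    x = 1 := by
  have hd : Nat.card (N.subgroupOf H) ∣ Nat.card N := by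
    rw [← Subgroup.inf_subgroupOf_right,
      Nat.card_congr (Subgroup.subgroupOfEquivOfLe inf_le_right).toEquiv]
    exact Subgroup.card_dvd_of_le inf_le_left
  have := h (N.subgroupOf H) ⟨fun n hn' g => (Subgroup.mem_normalizer_iff.1 (hn g.2) n).1 hn'⟩
    (h2.imp (fun ⟨k, hk⟩ => by
      obtain ⟨i, -, hi⟩ := (Nat.dvd_prime_pow Nat.prime_two).1 (hk ▸ hd)
      exact IsPGroup.of_card hi) fun h2 => h2.coprime_dvd_left hd)
  have hx'' : (⟨x, hx⟩ : H) ∈ N.subgroupOf H := hx'
  rw [this, Subgroup.mem_bot] at hx''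
  exact congrArg Subtype.val hx''

theorem NoN.not_card {X : Type*} [Group X] [Finite X] [Nontrivial X] (h : NoN X) {a : ℕ} :
    Nat.card X ≠ 2 ^ a ∧ Nat.card X ≠ 2 ^ a * 3 := by
  refine ⟨fun e => top_ne_bot (h ⊤ inferInstance (Or.inl (IsPGroup.of_card (by
    rw [Subgroup.card_top, e])))), fun e => ?_⟩
  obtain ⟨P, hP⟩ := Sylow.exists_subgroup_card_pow_prime 2 (n := a) (G := X) (e ▸ Dvd.intro _ rfl)
  have hi : P.index = 3 := by
    have := P.card_mul_index
    rw [hP, e] at this
    exact Nat.eq_of_mul_eq_mul_left (by positivity) this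
  have h1 := h P.normalCore inferInstance
    (Or.inl ((IsPGroup.of_card hP).to_le P.normalCore_le))
  rw [Subgroup.normalCore_eq_ker, MonoidHom.ker_eq_bot_iff] at h1
  have h2 := Subgroup.card_dvd_of_injective _ h1
  rw [Nat.card_perm, ← Subgroup.index, hi] at h2
  have : Fact (Nat.Prime 3) := ⟨by norm_num⟩
  obtain ⟨Q, hQ⟩ := Sylow.exists_subgroup_card_pow_prime 3 (n := 1) (G := X)
    (e ▸ Dvd.intro_left _ (by rw [pow_one]))
  have h3 := Q.card_mul_index
  have h4 := Nat.le_of_dvd (by decide) h2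
  rw [hQ] at h3
  have h5 : Q.Normal := by
    have : Q.index ≠ 0 := Subgroup.index_ne_zero_of_finite
    have : Q.index = 1 ∨ Q.index = 2 := by simp only [Nat.factorial] at h4; omega
    rcases this with h | h
    · rw [Subgroup.index_eq_one.1 h]; infer_instance
    · exact Subgroup.normal_of_index_eq_two h
  have := h Q h5 (Or.inr (by rw [hQ]; decide))
  rw [this, Subgroup.card_bot] at hQ
  exact absurd hQ (by decide)

end

end CfsgH5
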