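import Cfsg.Agent.H6.DCh
import Cfsg.Agent.H2.Extraspecial

/-! Carmichael's presentation of the alternating groups and extraspecial groups from generators. -/

set_option autoImplicit false

namespace CfsgH5.Th

open CfsgH5 CfsgH6 Subgroup Equiv

variable {Γ : Type*} [Group Γ]

theorem sq_swap {a b : Γ} (h : (a * b) ^ 2 = 1) : b * a * b = a⁻¹ := by
  rw [eq_inv_iff_mul_eq_one]
  calc b * a * b * a = a⁻¹ * (a * b) ^ 2 * a := by rw [pow_two]; group
    _ = 1 := by rw [h]; group

theorem cube_inv {a : Γ} (h : a ^ 3 = 1) : a⁻¹ * a⁻¹ = a := by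
  calc a⁻¹ * a⁻¹ = a⁻¹ * a⁻¹ * a ^ 3 := by rw [h, mul_one]
    _ = a := by group

theorem carm_pure [Finite Γ] (x : ℕ → Γ) (n : ℕ) (h3 : ∀ i, i < n → x i ^ 3 = 1)
    (h2 : ∀ i j, i < j → j < n → (x i * x j) ^ 2 = 1) :
    2 * Nat.card (closure (x '' Set.Iio n)) ≤ (n + 2).factorial := by
  induction n with
  | zero => simp
  | succ n ih =>
    have ih := ih (fun i hi => h3 i (by omega)) (fun i j hi hj => h2 i j hi (by omega))
    set H := closure (x '' Set.Iio n) with hH
    have hx : ∀ i, i < n → x i ∈ H := fun i hi => subset_closure ⟨i, hi, rfl⟩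
    set y := x n
    have y3 : y⁻¹ * y⁻¹ = y := cube_inv (h3 n (by omega))
    have e0 : ∀ i, i < n → y * x i * y = (x i)⁻¹ := fun i hi => sq_swap (h2 i n hi (by omega))
    have e0' : ∀ i, i < n → y⁻¹ * (x i)⁻¹ * y⁻¹ = x i := fun i hi => by
      rw [← inv_inj]; simpa [mul_assoc] using e0 i hi
    have es : ∀ i j, i < n → j < n → i ≠ j → x j * x i = (x i)⁻¹ * (x j)⁻¹ := by
      intro i j hi hj hij
      rcases Nat.lt_or_gt_of_ne hij with h | h
      · rw [← sq_swap (h2 i j h (by omega))]; group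
      · rw [← sq_swap (h2 j i h (by omega))]; group
    let P : Γ → Prop := fun g => g ∈ H ∨ g * y⁻¹ ∈ H ∨ g * y ∈ H ∨ ∃ i, i < n ∧ g * x i * y⁻¹ ∈ H
    have step : ∀ j, j < n + 1 → ∀ g, P g → P (g * x j) := by
      intro j hj g hg
      rcases Nat.lt_succ_iff_lt_or_eq.1 hj with hj' | rfl
      · have x3 := cube_inv (h3 j hj)
        rcases hg with h | h | h | ⟨i, hi, h⟩
        · exact Or.inl (H.mul_mem h (hx j hj'))
        · refine Or.inr (Or.inr (Or.inl ?_))
          have : g * x j * y = g * y⁻¹ * (x j)⁻¹ := by rw [← e0 j hj']; group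
          rw [this]; exact H.mul_mem h (H.inv_mem (hx j hj'))
        · refine Or.inr (Or.inr (Or.inr ⟨j, hj', ?_⟩))
          have : g * x j * x j * y⁻¹ = g * y * x j := by
            calc g * x j * x j * y⁻¹ = g * y * (y⁻¹ * ((x j)⁻¹ * (x j)⁻¹)⁻¹ * y⁻¹) := by
                  simp [mul_assoc]
              _ = g * y * x j := by rw [x3, e0' j hj']
          rw [this]; exact H.mul_mem h (hx j hj')
        · by_cases hij : i = j
          · subst hij; exact Or.inr (Or.inl h)
          · refine Or.inr (Or.inr (Or.inr ⟨i, hi, ?_⟩))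
            have : g * x j * x i * y⁻¹ = g * x i * y⁻¹ * ((x i)⁻¹ * x j) := by
              calc g * x j * x i * y⁻¹ = g * x i * y⁻¹ * (y * (x i)⁻¹ * (x j * x i) * y⁻¹) := by group
                _ = g * x i * y⁻¹ * (y * ((x i)⁻¹ * (x i)⁻¹) * y * (y⁻¹ * (x j)⁻¹ * y⁻¹)) := by
                  rw [es i j hi hj' hij]; group
                _ = _ := by rw [cube_inv (h3 i (by omega)), e0 i hi, e0' j hj']
            rw [this]; exact H.mul_mem h (H.mul_mem (H.inv_mem (hx i hi)) (hx j hj'))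
      · rcases hg with h | h | h | ⟨i, hi, h⟩
        · exact Or.inr (Or.inl (by simpa [y] using h))
        · refine Or.inr (Or.inr (Or.inl ?_))
          have : g * y * y = g * y⁻¹ := by
            calc g * y * y = g * (y⁻¹ * y⁻¹)⁻¹ := by simp [mul_assoc]
              _ = _ := by rw [y3]
          show g * y * y ∈ H
          rwa [this]
        · exact Or.inl h
        · refine Or.inr (Or.inr (Or.inr ⟨i, hi, ?_⟩))
          have : g * y * x i * y⁻¹ = g * x i * y⁻¹ * (x i)⁻¹ := by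
            calc g * y * x i * y⁻¹ = g * x i * y⁻¹ * (y * (x i)⁻¹ * (y * x i * y) * (y⁻¹ * y⁻¹)) := by
                  group
              _ = g * x i * y⁻¹ * (y * ((x i)⁻¹ * (x i)⁻¹) * y) := by rw [e0 i hi, y3]; group
              _ = _ := by rw [cube_inv (h3 i (by omega)), e0 i hi]
          show g * y * x i * y⁻¹ ∈ H
          rw [this]; exact H.mul_mem h (H.inv_mem (hx i hi))
    have all : ∀ g ∈ closure (x '' Set.Iio (n + 1)), P g := by
      intro g hg
      induction hg using closure_induction_right with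
      | one => exact Or.inl H.one_mem
      | mul_right g _ s hs ih => obtain ⟨j, hj, rfl⟩ := hs; exact step j hj g ih
      | mul_inv_cancel g _ s hs ih =>
        obtain ⟨j, hj, rfl⟩ := hs
        have : g * (x j)⁻¹ = g * x j * x j := by
          calc g * (x j)⁻¹ = g * ((x j)⁻¹ * (x j)⁻¹)⁻¹⁻¹⁻¹ := by rw [cube_inv (h3 j hj), inv_inv]
            _ = _ := by simp [mul_assoc]
        rw [this]; exact step j hj _ (step j hj g ih)
    let r : Fin (n + 3) → Γ := fun k =>
      if k.1 = n then 1 else if k.1 = n + 1 then y else if k.1 = n + 2 then y⁻¹ else y * (x k)⁻¹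
    let f : H × Fin (n + 3) → Γ := fun p => p.1 * r p.2
    have sub : (closure (x '' Set.Iio (n + 1)) : Set Γ) ⊆ Set.range f := by
      intro g hg
      rcases all g hg with h | h | h | ⟨i, hi, h⟩
      · exact ⟨(⟨g, h⟩, ⟨n, by omega⟩), by simp [f, r]⟩
      · exact ⟨(⟨_, h⟩, ⟨n + 1, by omega⟩), by simp [f, r]⟩
      · exact ⟨(⟨_, h⟩, ⟨n + 2, by omega⟩), by simp [f, r]⟩
      · refine ⟨(⟨_, h⟩, ⟨i, by omega⟩), ?_⟩
        simp only [f, r]
        rw [if_neg (by omega), if_neg (by omega), if_neg (by omega)]; group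
    have c1 : Nat.card (closure (x '' Set.Iio (n + 1))) ≤ Nat.card H * (n + 3) := by
      have := Nat.card_mono (Set.toFinite _) sub
      refine this.trans ((Finite.card_range_le f).trans ?_)
      simp
    calc 2 * Nat.card (closure (x '' Set.Iio (n + 1))) ≤ (n + 3) * (2 * Nat.card H) := by nlinarith
      _ ≤ (n + 3) * (n + 2).factorial := Nat.mul_le_mul_left _ ih
      _ = _ := (Nat.factorial_succ _).symm

/-- the three-cycles through two fixed points -/
def c9 (i : ℕ) : Perm (Fin 9) := swap 0 1 * swap 0 (Fin.ofNat 9 (i + 2))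

theorem c9_cube : ∀ i, i < 7 → c9 i ^ 3 = 1 := by decide +kernel

theorem c9_sq : ∀ j, j < 7 → ∀ i, i < j → (c9 i * c9 j) ^ 2 = 1 := by decide +kernel

theorem c9_closure : closure (c9 '' Set.Iio 7) = alternatingGroup (Fin 9) := by
  set H := closure (c9 '' Set.Iio 7)
  have hA : H ≤ alternatingGroup (Fin 9) := by
    refine (closure_le _).2 ?_
    rintro _ ⟨i, hi, rfl⟩
    have : ∀ i, i < 7 → Perm.sign (c9 i) = 1 := by decide +kernel
    exact Perm.mem_alternatingGroup.2 (this i hi)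
  have h1 : ∀ a : Fin 9, a ≠ 0 → swap 0 1 * swap 0 a ∈ H := by
    intro a ha
    by_cases h : a = 1
    · subst h; simp
    · have : ∀ a : Fin 9, a ≠ 0 → a ≠ 1 → a.1 - 2 < 7 ∧ c9 (a.1 - 2) = swap 0 1 * swap 0 a := by
        decide +kernel
      exact subset_closure ⟨a.1 - 2, (this a ha h).1, (this a ha h).2⟩
  have h2 : ∀ a : Fin 9, a ≠ 0 → ∀ g, g ∈ H ∨ g * swap 0 1 ∈ H →
      g * swap 0 a ∈ H ∨ g * swap 0 a * swap 0 1 ∈ H := by
    rintro a ha g (h | h)
    · right
      have := H.mul_mem h (H.inv_mem (h1 a ha))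
      simpa [mul_assoc] using this
    · left
      have := H.mul_mem h (h1 a ha)
      simpa [mul_assoc] using this
  have h3 : ∀ g : Perm (Fin 9), g ∈ H ∨ g * swap 0 1 ∈ H := by
    intro g
    induction g using Perm.swap_induction_on' with
    | one => exact Or.inl H.one_mem
    | mul_swap g a b hab ih =>
      by_cases ha : a = 0
      · subst ha; exact h2 b hab.symm g ih
      by_cases hb : b = 0
      · subst hb; rw [swap_comm]; exact h2 a ha g ih
      have : swap a b = swap 0 a * swap 0 b * swap 0 a := by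
        rw [swap_comm 0 b, swap_mul_swap_mul_swap hb hab.symm]
      rw [this, ← mul_assoc, ← mul_assoc]
      exact h2 a ha _ (h2 b hb _ (h2 a ha g ih))
  refine le_antisymm hA fun g hg => (h3 g).resolve_right fun h => ?_
  have e := Perm.mem_alternatingGroup.1 (hA h)
  rw [map_mul, Perm.mem_alternatingGroup.1 hg, Perm.sign_swap (by decide)] at e
  exact absurd e (by decide)

theorem carm_alt [Finite Γ] (x : ℕ → Γ) (h3 : ∀ i, i < 7 → x i ^ 3 = 1)
    (h2 : ∀ i j, i < j → j < 7 → (x i * x j) ^ 2 = 1) (ht : closure (x '' Set.Iio 7) = ⊤)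
    (h0 : x 0 ≠ 1) : Nonempty (Γ ≃* alternatingGroup (Fin 9)) := by
  let y : ℕ → Γ × Perm (Fin 9) := fun i => (x i, c9 i)
  set W := closure (y '' Set.Iio 7) with hW
  have hc : 2 * Nat.card W ≤ _ := carm_pure y 7 (fun i hi => Prod.ext (h3 i hi) (c9_cube i hi))
    (fun i j hi hj => Prod.ext (h2 i j hi hj) (c9_sq j hj i hi))
  have m1 : W.map (MonoidHom.fst _ _) = ⊤ := by
    rw [hW, MonoidHom.map_closure, ← Set.image_comp]; exact ht
  have m2 : W.map (MonoidHom.snd _ _) = alternatingGroup (Fin 9) := by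
    rw [hW, MonoidHom.map_closure, ← Set.image_comp]; exact c9_closure
  have ca : 2 * Nat.card (alternatingGroup (Fin 9)) = (7 + 2).factorial := by
    rw [two_mul_nat_card_alternatingGroup, Nat.card_perm, Nat.card_fin]
  have s2 : Function.Surjective ((MonoidHom.snd _ _).subgroupMap W) :=
    MonoidHom.subgroupMap_surjective _ _
  have b2 : Function.Bijective ((MonoidHom.snd _ _).subgroupMap W) := by
    refine s2.bijective_of_nat_card_le ?_
    rw [m2]; omega
  let E : W ≃* alternatingGroup (Fin 9) := (MulEquiv.ofBijective _ b2).trans (MulEquiv.subgroupCongr m2)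
  have : IsSimpleGroup (alternatingGroup (Fin 9)) := alternatingGroup.isSimpleGroup (by simp)
  have : IsSimpleGroup W := E.isSimpleGroup
  let f : W →* Γ := (MonoidHom.fst _ _).comp W.subtype
  have s1 : Function.Surjective f := by
    intro g
    obtain ⟨w, hw, rfl⟩ : g ∈ W.map (MonoidHom.fst _ _) := m1 ▸ mem_top g
    exact ⟨⟨w, hw⟩, rfl⟩
  have i1 : Function.Injective f := by
    rw [← MonoidHom.ker_eq_bot_iff]
    refine (f.normal_ker.eq_bot_or_eq_top).resolve_right fun h => h0 ?_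
    have : (⟨y 0, subset_closure ⟨0, by simp, rfl⟩⟩ : W) ∈ f.ker := h ▸ mem_top _
    exact this
  exact ⟨(MulEquiv.ofBijective f ⟨i1, s1⟩).symm.trans E⟩

theorem carm_rel [Finite Γ] {N K : Subgroup Γ} (x : ℕ → Γ) (n : ℕ) (hNK : N ≤ K)
    (hx : ∀ i, i < n → x i ∈ K) (hK : K ≤ N ⊔ closure (x '' Set.Iio n))
    (hN : ∀ i, i < n → ∀ κ ∈ N, (x i)⁻¹ * κ * x i ∈ N) (h3 : ∀ i, i < n → x i ^ 3 ∈ N)
    (h2 : ∀ i j, i < j → j < n → (x i * x j) ^ 2 ∈ N) :
    ∃ _ : (N.subgroupOf K).Normal, 2 * Nat.card K ≤ (n + 2).factorial * Nat.card N ∧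
      (n = 7 → x 0 ∉ N → Nonempty (K ⧸ N.subgroupOf K ≃* alternatingGroup (Fin 9))) := by
  have hn : K ≤ normalizer N := by
    refine hK.trans (sup_le le_normalizer ((closure_le _).2 ?_))
    rintro _ ⟨i, hi, rfl⟩
    refine (normalizer (N : Set Γ)).inv_mem_iff.1 (mem_normalizer_fintype fun κ hκ => ?_)
    simpa using hN i hi κ hκ
  have hno : (N.subgroupOf K).Normal := (normal_subgroupOf_iff_le_normalizer hNK).2 hn
  refine ⟨hno, ?_⟩
  classical
  let y : ℕ → K ⧸ N.subgroupOf K := fun i =>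
    if h : i < n then QuotientGroup.mk ⟨x i, hx i h⟩ else 1
  have y3 : ∀ i, i < n → y i ^ 3 = 1 := fun i hi => by
    simp only [y, dif_pos hi]
    rw [← QuotientGroup.mk_pow, QuotientGroup.eq_one_iff]; exact h3 i hi
  have y2 : ∀ i j, i < j → j < n → (y i * y j) ^ 2 = 1 := fun i j hi hj => by
    simp only [y, dif_pos hj, dif_pos (hi.trans hj)]
    rw [← QuotientGroup.mk_mul, ← QuotientGroup.mk_pow, QuotientGroup.eq_one_iff]
    exact h2 i j hi hj
  have yt : closure (y '' Set.Iio n) = ⊤ := by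
    set T := closure (y '' Set.Iio n)
    have : K ≤ (T.comap (QuotientGroup.mk' (N.subgroupOf K))).map K.subtype := by
      refine hK.trans (sup_le (fun κ hκ => ⟨⟨κ, hNK hκ⟩, ?_, rfl⟩) ((closure_le _).2 ?_))
      · have : (QuotientGroup.mk' (N.subgroupOf K)) ⟨κ, hNK hκ⟩ = 1 :=
          (QuotientGroup.eq_one_iff _).2 hκ
        show _ ∈ T
        rw [this]; exact T.one_mem
      · rintro _ ⟨i, hi, rfl⟩
        refine ⟨⟨x i, hx i hi⟩, subset_closure ⟨i, hi, ?_⟩, rfl⟩
        simp only [y, dif_pos (show i < n from hi)]; rfl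
    rw [eq_top_iff]
    rintro q -
    obtain ⟨k, rfl⟩ := QuotientGroup.mk_surjective q
    obtain ⟨k', h1, h2⟩ := this k.2
    obtain rfl : k' = k := Subtype.ext h2
    exact h1
  refine ⟨?_, ?_⟩
  · have := carm_pure y n y3 y2
    rw [yt, card_top] at this
    rw [card_eq_card_quotient_mul_card_subgroup (N.subgroupOf K),
      Nat.card_congr (subgroupOfEquivOfLe hNK).toEquiv]
    nlinarith
  · rintro rfl h0
    refine carm_alt y y3 y2 yt fun h => h0 ?_
    simp only [y, dif_pos (show 0 < 7 by omega)] at h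
    exact (QuotientGroup.eq_one_iff (N := N.subgroupOf K) _).1 h

/-- `K` is a central extension of an elementary abelian group with centre of order two -/
structure Sy (z : Γ) (K : Subgroup Γ) : Prop where
  mem : z ∈ K
  ne : z ≠ 1
  sq : z * z = 1
  cen : ∀ x ∈ K, x * z = z * x
  comm : ∀ x ∈ K, ∀ y ∈ K, x * y = y * x ∨ x * y = y * x * z
  pow : ∀ x ∈ K, x * x = 1 ∨ x * x = z
  nd : ∀ x ∈ K, (∀ y ∈ K, x * y = y * x) → x = 1 ∨ x = z

theorem mem_sup_inv {H : Subgroup Γ} {t : Γ} (ht : ∀ g ∈ H, ∃ g' ∈ H, t * g = g' * t) (h2 : t * t = 1)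
    {x : Γ} (hx : x ∈ H ⊔ zpowers t) : x ∈ H ∨ ∃ h ∈ H, x = h * t := by
  have ti : t⁻¹ = t := inv_eq_of_mul_eq_one_right h2
  let S : Subgroup Γ :=
    { carrier := {x | x ∈ H ∨ ∃ h ∈ H, x = h * t}
      one_mem' := Or.inl H.one_mem
      mul_mem' := by
        rintro a b (ha | ⟨a, ha, rfl⟩) (hb | ⟨b, hb, rfl⟩)
        · exact Or.inl (H.mul_mem ha hb)
        · exact Or.inr ⟨_, H.mul_mem ha hb, (mul_assoc _ _ _).symm⟩
        · obtain ⟨g, hg, e⟩ := ht b hb
          exact Or.inr ⟨_, H.mul_mem ha hg, by rw [mul_assoc, e, mul_assoc]⟩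
        · obtain ⟨g, hg, e⟩ := ht b hb
          refine Or.inl ?_
          rw [mul_assoc, ← mul_assoc t, e, mul_assoc, h2, mul_one]; exact H.mul_mem ha hg
      inv_mem' := by
        rintro a (ha | ⟨a, ha, rfl⟩)
        · exact Or.inl (H.inv_mem ha)
        · obtain ⟨g, hg, e⟩ := ht _ (H.inv_mem ha)
          exact Or.inr ⟨g, hg, by rw [mul_inv_rev, ti, e]⟩ }
  have : H ⊔ zpowers t ≤ S := sup_le (fun _ h => Or.inl h)
    ((zpowers_le).2 (Or.inr ⟨1, H.one_mem, (one_mul _).symm⟩))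
  exact this hx

theorem card_sup_inv [Finite Γ] {H : Subgroup Γ} {t : Γ} (ht : ∀ g ∈ H, ∃ g' ∈ H, t * g = g' * t)
    (h2 : t * t = 1) (hn : t ∉ H) : Nat.card (H ⊔ zpowers t : Subgroup Γ) = 2 * Nat.card H := by
  have ti : t⁻¹ = t := inv_eq_of_mul_eq_one_right h2
  have d1 := card_sup_dvd (H := H) (t := t) (m := 2) (fun κ hκ => by
    obtain ⟨g, hg, e⟩ := ht κ hκ
    rw [ti, e, mul_assoc, h2, mul_one]; exact hg) (by rw [pow_two, h2]; exact H.one_mem)
  obtain ⟨k, hk⟩ := card_dvd_of_le (le_sup_left : H ≤ H ⊔ zpowers t)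
  have hp : 0 < Nat.card H := Nat.card_pos
  rw [hk, mul_comm 2] at d1
  have : k ∣ 2 := Nat.dvd_of_mul_dvd_mul_left hp d1
  rcases (Nat.dvd_prime Nat.prime_two).1 this with rfl | rfl
  · have := eq_of_le_of_card_ge (le_sup_left : H ≤ H ⊔ zpowers t) (by omega)
    exact absurd (this ▸ mem_sup_right (mem_zpowers t) : t ∈ H) hn
  · omega

theorem Sy.base {z : Γ} (h1 : z ≠ 1) (h2 : z * z = 1) : Sy z (⊥ ⊔ zpowers z) := by
  have : ∀ x ∈ (⊥ ⊔ zpowers z : Subgroup Γ), x = 1 ∨ x = z := fun x hx => by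
    rcases mem_sup_inv (fun g hg => ⟨g, hg, by rw [mem_bot.1 hg]; simp⟩) h2 hx with h | ⟨h, hh, rfl⟩
    · exact Or.inl (mem_bot.1 h)
    · exact Or.inr (by rw [mem_bot.1 hh, one_mul])
  refine ⟨mem_sup_right (mem_zpowers z), h1, h2, fun x hx => ?_, fun x hx y hy => ?_, fun x hx => ?_,
    fun x hx _ => this x hx⟩
  · rcases this x hx with rfl | rfl <;> simp
  · rcases this x hx with rfl | rfl <;> rcases this y hy with rfl | rfl <;> simp
  · rcases this x hx with rfl | rfl <;> simp [h2]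

theorem Sy.step [Finite Γ] {z a b : Γ} {K : Subgroup Γ} (h : Sy z K) (ha : ∀ g ∈ K, g * a = a * g)
    (hb : ∀ g ∈ K, g * b = b * g) (a2 : a * a = 1) (b2 : b * b = 1) (ab : a * b = b * a * z) :
    Sy z (K ⊔ zpowers a ⊔ zpowers b) ∧
      Nat.card (K ⊔ zpowers a ⊔ zpowers b : Subgroup Γ) = 4 * Nat.card K := by
  have za := ha z h.mem
  have zb := hb z h.mem
  have nab : a * b ≠ b * a := fun e => h.ne (by rw [e] at ab; simpa using ab)
  have ba : b * a = a * b * z := by rw [ab, mul_assoc, h.sq, mul_one]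
  have n1 : ∀ g ∈ K, ∃ g' ∈ K, a * g = g' * a := fun g hg => ⟨g, hg, (ha g hg).symm⟩
  have n2 : ∀ g ∈ K ⊔ zpowers a, ∃ g' ∈ K ⊔ zpowers a, b * g = g' * b := by
    intro g hg
    rcases mem_sup_inv n1 a2 hg with h' | ⟨k, hk, rfl⟩
    · exact ⟨g, hg, (hb g h').symm⟩
    · refine ⟨k * a * z, mul_mem hg (mem_sup_left h.mem), ?_⟩
      rw [← mul_assoc, ← hb k hk, mul_assoc, ba, mul_assoc (k * a), zb]; group
  have form : ∀ x ∈ K ⊔ zpowers a ⊔ zpowers b, ∃ k ∈ K, x = k ∨ x = k * a ∨ x = k * b ∨ x = k * a * b := by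
    intro x hx
    rcases mem_sup_inv n2 b2 hx with h' | ⟨y, h', rfl⟩ <;>
      rcases mem_sup_inv n1 a2 h' with h'' | ⟨k, hk, rfl⟩
    · exact ⟨x, h'', Or.inl rfl⟩
    · exact ⟨k, hk, Or.inr (Or.inl rfl)⟩
    · exact ⟨y, h'', Or.inr (Or.inr (Or.inl rfl))⟩
    · exact ⟨k, hk, Or.inr (Or.inr (Or.inr rfl))⟩
  have mK : ∀ g ∈ K, g ∈ K ⊔ zpowers a ⊔ zpowers b := fun g hg => mem_sup_left (mem_sup_left hg)
  have ma : a ∈ K ⊔ zpowers a ⊔ zpowers b := mem_sup_left (mem_sup_right (mem_zpowers a))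
  have mb : b ∈ K ⊔ zpowers a ⊔ zpowers b := mem_sup_right (mem_zpowers b)
  have cen : ∀ x ∈ K ⊔ zpowers a ⊔ zpowers b, x * z = z * x := by
    intro x hx
    obtain ⟨k, hk, rfl | rfl | rfl | rfl⟩ := form x hx
    · exact h.cen _ hk
    · exact Commute.mul_left (h.cen _ hk) za.symm
    · exact Commute.mul_left (h.cen _ hk) zb.symm
    · exact Commute.mul_left (Commute.mul_left (h.cen _ hk) za.symm) zb.symm
  have mul1 : ∀ x x' y : Γ, x' * z = z * x' → y * z = z * y → (x * y = y * x ∨ x * y = y * x * z) →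
      (x' * y = y * x' ∨ x' * y = y * x' * z) →
      (x * x' * y = y * (x * x') ∨ x * x' * y = y * (x * x') * z) := by
    rintro x x' y c1 c2 (e | e) (e' | e')
    · left; rw [mul_assoc, e', ← mul_assoc, e, mul_assoc]
    · right; rw [mul_assoc, e', ← mul_assoc, ← mul_assoc, e]; group
    · right; rw [mul_assoc, e', ← mul_assoc, e, mul_assoc _ z, ← c1]; group
    · left; rw [mul_assoc, e', ← mul_assoc, ← mul_assoc, e, mul_assoc _ z, ← c1, mul_assoc, mul_assoc x',
        h.sq]; group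
  have sym : ∀ x y : Γ, (x * y = y * x ∨ x * y = y * x * z) → (y * x = x * y ∨ y * x = x * y * z) := by
    rintro x y (e | e)
    · exact Or.inl e.symm
    · right; rw [e, mul_assoc, h.sq, mul_one]
  have gen : ∀ y, y * z = z * y → (∀ k ∈ K, k * y = y * k ∨ k * y = y * k * z) →
      (a * y = y * a ∨ a * y = y * a * z) → (b * y = y * b ∨ b * y = y * b * z) →
      ∀ x ∈ K ⊔ zpowers a ⊔ zpowers b, x * y = y * x ∨ x * y = y * x * z := by
    intro y c h1 h2 h3 x hx
    obtain ⟨k, hk, rfl | rfl | rfl | rfl⟩ := form x hx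
    · exact h1 _ hk
    · exact mul1 _ _ _ za.symm c (h1 _ hk) h2
    · exact mul1 _ _ _ zb.symm c (h1 _ hk) h3
    · exact mul1 _ _ _ zb.symm c (mul1 _ _ _ za.symm c (h1 _ hk) h2) h3
  have comm : ∀ x ∈ K ⊔ zpowers a ⊔ zpowers b, ∀ y ∈ K ⊔ zpowers a ⊔ zpowers b,
      x * y = y * x ∨ x * y = y * x * z := by
    intro x hx y hy
    refine gen y (cen y hy) (fun k hk => sym _ _ (gen k (h.cen k hk) (fun k' hk' => h.comm _ hk' _ hk)
      (Or.inl (ha k hk).symm) (Or.inl (hb k hk).symm) y hy))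
      (sym _ _ (gen a za.symm (fun k hk => Or.inl (ha k hk)) (Or.inl rfl) (Or.inr ba) y hy))
      (sym _ _ (gen b zb.symm (fun k hk => Or.inl (hb k hk)) (Or.inr ab) (Or.inl rfl) y hy)) x hx
  have mul2 : ∀ x ∈ K ⊔ zpowers a ⊔ zpowers b, ∀ y ∈ K ⊔ zpowers a ⊔ zpowers b,
      (x * x = 1 ∨ x * x = z) → y * y = 1 → (x * y * (x * y) = 1 ∨ x * y * (x * y) = z) := by
    intro x hx y hy e1 e2
    have : x * y * (x * y) = x * x ∨ x * y * (x * y) = x * x * z := by
      rcases comm y hy x hx with e | e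
      · left
        calc x * y * (x * y) = x * (y * x) * y := by group
          _ = x * x * (y * y) := by rw [e]; group
          _ = _ := by rw [e2, mul_one]
      · right
        calc x * y * (x * y) = x * (y * x) * y := by group
          _ = x * x * (y * (z * y)) := by rw [e]; group
          _ = _ := by rw [← cen y hy, ← mul_assoc y, e2, one_mul]
    rcases this with e | e <;> rcases e1 with e' | e' <;> rw [e, e'] <;> simp [h.sq]
  refine ⟨⟨mK _ h.mem, h.ne, h.sq, cen, comm, fun x hx => ?_, fun x hx hc => ?_⟩, ?_⟩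
  · obtain ⟨k, hk, rfl | rfl | rfl | rfl⟩ := form x hx
    · exact h.pow _ hk
    · exact mul2 _ (mK _ hk) _ ma (h.pow _ hk) a2
    · exact mul2 _ (mK _ hk) _ mb (h.pow _ hk) b2
    · exact mul2 _ (mul_mem (mK _ hk) ma) _ mb (mul2 _ (mK _ hk) _ ma (h.pow _ hk) a2) b2
  · obtain ⟨k, hk, rfl | rfl | rfl | rfl⟩ := form x hx
    · exact h.nd _ hk fun y hy => hc y (mK y hy)
    · refine absurd ?_ nab
      have := hc b mb
      rw [← mul_assoc, ← hb k hk, mul_assoc, mul_assoc] at this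
      exact mul_left_cancel this
    · refine absurd ?_ nab
      have := hc a ma
      rw [← mul_assoc, ← ha k hk, mul_assoc, mul_assoc] at this
      exact (mul_left_cancel this).symm
    · refine absurd ?_ nab
      have := hc b mb
      rw [← mul_assoc, ← mul_assoc, ← hb k hk] at this
      have := mul_right_cancel this
      rw [mul_assoc, mul_assoc] at this
      exact mul_left_cancel this
  · have na : a ∉ K := fun e => nab (hb a e)
    have nb : b ∉ K ⊔ zpowers a := fun e => by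
      rcases mem_sup_inv n1 a2 e with h' | ⟨k, hk, e⟩
      · exact nab (ha b h').symm
      · apply nab; rw [e, ← mul_assoc, ← ha k hk]
    rw [card_sup_inv n2 b2 nb, card_sup_inv n1 a2 na]; ring

theorem Sy.extra [Finite Γ] {A : Type} [Group A] {z : Γ} {K : Subgroup Γ} (h : Sy z K) (j : A →* Γ)
    (hj : Function.Injective j) (hr : j.range = K) (hc : 2 < Nat.card K) :
    Cfsg.IsExtraspecial 2 A := by
  have : Finite A := Finite.of_injective j hj
  obtain ⟨w, rfl⟩ : z ∈ j.range := hr ▸ h.mem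
  have m : ∀ x, j x ∈ K := fun x => hr ▸ ⟨x, rfl⟩
  have w2 : w ^ 2 = 1 := hj (by rw [map_pow, pow_two, h.sq, map_one])
  have zp : ∀ x, j x = 1 ∨ j x = j w → x ∈ zpowers w := by
    rintro x (e | e)
    · rw [hj (e.trans j.map_one.symm)]; exact one_mem _
    · rw [hj e]; exact mem_zpowers _
  have S : CfsgH2.Sympl 2 w (⊤ : Subgroup A) := by
    refine ⟨mem_center_iff.2 fun g => hj ?_, fun e => h.ne (by rw [e, map_one]), w2, mem_top _,
      fun x _ y _ => zp _ ?_, fun x _ => zp _ ?_, fun x hx => zp _ (h.nd _ (m x) fun y hy => ?_)⟩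
    · simpa using h.cen _ (m g)
    · rcases h.comm _ (m x) _ (m y) with e | e
      · left; simp only [commutatorElement_def, map_mul, map_inv, e]; group
      · right
        simp only [commutatorElement_def, map_mul, map_inv, e]
        rw [h.cen _ (mul_mem (m y) (m x))]; group
    · simpa [pow_two] using h.pow _ (m x)
    · obtain ⟨y, rfl⟩ : y ∈ j.range := hr ▸ hy
      rw [← map_mul, ← map_mul, mem_centralizer_iff.1 hx.2 y (mem_top _)]
  refine CfsgH2.isExtraspecial_of_sympl S fun e => ?_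
  have c1 := S.card_zpowers
  rw [e, card_top, Nat.card_congr (MonoidHom.ofInjective hj).toEquiv, hr] at c1
  omega

end CfsgH5.Th
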