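/-
The action of special unitary groups on tables of subspaces.
-/
import Cfsg.Agent.H5.Fq
import Cfsg.Agent.H1.GU1

set_option autoImplicit false

namespace CfsgH5

open Matrix Cfsg

noncomputable section

/-- a sum computed by table -/
def fsum (w m TA n : ℕ) (f : ℕ → ℕ) : ℕ :=
  Nat.rec (motive := fun _ => ℕ) 0 (fun k acc => fop w m TA acc (f k)) n

/-- equality of field elements -/
def feq (Q a b : ℕ) : Bool := Nat.beq (Nat.mod a Q) (Nat.mod b Q)

/-- matrix times vector -/
def fmv (w m TA TM n a v : ℕ) : ℕ :=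
  pack w n fun i => fsum w m TA n fun j =>
    fop w m TM (ap w m a (Nat.add (Nat.mul n i) j)) (ap w m v j)

/-- the pivot column of row `s`, stored after the rows -/
def piv (W M k e s : ℕ) : ℕ := ap 3 7 (ap W M e k) s

/-- the rows have the identity matrix in the pivot columns -/
def pivOK (w m n W M k e : ℕ) : Bool :=
  allLt k fun s => force (piv W M k e s) fun p => band (Nat.blt p n)
    (allLt k fun r => Nat.beq (ap w m (ap W M e r) p) (bif' (Nat.beq r s) 1 0))

/-- membership in the span of the rows -/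
def inSp (Q w m TA TM n W M k e y : ℕ) : Bool :=
  allLt n fun t => feq Q (ap w m y t)
    (fsum w m TA k fun s => fop w m TM (ap w m y (piv W M k e s)) (ap w m (ap W M e s) t))

/-- the matrix `a` maps the rows of `e` into the span of the rows of `e'` -/
def mapsSp (Q w m TA TM n W M k a e e' : ℕ) : Bool :=
  allLt k fun r => force (force (ap W M e r) (fmv w m TA TM n a)) (inSp Q w m TA TM n W M k e')

/-- subspaces of the row space -/
abbrev Sub (n : ℕ) (F : Type*) [Field F] : Type _ := Submodule F (Fin n → F)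

instance instActSub {n q : ℕ} {F : Type*} [Field F] : MulAction (SU n F q) (Sub n F) where
  smul g W := Submodule.map (Matrix.mulVecLin (g.1 : Matrix (Fin n) (Fin n) F)) W
  one_smul W := by
    show Submodule.map (Matrix.mulVecLin (1 : Matrix (Fin n) (Fin n) F)) W = W
    rw [mulVecLin_one, Submodule.map_id]
  mul_smul g h W := by
    show Submodule.map (Matrix.mulVecLin ((g.1 : Matrix (Fin n) (Fin n) F) * (h.1 : Matrix (Fin n) (Fin n) F))) W = _
    rw [mulVecLin_mul, Submodule.map_comp]; rfl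

theorem sub_smul_def {n q : ℕ} {F : Type*} [Field F] (g : SU n F q) (W : Sub n F) :
    g • W = Submodule.map (Matrix.mulVecLin (g.1 : Matrix (Fin n) (Fin n) F)) W := rfl

namespace FT

variable {F : Type*} [Field F] {Q w m TA TM : ℕ} (T : FT F Q w m TA TM)

include T in
theorem ap_lt' (p i : ℕ) : ap w m p i < 2 ^ w := by rw [T.hm]; exact ap_lt _ _ _

include T in
theorem fsum_lt (n : ℕ) (f : ℕ → ℕ) : fsum w m TA n f < 2 ^ w := by
  cases n with
  | zero => exact Nat.two_pow_pos w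
  | succ n => exact T.ap_lt' _ _

theorem dec_fsum (n : ℕ) {f : ℕ → ℕ} (hf : ∀ i, f i < 2 ^ w) :
    T.dec (fsum w m TA n f) = ∑ i : Fin n, T.dec (f i) := by
  induction n with
  | zero => exact T.dec_zero
  | succ n ih =>
    rw [Fin.sum_univ_castSucc]
    exact (T.add _ (T.fsum_lt n f) _ (hf n)).trans (by rw [ih]; rfl)

theorem dec_dot (n : ℕ) (p p' f g : ℕ → ℕ) :
    T.dec (fsum w m TA n fun i => fop w m TM (ap w m (p i) (f i)) (ap w m (p' i) (g i))) =
      ∑ i : Fin n, T.dec (ap w m (p i) (f i)) * T.dec (ap w m (p' i) (g i)) := by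
  rw [T.dec_fsum n (f := fun i => fop w m TM (ap w m (p i) (f i)) (ap w m (p' i) (g i)))
    fun i => T.ap_lt' _ _]
  exact Finset.sum_congr rfl fun i _ => T.mul _ (T.ap_lt' _ _) _ (T.ap_lt' _ _)

theorem feq_iff (a b : ℕ) : feq Q a b = true ↔ T.dec a = T.dec b := by
  rw [T.eq_iff, feq, beq_true_iff]

/-- the vector with a given code -/
def vec (n v : ℕ) : Fin n → F := fun i => T.dec (ap w m v i)

/-- the entries of the matrix with a given code -/
def ent (n a : ℕ) (i j : Fin n) : F := T.dec (ap w m a (Nat.add (Nat.mul n i) j))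

/-- the matrix with a given code -/
def mat (n a : ℕ) : Matrix (Fin n) (Fin n) F := Matrix.of (T.ent n a)

theorem vec_fmv (n a v : ℕ) : T.vec n (fmv w m TA TM n a v) = T.mat n a *ᵥ T.vec n v := by
  funext i
  have : ap w m (fmv w m TA TM n a v) i = fsum w m TA n fun j =>
      fop w m TM (ap w m a (Nat.add (Nat.mul n i) j)) (ap w m v j) := by
    conv_lhs => rw [T.hm]
    rw [fmv, ap_pack _ _ _ (fun _ _ => T.hm ▸ T.fsum_lt _ _) _ i.2, ← T.hm]
  rw [vec, this, T.dec_dot n (fun _ => a) (fun _ => v)]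
  rfl

/-- the span of the rows of an entry -/
def sp (n W M k e : ℕ) : Sub n F := Submodule.span F (Set.range fun r : Fin k => T.vec n (ap W M e r))

variable {n W M k : ℕ}

theorem pivOK_spec {e : ℕ} (h : pivOK w m n W M k e = true) (s : Fin k) :
    ∃ hp : piv W M k e s < n, ∀ r : Fin k,
      T.vec n (ap W M e r) ⟨_, hp⟩ = if r = s then 1 else 0 := by
  have := (allLt_iff _ _).1 h s s.2
  simp only [force_eq, band_eq, Bool.and_eq_true, blt_true_iff, allLt_iff, beq_true_iff] at this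
  refine ⟨this.1, fun r => ?_⟩
  rw [vec, this.2 r r.2, bif'_eq]
  by_cases hr : r = s
  · simp [hr, T.dec_one]
  · simp [hr, Fin.val_inj, T.dec_zero]

theorem mem_sp_iff {e : ℕ} (h : pivOK w m n W M k e = true) (y : ℕ) :
    T.vec n y ∈ T.sp n W M k e ↔ inSp Q w m TA TM n W M k e y = true := by
  have e1 : inSp Q w m TA TM n W M k e y = true ↔ T.vec n y =
      ∑ s : Fin k, T.dec (ap w m y (piv W M k e s)) • T.vec n (ap W M e s) := by
    rw [inSp, allLt_iff, funext_iff]
    refine ⟨fun h t => ?_, fun h t ht => ?_⟩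
    · have := (T.feq_iff _ _).1 (h t t.2)
      rw [T.dec_dot k (fun _ => y) (fun s => ap W M e s)] at this
      rw [Finset.sum_apply]; exact this
    · rw [T.feq_iff, T.dec_dot k (fun _ => y) (fun s => ap W M e s)]
      have := h ⟨t, ht⟩
      rw [Finset.sum_apply] at this; exact this
  rw [e1, sp, Submodule.mem_span_range_iff_exists_fun]
  refine ⟨?_, fun h => ⟨_, h.symm⟩⟩
  rintro ⟨c, hc⟩
  rw [← hc]
  refine Finset.sum_congr rfl fun s _ => ?_
  obtain ⟨hp, hs⟩ := T.pivOK_spec h s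
  have := congrFun hc ⟨_, hp⟩
  simp only [Finset.sum_apply, Pi.smul_apply, hs, smul_eq_mul, mul_ite, mul_one, mul_zero,
    Finset.sum_ite_eq', Finset.mem_univ, if_true] at this
  rw [this]; rfl

theorem finrank_sp {e : ℕ} (h : pivOK w m n W M k e = true) :
    Module.finrank F (T.sp n W M k e) = k := by
  rw [sp, finrank_span_eq_card, Fintype.card_fin]
  rw [Fintype.linearIndependent_iff]
  intro c hc s
  obtain ⟨hp, hs⟩ := T.pivOK_spec h s
  simpa [Finset.sum_apply, hs] using congrFun hc ⟨_, hp⟩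

theorem smul_sp {q : ℕ} {e e' a : ℕ} (h : pivOK w m n W M k e = true)
    (h' : pivOK w m n W M k e' = true) (hm : mapsSp Q w m TA TM n W M k a e e' = true)
    {g : SU n F q} (hg : (g.1 : Matrix (Fin n) (Fin n) F) = T.mat n a) :
    g • T.sp n W M k e = T.sp n W M k e' := by
  rw [sub_smul_def]
  apply Submodule.eq_of_le_of_finrank_eq
  · rw [sp, Submodule.map_span, Submodule.span_le]
    rintro _ ⟨_, ⟨r, rfl⟩, rfl⟩
    have := (allLt_iff _ _).1 hm r r.2
    rw [force_eq, force_eq, ← T.mem_sp_iff h', T.vec_fmv, ← hg] at this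
    exact this
  · rw [T.finrank_sp h', ← (Submodule.equivMapOfInjective (Matrix.mulVecLin (g.1 : Matrix (Fin n) (Fin n) F))
      (slHom n F g.1).injective (T.sp n W M k e)).finrank_eq, T.finrank_sp h]

/-- all checks for one generator -/
theorem acts {q N w' m' a π : ℕ} [NeZero N] (hw : N ≤ 2 ^ w') (hm' : m' = 2 ^ w' - 1) {tab : ℕ → ℕ}
    (h1 : allLt N (fun i => force (tab i) (pivOK w m n W M k)) = true)
    (h2 : isPerm w' m' N π = true)
    (h3 : allLt N (fun i => force (tab i) fun e => force (force (ap w' m' π i) tab)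
      (mapsSp Q w m TA TM n W M k a e)) = true)
    (hg : ∃ g : SU n F q, (g.1 : Matrix (Fin n) (Fin n) F) = T.mat n a) :
    ∃ g : SU n F q, Acts (fun i => T.sp n W M k (tab i)) N w' m' g π := by
  obtain ⟨g, hg⟩ := hg
  simp only [allLt_iff, force_eq] at h1 h3
  exact ⟨g, h2, fun i hi => T.smul_sp (h1 i hi) (h1 _ ((isPerm_spec hw hm' h2).2.1 i hi)) (h3 i hi) hg⟩

theorem sp_ne {N : ℕ} {tab : ℕ → ℕ} (h1 : pivOK w m n W M k (tab 0) = true)
    (h : allLt N (fun j => bor (Nat.beq j 0) (force (tab 0) fun e => force (tab j) fun e' =>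
      bnot (allLt k fun r => force (ap W M e' r) (inSp Q w m TA TM n W M k e)))) = true) :
    ∀ j, j < N → T.sp n W M k (tab 0) = T.sp n W M k (tab j) → j = 0 := by
  intro j hj e
  have := (allLt_iff _ _).1 h j hj
  simp only [bor_eq, force_eq, bnot_eq, Bool.or_eq_true, beq_true_iff, Bool.not_eq_true'] at this
  refine this.resolve_right fun h2 => ?_
  refine absurd ((allLt_iff _ _).2 fun r hr => ?_) (by rw [h2]; simp)
  rw [← T.mem_sp_iff h1, e]
  exact Submodule.subset_span ⟨⟨r, hr⟩, rfl⟩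

end FT

section SU

variable {F : Type*} [Field F] {n q : ℕ}

theorem exists_su [Fintype F] (hF : Fintype.card F = q ^ 2) {A L U : Fin n → Fin n → F}
    (h : (∀ i j, ∑ k, A k i ^ q * A k j = if i = j then 1 else 0) ∧
      (∀ i j, A i j = ∑ k, L i k * U k j) ∧ (∀ i j, i < j → L i j = 0) ∧ (∀ i j, j < i → U i j = 0) ∧
      (∏ i, L i i) * ∏ i, U i i = 1) :
    ∃ g : SU n F q, (g.1 : Matrix (Fin n) (Fin n) F) = Matrix.of A := by
  obtain ⟨h1, h2, h3, h4, h5⟩ := h
  obtain ⟨σ, hσ, -⟩ := CfsgH7.exists_qfrob hF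
  have hd : (Matrix.of A).det = 1 := by
    rw [show Matrix.of A = Matrix.of L * Matrix.of U from Matrix.ext h2, det_mul,
      det_of_isLowerTriangular (Matrix.of L) fun i j h => h3 i j h,
      det_of_isUpperTriangular (M := Matrix.of U) fun i j h => h4 i j h]
    exact h5
  refine ⟨⟨⟨_, hd⟩, (CfsgH7.mem_SU_iff hσ _).2 ?_⟩, rfl⟩
  ext i j
  rw [Matrix.mul_apply, one_apply, ← h1]
  exact Finset.sum_congr rfl fun k _ => by rw [← hσ]; rfl

theorem center_smul_sub [Fintype F] (hF : Fintype.card F = q ^ 2) (hn : 3 ≤ n) {z : SU n F q}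
    (hz : z ∈ Subgroup.center (SU n F q)) (W : Sub n F) : z • W = W := by
  have key : ∀ z ∈ Subgroup.center (SU n F q), ∀ x ∈ W,
      (z.1 : Matrix (Fin n) (Fin n) F) *ᵥ x ∈ W := by
    intro z hz x hx
    obtain ⟨c, hc⟩ := (CfsgH7.diagPSU_eq_one_iff hF hn (g := CfsgH7.suToGU z)).1 (by
      rw [CfsgH7.diagPSU_suToGU, (QuotientGroup.eq_one_iff z).2 hz, map_one])
    rw [CfsgH7.suToGU_coe] at hc
    rw [hc, smul_mulVec, one_mulVec]
    exact Submodule.smul_mem _ _ hx
  rw [sub_smul_def]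
  refine le_antisymm ?_ fun x hx => ⟨_, key _ (inv_mem hz) x hx, ?_⟩
  · rintro _ ⟨x, hx, rfl⟩
    exact key z hz x hx
  · rw [mulVecLin_apply, mulVec_mulVec]
    have : (z.1 : Matrix (Fin n) (Fin n) F) * ((z⁻¹).1 : Matrix (Fin n) (Fin n) F) = 1 :=
      congrArg (fun g : SU n F q => (g.1 : Matrix (Fin n) (Fin n) F)) (mul_inv_cancel z)
    rw [this, one_mulVec]

theorem card_SU_mul [Fintype F] (hF : Fintype.card F = q ^ 2) [NeZero n] :
    (Nat.card (SU n F q) : ℤ) * (q + 1) = CfsgH1.ordGU q n := by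
  rw [← CfsgH1.card_GU hF, ← card_range_mul (CfsgH7.detGU (n := n) hF),
    MonoidHom.range_eq_top.2 (CfsgH7.detGU_surjective hF), Subgroup.card_top,
    IsCyclic.card_powMonoidHom_ker, Nat.card_units, Nat.card_eq_fintype_card (α := F), hF,
    show q ^ 2 - 1 = (q + 1) * (q - 1) by rw [← Nat.sq_sub_sq], Nat.gcd_mul_right_left, mul_comm]
  push_cast
  congr 2
  refine Nat.card_eq_of_bijective (fun s => ⟨CfsgH7.suToGU s, Subtype.ext (Units.ext s.1.2)⟩)
    ⟨fun s t h => Subtype.ext (Subtype.ext ?_), fun g => ?_⟩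
  · exact congrArg (fun x => (x.1.1 : Matrix (Fin n) (Fin n) F)) h
  · exact ⟨⟨⟨g.1.1, congrArg (fun x => (x.1 : F)) g.2⟩, g.1.2⟩, Subtype.ext (Subtype.ext (Units.ext rfl))⟩

theorem card_center_SU_ge [Fintype F] (hF : Fintype.card F = q ^ 2) [NeZero n] (s : Finset F)
    (h : ∀ c ∈ s, c ^ n = 1 ∧ c ^ q * c = 1) : s.card ≤ Nat.card (Subgroup.center (SU n F q)) := by
  obtain ⟨σ, hσ, -⟩ := CfsgH7.exists_qfrob hF
  rw [← Nat.card_eq_finsetCard s]
  refine Nat.card_le_card_of_injective (fun c => ⟨⟨⟨c.1 • 1, by simp [(h c c.2).1]⟩,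
    (CfsgH7.mem_SU_iff hσ _).2 ?_⟩, Subgroup.mem_center_iff.2 fun g => Subtype.ext (Subtype.ext ?_)⟩)
    fun c d e => Subtype.ext ?_
  · show CfsgH7.ct σ (c.1 • 1) * (c.1 • 1) = 1
    rw [CfsgH7.ct_smul, CfsgH7.ct_one, smul_mul_smul_comm, hσ, (h c c.2).2, one_mul, one_smul]
  · show (g.1 : Matrix (Fin n) (Fin n) F) * (c.1 • 1) = (c.1 • 1) * g.1
    simp
  · simpa using congrArg (fun x => (x.1.1 : Matrix (Fin n) (Fin n) F) 0 0) e

variable {K : Type*} [Field K]

theorem su_map (e : F ≃+* K) {g : SpecialLinearGroup (Fin n) F} (hg : g ∈ SU n F q) :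
    slEquiv e n g ∈ SU n K q := by
  have h1 : ∀ u v : Fin n → F, hermForm n K q (e ∘ u) (e ∘ v) = e (hermForm n F q u v) := by
    intro u v; simp [hermForm]
  have h2 : ∀ u : Fin n → K, (slEquiv e n g : Matrix (Fin n) (Fin n) K) *ᵥ u =
      e ∘ ((g : Matrix (Fin n) (Fin n) F) *ᵥ (e.symm ∘ u)) := by
    intro u; funext i
    simp [slEquiv, mulVec, dotProduct]
  intro u v
  show hermForm n K q ((slEquiv e n g : Matrix (Fin n) (Fin n) K) *ᵥ u)
    ((slEquiv e n g : Matrix (Fin n) (Fin n) K) *ᵥ v) = _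
  rw [h2, h2, h1, show hermForm n F q ((g : Matrix (Fin n) (Fin n) F) *ᵥ (e.symm ∘ u))
    ((g : Matrix (Fin n) (Fin n) F) *ᵥ (e.symm ∘ v)) = _ from hg _ _, ← h1]
  congr 1 <;> funext i <;> simp

/-- transport of special unitary groups along a field isomorphism -/
def suEquiv (e : F ≃+* K) (n q : ℕ) : SU n F q ≃* SU n K q where
  toFun g := ⟨slEquiv e n g, su_map e g.2⟩
  invFun g := ⟨slEquiv e.symm n g, su_map e.symm g.2⟩
  left_inv g := Subtype.ext ((slEquiv e n).left_inv g)
  right_inv g := Subtype.ext ((slEquiv e n).right_inv g)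
  map_mul' g h := Subtype.ext (map_mul (slEquiv e n) g.1 h.1)

theorem psu_equiv [Fintype F] [Fintype K] (h : Fintype.card F = Fintype.card K) (n q : ℕ) :
    Nonempty (PSU n F q ≃* PSU n K q) :=
  ⟨quotCenterEquiv (suEquiv (FiniteField.ringEquivOfCardEq h) n q)⟩

/-- identification of a projective special unitary group with a permutation group -/
theorem psu_equiv_of_tab [Fintype F] (hF : Fintype.card F = q ^ 2) (hn : 3 ≤ n) {D : ℕ → Sub n F}
    {N w m : ℕ} [NeZero N] (hw : N ≤ 2 ^ w) (hm : m = 2 ^ w - 1) {S : List ℕ}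
    (hS : ∀ π ∈ S, ∃ g : SU n F q, Acts D N w m g π) {gen dep : ℕ → ℕ}
    (hf : ptForest (permOps w m N) S (fun _ => 0) gen dep = true)
    (h0 : ∀ j, j < N → D 0 = D j → j = 0) {t : ℕ} (ht : t ≤ Nat.card ((PC N w m hw hm).grp S))
    (s : Finset F) (hs : ∀ c ∈ s, c ^ n = 1 ∧ c ^ q * c = 1)
    (ho : CfsgH1.ordGU q n ≤ t * s.card * (q + 1)) :
    Nonempty (PSU n F q ≃* (PC N w m hw hm).grp S) := by
  have : NeZero n := ⟨by omega⟩
  refine quot_equiv_of_tab hw hm (fun z hz i _ => center_smul_sub hF hn hz _) hS hf h0 ht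
    (le_trans ?_ (Nat.mul_le_mul_left _ (card_center_SU_ge hF s hs)))
  rw [← card_SU_mul hF] at ho
  exact_mod_cast le_of_mul_le_mul_right ho (by positivity)

end SU

end

end CfsgH5
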